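import Cfsg.Agent.H17.B5a

/-! The degree equation of the principal 5-block of a group of order `5 * 2 ^ a * 3 ^ b`. -/

set_option autoImplicit false

namespace Cfsg.Agent.H17.B5

/-- the numbers `2 ^ a * 3 ^ b` -/
def D (a b : ℕ) : ℕ := 2 ^ a * 3 ^ b

theorem D_pos (a b : ℕ) : 0 < D a b := by unfold D; positivity

theorem D_two (a : ℕ) : D a 0 = 2 ^ a := by simp [D]

theorem D_three (b : ℕ) : D 0 b = 3 ^ b := by simp [D]

theorem D_add (a k b : ℕ) : D (a + k) b = 2 ^ k * D a b := by unfold D; ring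

theorem D_add' (a b k : ℕ) : D a (b + k) = 3 ^ k * D a b := by unfold D; ring

theorem D_lit (k b : ℕ) : D k b = 2 ^ k * D 0 b := by unfold D; ring

theorem D16 {A : ℕ} (h : 4 ≤ A) (b : ℕ) : D A b % 16 = 0 := by
  obtain ⟨k, rfl⟩ : ∃ k, A = k + 4 := ⟨A - 4, by omega⟩
  rw [D_add]; omega

theorem D9 {B : ℕ} (h : 2 ≤ B) (a : ℕ) : D a B % 9 = 0 := by
  obtain ⟨k, rfl⟩ : ∃ k, B = k + 2 := ⟨B - 2, by omega⟩
  rw [D_add']; omega

/-- signed degrees -/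
def Sm (s : ℤ) (a b : ℕ) : Prop := s % 5 = 1 ∧ s ≠ 1 ∧ s.natAbs = D a b

theorem Sm.form {s : ℤ} {a b : ℕ} (h : Sm s a b) : ((a + 3 * b) % 4 = 0 ∧ s = D a b) ∨
    ((a + 3 * b) % 4 = 2 ∧ s = -D a b) := by
  obtain ⟨h1, -, h2⟩ := h
  obtain ⟨r, hr, e, h3⟩ := red 1 2 4 5 (by norm_num) (by norm_num) a
  obtain ⟨t, ht, e', h4⟩ := red 1 3 4 5 (by norm_num) (by norm_num) b
  rw [one_mul, one_mul] at h3 h4
  have h5 : D a b % 5 = _ := Nat.mul_mod (2 ^ a) (3 ^ b) 5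
  rw [h3, h4] at h5
  interval_cases r <;> interval_cases t <;> norm_num at h5 <;> omega

theorem pow3_16 (b : ℕ) : (b % 4 = 0 ∧ D 0 b % 16 = 1) ∨ (b % 4 = 1 ∧ D 0 b % 16 = 3) ∨
    (b % 4 = 2 ∧ D 0 b % 16 = 9) ∨ (b % 4 = 3 ∧ D 0 b % 16 = 11) := by
  obtain ⟨r, hr, e, h⟩ := red 1 3 4 16 (by norm_num) (by norm_num) b
  rw [one_mul, ← D_three] at h
  interval_cases r <;> omega

theorem pow2_3 (a : ℕ) : (a % 2 = 0 ∧ D a 0 % 3 = 1) ∨ (a % 2 = 1 ∧ D a 0 % 3 = 2) := by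
  obtain ⟨r, hr, e, h⟩ := red 1 2 2 3 (by norm_num) (by norm_num) a
  rw [one_mul, ← D_two] at h
  interval_cases r <;> omega

theorem pow2_5 (a : ℕ) : (a % 4 = 0 ∧ D a 0 % 5 = 1) ∨ (a % 4 = 1 ∧ D a 0 % 5 = 2) ∨
    (a % 4 = 2 ∧ D a 0 % 5 = 4) ∨ (a % 4 = 3 ∧ D a 0 % 5 = 3) := by
  obtain ⟨r, hr, e, h⟩ := red 1 2 4 5 (by norm_num) (by norm_num) a
  rw [one_mul, ← D_two] at h
  interval_cases r <;> omega

/-- the possible residues modulo 16 -/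
theorem Sm.val {s : ℤ} {a b : ℕ} (h : Sm s a b) :
    (a = 0 ∧ (s % 16 = 1 ∨ s % 16 = 7)) ∨ (a = 1 ∧ s % 4 = 2) ∨ (a = 2 ∧ s % 8 = 4) ∨
      (a = 3 ∧ s % 16 = 8) ∨ (4 ≤ a ∧ s % 16 = 0) := by
  have h1 := h.form
  have h2 := pow3_16 b
  by_cases h4 : 4 ≤ a
  · have := D16 h4 b
    omega
  have h3 := D_lit a b
  have : a < 4 := by omega
  interval_cases a <;> omega

theorem Sm.three {s : ℤ} {a b : ℕ} (h : Sm s a b) : (b = 0 ∧ s % 3 ≠ 0) ∨ (1 ≤ b ∧ s % 3 = 0) := by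
  have h1 := h.form
  have h2 := pow2_3 a
  rcases b with _ | b
  · omega
  · rw [D_add'] at h1; omega

theorem Sm.nine {s : ℤ} {a b : ℕ} (h : Sm s a b) (h9 : (1 + s) % 9 = 0) : (1 + s) % 7 = 0 := by
  obtain rfl : b = 0 := by have := h.three; omega
  have h1 := h.form
  obtain ⟨r, hr, e, h⟩ := red 1 2 12 63 (by norm_num) (by norm_num) a
  rw [one_mul, ← D_two] at h
  interval_cases r <;> omega

theorem Sm.pos {s : ℤ} {a : ℕ} (h : Sm s a 0) : 2 ≤ a := by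
  have h1 := h.form
  have := h.2.1
  have : D 0 0 = 1 := rfl
  rcases a with _ | _ | a <;> omega

theorem Sm.pos' {s : ℤ} {b : ℕ} (h : Sm s 0 b) : 2 ≤ b := by
  have h1 := h.form
  have := h.2.1
  have : D 0 0 = 1 := rfl
  rcases b with _ | _ | b <;> omega

theorem inj2 {a b : ℕ} (h : D a 0 = D b 0) : a = b :=
  Nat.pow_right_injective (a := 2) (by norm_num) (by simpa only [D_two] using h)

theorem inj3 {a b : ℕ} (h : D 0 a = D 0 b) : a = b :=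
  Nat.pow_right_injective (a := 3) (by norm_num) (by simpa only [D_three] using h)

theorem catD {l b : ℕ} (h : D l 0 = D 0 b + 1 ∨ D l 0 + 1 = D 0 b) : l ≤ 3 :=
  cat23 (by simpa only [D_two, D_three] using h)

theorem eqIc {A B b m : ℕ} (hA : A % 4 = 2) (hB : B % 4 = 0) (hb : b % 4 = 1) (hm : m % 4 = 3) :
    1 + D 0 B + 2 * D 0 b + 8 * D 0 m ≠ D A 0 := by
  obtain ⟨r1, h1, e1, k1⟩ := red 1 3 8 41 (by norm_num) (by norm_num) B
  obtain ⟨r2, h2, e2, k2⟩ := red 1 3 8 41 (by norm_num) (by norm_num) b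
  obtain ⟨r3, h3, e3, k3⟩ := red 1 3 8 41 (by norm_num) (by norm_num) m
  obtain ⟨r4, h4, e4, k4⟩ := red 1 2 20 41 (by norm_num) (by norm_num) A
  rw [one_mul, ← D_three] at k1 k2 k3
  rw [one_mul, ← D_two] at k4
  have g1 : D 0 B % 41 = 1 ∨ D 0 B % 41 = 40 := by interval_cases r1 <;> omega
  have g2 : D 0 b % 41 = 3 ∨ D 0 b % 41 = 38 := by interval_cases r2 <;> omega
  have g3 : D 0 m % 41 = 27 ∨ D 0 m % 41 = 14 := by interval_cases r3 <;> omega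
  have g4 : D A 0 % 41 = 4 ∨ D A 0 % 41 = 23 ∨ D A 0 % 41 = 40 ∨ D A 0 % 41 = 25 ∨
      D A 0 % 41 = 31 := by interval_cases r4 <;> omega
  clear k1 k2 k3 k4 e1 e2 e3 e4
  omega

/-- the numerical solutions -/
def Tup (A B : ℕ) (s1 s2 s3 s4 : ℤ) : Prop :=
  (A = 6 ∧ B = 4 ∧ s1 = -64 ∧ s2 = 81 ∧ s3 = 6 ∧ s4 = -24) ∨
  (A = 6 ∧ B = 4 ∧ s1 = -64 ∧ s2 = 81 ∧ s3 = -54 ∧ s4 = 36) ∨
  (A = 8 ∧ B = 6 ∧ s1 = 256 ∧ s2 = -729 ∧ s3 = 256 ∧ s4 = 216) ∨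
  (A = 8 ∧ B = 6 ∧ s1 = -64 ∧ s2 = -729 ∧ s3 = 576 ∧ s4 = 216) ∨
  (A = 5 ∧ B = 3 ∧ s1 = -4 ∧ s2 = -9 ∧ s3 = 36 ∧ s4 = -24)

variable {A B a1 b2 a3 b3 a4 b4 : ℕ} {s1 s2 s3 s4 u w : ℤ} (hA : 4 ≤ A) (hB : 2 ≤ B)
  (h1 : Sm s1 a1 0) (h2 : Sm s2 0 b2) (h3 : Sm s3 a3 b3) (h4 : Sm s4 a4 b4)
  (hs : 1 + s1 + s2 + s3 + s4 = 0)

section
include hA hB h1 h2 h3 h4 hs

theorem c1' (l3 : b3 ≤ B) (l4 : b4 ≤ B) (e1 : s1 = -D A 0) (e2 : s2 = D 0 B)
    (hA2 : A % 4 = 2) (hB2 : B % 4 = 0) (ha : a3 = 1) : Tup A B s1 s2 s3 s4 := by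
  subst ha
  have hk := D16 hA 0
  have f3 := h3.form
  have f4 := h4.form
  have v4 := h4.val
  have g3 := pow3_16 b3
  have gB := pow3_16 B
  have g4 := pow3_16 b4
  have k3 := D_lit 1 b3
  have gB' : D 0 B % 16 = 1 := by omega
  clear gB h1 h2 h3 h4
  rcases f3 with ⟨f3, f3'⟩ | ⟨f3, f3'⟩
  · have g3' : D 0 b3 % 16 = 3 := by omega
    obtain rfl : a4 = 3 := by clear f4 g3 g4; omega
    have k4 := D_lit 3 b4
    have h8 : s4 % 16 = 8 := by omega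
    have k5 := eqIc (A := A) (B := B) (b := b3) (m := b4) hA2 hB2 (by omega)
    have hm : b4 % 4 = 1 := by clear g4; omega
    clear g3 v4 k5
    obtain ⟨rfl, rfl, rfl, rfl⟩ := eqIa (A := A) (B := B) (b := b3) (m := b4) hA2 hA hB2 (by omega)
      (by omega) l3 l4 (by simp only [← D_two, ← D_three]; omega)
    norm_num [D] at e1 e2 f3'
    left; omega
  · have g3' : D 0 b3 % 16 = 11 := by omega
    obtain rfl : a4 = 2 := by clear f4 g3 g4; omega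
    have k4 := D_lit 2 b4
    clear g3 v4
    obtain ⟨rfl, rfl, rfl, rfl⟩ := eqIb (A := A) (B := B) (b := b3) (m := b4) hA2 hA hB2 (by omega)
      (by omega) l3 l4 (by simp only [← D_two, ← D_three]; omega)
    norm_num [D] at e1 e2 f3'
    right; left; omega

theorem c1 (l3 : b3 ≤ B) (l4 : b4 ≤ B) (k3 : a3 ≠ 0) (k4 : a4 ≠ 0) (j3 : b3 ≠ 0) (j4 : b4 ≠ 0)
    (e1 : s1 = D A 0 * u) (e2 : s2 = D 0 B * w) (huw : u * w = -1) :
    Tup A B s1 s2 s3 s4 ∨ Tup A B s1 s2 s4 s3 := by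
  have t : s1 % 3 = 2 := by
    have t2 := h2.three
    have t3 := h3.three
    have t4 := h4.three
    have p2 := h2.pos'
    omega
  have n1 := h1.2.2
  have n2 := h2.2.2
  rcases Int.eq_one_or_neg_one_of_mul_eq_neg_one' huw with ⟨rfl, rfl⟩ | ⟨rfl, rfl⟩
  · obtain rfl := inj2 (a := a1) (b := A) (by omega)
    have g := pow2_3 a1
    have f1 := h1.form
    omega
  obtain rfl := inj2 (a := a1) (b := A) (by omega)
  obtain rfl := inj3 (a := b2) (b := B) (by omega)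
  have a4' : a1 % 4 = 2 := by have := h1.form; have := D_pos a1 0; omega
  have b4' : b2 % 4 = 0 := by have := h2.form; have := D_pos 0 b2; omega
  have ha : a3 = 1 ∨ a4 = 1 := by
    have v1 := D16 hA 0
    have v2 : D 0 b2 % 16 = 1 := by have := pow3_16 b2; omega
    have v3 := h3.val
    have v4 := h4.val
    omega
  rcases ha with ha | ha
  · exact Or.inl (c1' hA hB h1 h2 h3 h4 hs l3 l4 (by omega) (by omega) a4' b4' ha)
  · exact Or.inr (c1' hA hB h1 h2 h4 h3 (by omega) l4 l3 (by omega) (by omega) a4' b4' ha)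

theorem c2 (l1 : a1 ≤ A) (m3 : a3 ≤ A) (l3 : b3 ≤ B) (l4 : b4 ≤ B) (j4 : b4 ≠ 0)
    (e1 : s1 + s3 = D A 0 * u) (e2 : s2 = D 0 B * w) (huw : u * w = -2) :
    (A = 4 ∧ B = 2) ∨ Tup A B s1 s2 s3 s4 := by
  have t13 : (s1 + s3) % 3 = 2 := by
    have t2 := h2.three
    have t4 := h4.three
    have p2 := h2.pos'
    omega
  have t5 : (s1 + s3) % 5 = 2 := by
    have m1 := h1.1
    have m3' := h3.1
    omega
  have o2 : s2 % 2 = 1 := by have := h2.val; omega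
  have hw : w.natAbs ≤ 2 := Nat.le_of_dvd two_pos ⟨u.natAbs, by
    rw [← Int.natAbs_mul, mul_comm, huw]; rfl⟩
  obtain ⟨rfl, rfl⟩ : w = -1 ∧ u = 2 := by
    have : -2 ≤ w := by omega
    have : w ≤ 2 := by omega
    interval_cases w
    · omega
    · omega
    · omega
    · obtain rfl : u = -2 := by omega
      have g := pow2_3 A
      have g5 := pow2_5 A
      omega
    · omega
  obtain rfl := inj3 (a := b2) (b := B) (by have := h2.2.2; omega)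
  have hA4 : A % 4 = 0 := by have := pow2_5 A; omega
  have hB4 : b2 % 4 = 2 := by have := h2.form; have := D_pos 0 b2; omega
  obtain rfl : a4 = 3 := by
    have hk := D16 hA 0
    have v4 := h4.val
    have g2 : D 0 b2 % 16 = 9 := by have := pow3_16 b2; omega
    omega
  have f4 := h4.form
  have k4 := D_lit 3 b4
  clear t13 t5 o2 hw
  rcases f4 with ⟨f4, f4'⟩ | ⟨f4, f4'⟩
  · obtain ⟨rfl, rfl, rfl⟩ := eqIIp (A := A) (B := b2) (m := b4) hA4 hA hB4 (by omega)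
      l4 (by simp only [← D_two, ← D_three]; omega)
    have f1 := h1.form
    rw [D_two] at f1
    norm_num [D] at e1 e2 f4'
    have d3 : s3.natAbs ∣ 2 ^ 8 * 3 ^ 6 := h3.2.2 ▸ mul_dvd_mul (pow_dvd_pow 2 m3) (pow_dvd_pow 3 l3)
    obtain rfl : s3 = 512 - s1 := by omega
    have p1 := h1.pos
    right
    interval_cases a1 <;> rcases f1 with ⟨f1, rfl⟩ | ⟨f1, rfl⟩ <;>
      first | omega | (unfold Tup; omega) | (exfalso; revert d3; decide)
  · exact Or.inl (eqIIm (A := A) (B := b2) (m := b4) hA4 hA hB4 (by omega)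
      (by simp only [← D_two, ← D_three]; omega))

omit hA hB h2 h4 hs in
theorem ratio (l1 : a1 ≤ A) (m3 : a3 ≤ A) (j3 : b3 ≠ 0) (e1 : (s1 + s3).natAbs = D A 0) :
    s3 = -9 * s1 := by
  have f1 := h1.form
  have f3 := h3.form
  have n3 : ∀ l, 3 ≤ D l b3 := fun l => by
    obtain ⟨b, rfl⟩ : ∃ k, b3 = k + 1 := ⟨b3 - 1, by omega⟩
    have := D_pos l b
    rw [D_add']; omega
  have g3 := pow3_16 b3
  have key : ∀ i k l m : ℕ, a1 = k + i → a3 = l + i → A = m + i →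
      D k 0 + D l b3 = D m 0 ∨ D k 0 = D l b3 + D m 0 ∨ D k 0 + D m 0 = D l b3 := by
    rintro i k l m rfl rfl rfl
    have hi := Nat.pos_of_ne_zero (pow_ne_zero i two_ne_zero)
    rw [D_add] at f1 e1 f3
    generalize 2 ^ i = X at *
    have : X * (D k 0 + D l b3) = X * D m 0 ∨ X * D k 0 = X * (D l b3 + D m 0) ∨
        X * (D k 0 + D m 0) = X * D l b3 := by
      simp only [mul_add]; omega
    simpa only [Nat.mul_right_inj hi.ne'] using this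
  have d0 : D 0 0 = 1 := rfl
  rcases lt_trichotomy a1 a3 with h | h | h
  · obtain ⟨l, rfl⟩ := Nat.exists_eq_add_of_lt h
    have := key a1 0 (l + 1) (A - a1) (by omega) (by omega) (by omega)
    have n4 := n3 l
    rw [D_add] at this
    rcases hm : A - a1 with _ | m
    · rw [hm] at this; omega
    · rw [hm, D_add] at this; omega
  · subst h
    have h5 := key a1 0 0 (A - a1) (by omega) (by omega) (by omega)
    have n5 := D_pos (A - a1) 0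
    have n4 := n3 0
    have h6 := catD (l := A - a1) (b := b3) (by omega)
    have h7 : D (A - a1) 0 ≤ 2 ^ 3 := by rw [D_two]; exact Nat.pow_le_pow_right (by norm_num) h6
    have h8 : b3 < 3 := (Nat.pow_lt_pow_iff_right (a := 3) (by norm_num)).1 (by
      rw [← D_three b3]; omega)
    have := D_pos a1 0
    have e2 := D_add' a1 0 b3
    rw [zero_add] at e2
    interval_cases b3 <;> omega
  · obtain ⟨k, rfl⟩ := Nat.exists_eq_add_of_lt h
    obtain ⟨m, rfl⟩ := Nat.exists_eq_add_of_le l1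
    have := key a3 (k + 1) 0 (k + m + 1) (by omega) (by omega) (by omega)
    rw [D_add, D_add] at this
    omega

theorem c4 (l1 : a1 ≤ A) (m3 : a3 ≤ A) (l2 : b2 ≤ B)
    (e1 : s1 + s3 = D A 0 * u) (e2 : s2 + s3 = D 0 B * w) (huw : u * w = 1) :
    Tup A B s1 s2 s3 s4 := by
  have p1 := h1.pos
  have p2 := h2.pos'
  obtain ⟨B, rfl⟩ : ∃ k, B = k + 2 := ⟨B - 2, by omega⟩
  rw [D_add'] at e2
  have hu : (s1 + s3).natAbs = D A 0 ∧ (s2 + s3).natAbs = 9 * D 0 B := by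
    rcases Int.eq_one_or_neg_one_of_mul_eq_one' huw with ⟨rfl, rfl⟩ | ⟨rfl, rfl⟩ <;> omega
  clear e1 e2 huw
  obtain ⟨e1, e2⟩ := hu
  have r := ratio h1 h3 l1 m3 (by have := h2.three; have := h3.three; omega) e1
  subst r
  have f2 := h2.form
  have n1 := h1.2.2
  obtain rfl : b2 = 2 := by
    by_contra h
    obtain ⟨b, rfl⟩ : ∃ k, b2 = k + 3 := ⟨b2 - 3, by omega⟩
    obtain ⟨B, rfl⟩ : ∃ k, B = k + 1 := ⟨B - 1, by omega⟩
    rw [D_add'] at f2 e2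
    have t1 := h1.three
    omega
  have d1 : D 0 2 = 9 := rfl
  obtain rfl : s2 = -9 := by omega
  clear f2
  have h5 := catD (l := a1) (b := B) (by have := D_pos 0 B; have := h1.2.1; omega)
  have f1 := h1.form
  obtain rfl : a1 = 2 := by omega
  have d2 : D 2 0 = 4 := rfl
  have d3 : D 5 0 = 32 := rfl
  have d4 : D 0 1 = 3 := rfl
  obtain rfl : s1 = -4 := by omega
  have h6 := inj2 (a := A) (b := 5) (by omega)
  have h7 := inj3 (a := B) (b := 1) (by omega)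
  unfold Tup; omega

end

theorem c5 (hA : 4 ≤ A) (hB : 2 ≤ B) (e : 1 + D A 0 * u + D 0 B * w = 0) (huw : u * w = -4) :
    False := by
  have hk := D16 hA 0
  have hw : w.natAbs ≤ 4 := Nat.le_of_dvd four_pos ⟨u.natAbs, by
    rw [← Int.natAbs_mul, mul_comm, huw]; rfl⟩
  have h := @catD (A + 2) B
  rw [D_add] at h
  have : -4 ≤ w := by omega
  have : w ≤ 4 := by omega
  have : -4 ≤ u ∧ u ≤ 4 := by interval_cases w <;> omega
  obtain ⟨_, _⟩ := this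
  interval_cases w <;> interval_cases u <;> omega

theorem c3 (hA : 4 ≤ A) (h1 : Sm s1 a1 0) (h4 : Sm s4 a4 b4) (l1 : a1 ≤ A) (k4 : a4 ≠ 0)
    (e : 1 + s1 + D 0 B * w + s4 = 0) (e1 : s1 = D A 0 * u) (huw : u * w = -2) : False := by
  have v4 := h4.val
  have v1 := h1.val
  have p1 := h1.pos
  have h5 : D A 0 * u.natAbs = D a1 0 := by
    have := h1.2.2
    rwa [e1, Int.natAbs_mul] at this
  have h6 : D a1 0 ≤ D A 0 := by rw [D_two, D_two]; exact Nat.pow_le_pow_right (by norm_num) l1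
  have n1 := D_pos A 0
  have h7 : u.natAbs ≤ 1 := by
    by_contra h
    have := Nat.mul_le_mul_left (D A 0) (Nat.lt_of_not_le h)
    omega
  have h8 : w = 2 ∨ w = -2 := by
    have : -1 ≤ u := by omega
    have : u ≤ 1 := by omega
    interval_cases u <;> omega
  rcases h8 with rfl | rfl <;> omega

theorem seven {c : ℤ} (h : (D 0 B * w) % 7 = 0) (huw : u * w = c) : c % 7 = 0 := by
  have h1 : (7 : ℤ) ∣ w := ((Int.prime_ofNat_iff.2 (by norm_num) : Prime (7 : ℤ)).dvd_or_dvd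
    (Int.dvd_of_emod_eq_zero h)).resolve_left fun h => by
      rw [D_three, Nat.cast_pow] at h
      have := (Int.prime_ofNat_iff.2 (by norm_num) : Prime (7 : ℤ)).dvd_of_dvd_pow h
      omega
  exact Int.emod_eq_zero_of_dvd (huw ▸ h1.mul_left u)

theorem e4u (h1 : Sm s1 a1 0) (h2 : Sm s2 0 b2) (h3 : Sm s3 a3 b3)
    (h4 : Sm s4 a4 b4) (hs : 1 + s1 + s2 + s3 + s4 = 0) {u2 u3 u4 : ℤ} (x2 : u2 = 0 ∨ u2 = 1)
    (x3 : u3 = 0 ∨ u3 = 1) (x4 : u4 = 0 ∨ u4 = 1)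
    (d1 : (s1 + u2 * s2 + u3 * s3 + u4 * s4) % 16 = 0) : u2 = 0 ∧ (u3 = 0 ∨ u4 = 0) := by
  have v1 : s1 % 2 = 0 := by have := h1.val; have := h1.pos; omega
  have v2 : s2 % 16 = 1 ∨ s2 % 16 = 7 := by have := h2.val; omega
  have v3 : s3 % 16 ≠ 15 := by have := h3.val; omega
  have v4 : s4 % 16 ≠ 15 := by have := h4.val; omega
  have v34 : (s3 + s4) % 16 ≠ 15 := by omega
  rcases x2 with rfl | rfl <;> rcases x3 with rfl | rfl <;> rcases x4 with rfl | rfl <;> omega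

theorem e4w (h1 : Sm s1 a1 0) (h2 : Sm s2 0 b2) (h3 : Sm s3 a3 b3)
    (h4 : Sm s4 a4 b4) (hs : 1 + s1 + s2 + s3 + s4 = 0) {u3 u4 w1 w3 w4 : ℤ}
    (x3 : u3 = 0 ∨ u3 = 1) (x4 : u4 = 0 ∨ u4 = 1) (x34 : u3 = 0 ∨ u4 = 0) (y1 : w1 = 0 ∨ w1 = 1)
    (y3 : w3 = 0 ∨ w3 = 1) (y4 : w4 = 0 ∨ w4 = 1) (d2 : (w1 * s1 + s2 + w3 * s3 + w4 * s4) % 9 = 0)
    (d3 : (w1 * s1 + s2 + w3 * s3 + w4 * s4) % 7 = 0 →
      (5 * (w1 + 0 + u3 * w3 + u4 * w4) - (1 + 0 + u3 + u4) * (w1 + 1 + w3 + w4)) % 7 = 0) :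
    w1 = 0 ∧ (w3 = 0 ∨ w4 = 0) := by
  have t1 : s1 % 3 ≠ 0 := by have := h1.three; omega
  have t2 : s2 % 3 = 0 := by have := h2.three; have := h2.pos'; omega
  have n1 := h1.nine
  have n3 := h3.nine
  have n4 := h4.nine
  rcases y1 with rfl | rfl <;> rcases y3 with rfl | rfl <;> rcases y4 with rfl | rfl <;>
    rcases x3 with rfl | rfl <;> rcases x4 with rfl | rfl <;> omega

theorem e4 (hA : 4 ≤ A) (hB : 2 ≤ B) (h1 : Sm s1 a1 0) (h2 : Sm s2 0 b2) (h3 : Sm s3 a3 b3)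
    (h4 : Sm s4 a4 b4) (hs : 1 + s1 + s2 + s3 + s4 = 0) (l1 : a1 ≤ A) (l2 : b2 ≤ B) (m3 : a3 ≤ A)
    (l3 : b3 ≤ B) (m4 : a4 ≤ A) (l4 : b4 ≤ B) {u2 u3 u4 w1 w3 w4 : ℤ} (x2 : u2 = 0 ∨ u2 = 1)
    (x3 : u3 = 0 ∨ u3 = 1) (x4 : u4 = 0 ∨ u4 = 1) (y1 : w1 = 0 ∨ w1 = 1) (y3 : w3 = 0 ∨ w3 = 1)
    (y4 : w4 = 0 ∨ w4 = 1) (i3 : b3 = 0 → u3 = 1) (i4 : b4 = 0 → u4 = 1) (j3 : a3 = 0 → w3 = 1)
    (j4 : a4 = 0 → w4 = 1) (e1 : s1 + u2 * s2 + u3 * s3 + u4 * s4 = D A 0 * u)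
    (e2 : w1 * s1 + s2 + w3 * s3 + w4 * s4 = D 0 B * w)
    (huw : u * w = 5 * (w1 + u2 + u3 * w3 + u4 * w4) - (1 + u2 + u3 + u4) * (w1 + 1 + w3 + w4)) :
    (A = 4 ∧ B = 2) ∨ Tup A B s1 s2 s3 s4 ∨ Tup A B s1 s2 s4 s3 := by
  have hs' : 1 + s1 + s2 + s4 + s3 = 0 := by omega
  obtain ⟨rfl, x34⟩ : u2 = 0 ∧ (u3 = 0 ∨ u4 = 0) := by
    have d1 : (D A 0 * u) % 16 = 0 :=
      Int.emod_eq_zero_of_dvd (Dvd.dvd.mul_right (by have := D16 hA 0; omega) u)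
    rw [← e1] at d1
    exact e4u h1 h2 h3 h4 hs x2 x3 x4 d1
  obtain ⟨rfl, y34⟩ : w1 = 0 ∧ (w3 = 0 ∨ w4 = 0) := by
    have d2 : (D 0 B * w) % 9 = 0 :=
      Int.emod_eq_zero_of_dvd (Dvd.dvd.mul_right (by have := D9 hB 0; omega) w)
    have d3 := seven (B := B) (c := _) (huw := huw)
    rw [← e2] at d2 d3
    exact e4w h1 h2 h3 h4 hs x3 x4 x34 y1 y3 y4 d2 d3
  rcases y3 with rfl | rfl <;> rcases y4 with rfl | rfl <;> rcases x3 with rfl | rfl <;>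
    rcases x4 with rfl | rfl
  · exact Or.inr (c1 hA hB h1 h2 h3 h4 hs l3 l4 (by omega) (by omega) (by omega) (by omega)
      (u := u) (w := w) (by omega) (by omega) (by omega))
  · exact (c2 hA hB h1 h2 h4 h3 hs' l1 m4 l4 l3 (by omega) (u := u) (w := w) (by omega) (by omega)
      (by omega)).imp_right Or.inr
  · exact (c2 hA hB h1 h2 h3 h4 hs l1 m3 l3 l4 (by omega) (u := u) (w := w) (by omega) (by omega)
      (by omega)).imp_right Or.inl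
  · omega
  · exact (c3 hA h1 h3 l1 (by omega) (B := B) (u := u) (w := w) (by omega) (by omega)
      (by omega)).elim
  · exact Or.inr (Or.inr (c4 hA hB h1 h2 h4 h3 hs' l1 m4 l2 (u := u) (w := w) (by omega) (by omega)
      (by omega)))
  · exact (c5 hA hB (u := u) (w := w) (by omega) (by omega)).elim
  · omega
  · exact (c3 hA h1 h4 l1 (by omega) (B := B) (u := u) (w := w) (by omega) (by omega)
      (by omega)).elim
  · exact (c5 hA hB (u := u) (w := w) (by omega) (by omega)).elim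
  · exact Or.inr (Or.inl (c4 hA hB h1 h2 h3 h4 hs l1 m3 l2 (u := u) (w := w) (by omega) (by omega)
      (by omega)))
  all_goals omega

end Cfsg.Agent.H17.B5
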