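import Cfsg.Agent.H17.B5b
import Cfsg.Agent.H16.E2a
import Cfsg.Agent.S0910

/-! The Brauer–Tuan relations for a principal block of defect one and two other primes. -/

set_option autoImplicit false
set_option linter.unusedSectionVars false

namespace Cfsg.Agent.H17.B5

open Cfsg Subgroup H35 H16
open scoped ComplexConjugate

variable {G : Type*} [Group G] [Finite G] {p : ℕ} [hp : Fact p.Prime] {S : Setup G p}

/-- signed degree -/
noncomputable abbrev sd (S : Setup G p) (χ : IrrCharacter G) : ℤ := sgn p S.V.index (dg χ) * dg χ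

theorem sgn_pm (p e d : ℕ) : sgn p e d = 1 ∨ sgn p e d = -1 := by
  unfold sgn; split_ifs <;> simp

theorem noncomm [IsSimpleGroup G] (hG : commutator G = ⊤) : ∃ a b : G, a * b ≠ b * a := by
  by_contra! h
  obtain ⟨g, hg⟩ := exists_ne (1 : G)
  exact H36.centralizer_ne_top hG hg
    (eq_top_iff.mpr fun x _ => mem_centralizer_singleton_iff.mpr (h x g))

theorem exists_ind [IsSimpleGroup G] (hG : commutator G = ⊤) (P : PB S) {q b : ℕ} (hq : q.Prime)
    (hqp : q ≠ p) (hV : ¬ q ∣ Nat.card S.V) (hb : q ^ b ∣ Nat.card G) :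
    ∃ u : IrrCharacter G → ℤ, (∀ χ, u χ = 0 ∨ u χ = 1) ∧
      (∀ χ ∈ P.Z, ∀ k, dg χ = q ^ k → u χ = 1) ∧ (q ^ b : ℤ) ∣ ∑ χ ∈ P.Z, u χ * sd S χ ∧
      ∀ g, q ∣ orderOf g → ∑ χ ∈ P.Z, (u χ * sgn p S.V.index (dg χ) : ℤ) * (χ : G → ℂ) g = 0 := by
  classical
  have := Fact.mk hq
  obtain ⟨M, hM⟩ := H86.exists_isPModular hq
  have := hM.2.1
  have hU : ∀ χ ψ : IrrCharacter G, SameBlock M (χ : G → ℂ) ψ → χ ∉ principalBlock M G →
      ψ ∉ principalBlock M G := fun χ ψ h h1 h2 => h1 fun g => by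
    have := (H32.locMax M).sub_mem (h2 g) (h g)
    rwa [sub_sub_sub_cancel_right] at this
  have h0 : ¬ triv G ∉ principalBlock M G := not_not.mpr (H32.mem_blockOf_self (triv G))
  have h1 := P.bt_dvd hM hqp hV _ hU hb
  rw [if_neg h0, zero_add] at h1
  refine ⟨fun χ => if χ ∉ principalBlock M G then 1 else 0, fun χ => (ite_eq_or_eq _ _ _).symm,
    fun χ hχ k hk => if_pos fun h => ne_one_of_ne_triv (P.ne_triv hχ)
      (S0910.result q M hM (noncomm hG) χ h k (by rw [dg_cast, hk]; simp)), ?_, fun g hg => ?_⟩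
  · simpa only [ite_mul, one_mul, zero_mul] using h1
  · have h2 := P.bt_vanish hM hqp hV _ hU hg
    rw [if_neg h0, zero_add] at h2
    rw [← h2]
    exact Finset.sum_congr rfl fun χ _ => by by_cases h : χ ∈ principalBlock M G <;> simp [h]

theorem all_nexc (P : PB S) (he : S.V.index = p - 1) {χ : IrrCharacter G} (h : χ ∈ P.Z) :
    nexc p (dg χ) := by
  rcases P.mem_Z.mp h with rfl | h
  · exact (P.sgn_Y P.hψ).2.mpr he
  · exact (P.sgn_X h.2).1

theorem orth [Fintype G] [DecidableEq (IrrCharacter G)] (χ ψ : IrrCharacter G) :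
    ∑ g, (χ : G → ℂ) g * conj ((ψ : G → ℂ) g) = if χ = ψ then (Nat.card G : ℂ) else 0 := by
  have h0 : (Nat.card G : ℂ) ≠ 0 := H5.natCard_ne_zero
  split_ifs with h
  · have := H5.classInner_irr_self χ.2
    rw [classInner, inv_mul_eq_iff_eq_mul₀ h0, mul_one] at this
    rw [← h, this]
  · have := H5.classInner_irr_ne χ.2 ψ.2 fun e => h (Subtype.ext e)
    rwa [classInner, inv_mul_eq_iff_eq_mul₀ h0, mul_zero] at this

theorem rel [IsSimpleGroup G] (hG : commutator G = ⊤) (P : PB S) (hV : Nat.card S.V = 1)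
    (he : S.V.index = p - 1) {u w : IrrCharacter G → ℤ}
    (h : ∀ g : G, g ≠ 1 → ¬ p ∣ orderOf g →
      ∑ χ ∈ P.Z, (u χ * sgn p S.V.index (dg χ) : ℤ) * (χ : G → ℂ) g = 0 ∨
      ∑ χ ∈ P.Z, (w χ * sgn p S.V.index (dg χ) : ℤ) * (χ : G → ℂ) g = 0) :
    p * ((∑ χ ∈ P.Z, u χ * sd S χ) * ∑ χ ∈ P.Z, w χ * sd S χ) =
      Nat.card G * (p * ∑ χ ∈ P.Z, u χ * w χ - (∑ χ ∈ P.Z, u χ) * ∑ χ ∈ P.Z, w χ) := by
  classical
  have := Fintype.ofFinite G
  have ss : ∀ χ : IrrCharacter G, sgn p S.V.index (dg χ) * sgn p S.V.index (dg χ) = 1 := fun χ => by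
    rcases sgn_pm p S.V.index (dg χ) with h | h <;> rw [h] <;> rfl
  set f := fun (u : IrrCharacter G → ℤ) (g : G) =>
    ∑ χ ∈ P.Z, (u χ * sgn p S.V.index (dg χ) : ℤ) * (χ : G → ℂ) g with hf
  have e1 : ∑ g, f u g * conj (f w g) = ((Nat.card G * ∑ χ ∈ P.Z, u χ * w χ : ℤ) : ℂ) := by
    simp only [hf, map_sum, Finset.sum_mul_sum, map_mul, map_intCast]
    rw [Finset.sum_comm, Int.cast_mul, Int.cast_sum, Finset.mul_sum]
    refine Finset.sum_congr rfl fun χ hχ => ?_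
    rw [Finset.sum_comm, Finset.sum_eq_single_of_mem χ hχ fun ψ _ hψ => ?_]
    · simp only [mul_mul_mul_comm _ ((χ : G → ℂ) _)]
      rw [← Finset.mul_sum, orth, if_pos rfl, ← Int.cast_mul, mul_mul_mul_comm, ss]
      push_cast; ring
    · simp only [mul_mul_mul_comm _ ((χ : G → ℂ) _)]
      rw [← Finset.mul_sum, orth, if_neg hψ.symm, mul_zero]
  have e2 : ∀ u, f u 1 = ((∑ χ ∈ P.Z, u χ * sd S χ : ℤ) : ℂ) := fun u => by
    simp only [hf, dg_cast]; push_cast; simp only [mul_assoc]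
  have e3 : ∀ u g, p ∣ orderOf g → f u g = ((∑ χ ∈ P.Z, u χ : ℤ) : ℂ) := fun u g hg => by
    rw [Int.cast_sum]
    exact Finset.sum_congr rfl fun χ hχ => by
      rw [P.val_sing hχ (all_nexc P he hχ) hg, ← Int.cast_mul, mul_assoc, ss, mul_one]
  let U := Finset.univ.filter fun g : G => p ∣ orderOf g
  have hU : (1 : G) ∉ U := by simpa [U] using hp.out.ne_one
  have cU : p * U.card = Nat.card G := by
    obtain ⟨n1, -⟩ := numerics hG S
    rw [← Fintype.card_subtype, ← Nat.card_eq_fintype_card, card_sing S hV, n1, hV, he]; ring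
  rw [← Finset.sum_subset (Finset.subset_univ (insert 1 U)) fun g _ hg => by
    simp only [Finset.mem_insert, U, Finset.mem_filter, Finset.mem_univ, true_and, not_or] at hg
    rcases h g hg.1 hg.2 with h | h
    · rw [show f u g = 0 from h, zero_mul]
    · rw [show f w g = 0 from h, map_zero, mul_zero], Finset.sum_insert hU, e2, e2,
    Finset.sum_congr (s₁ := U) rfl fun g hg => by
      rw [e3 u g (Finset.mem_filter.mp hg).2, e3 w g (Finset.mem_filter.mp hg).2],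
    Finset.sum_const, map_intCast, map_intCast, nsmul_eq_mul] at e1
  have e4 : (∑ χ ∈ P.Z, u χ * sd S χ) * (∑ χ ∈ P.Z, w χ * sd S χ) +
      U.card * ((∑ χ ∈ P.Z, u χ) * ∑ χ ∈ P.Z, w χ) = Nat.card G * ∑ χ ∈ P.Z, u χ * w χ := by
    exact_mod_cast e1
  rw [← cU] at e4 ⊢
  push_cast at e4 ⊢
  linear_combination p * e4

end Cfsg.Agent.H17.B5
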