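import Cfsg.Agent.H17.B5c

/-! Groups of order `5 * 2 ^ A * 3 ^ B` with rational elements of order five. -/

set_option autoImplicit false
set_option linter.unusedSectionVars false

namespace Cfsg.Agent.H17.B5

open Cfsg Subgroup H35 H16

theorem small {A B : ℕ} {s1 s2 s3 s4 w w1 w3 w4 : ℤ} (hA : A ≤ 3) (hB : 2 ≤ B)
    (hs : 1 + s1 + s2 + s3 + s4 = 0) (y1 : w1 = 0 ∨ w1 = 1) (y3 : w3 = 0 ∨ w3 = 1)
    (y4 : w4 = 0 ∨ w4 = 1) (e2 : w1 * s1 + s2 + w3 * s3 + w4 * s4 = D 0 B * w) (hw : w ≠ 0)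
    (hn : s1 ^ 2 + s2 ^ 2 + s3 ^ 2 + s4 ^ 2 ≤ (D A B * 5 : ℕ) - 1) : D A B * 5 ≤ 1092 := by
  have h8 : 2 ^ A ≤ 2 ^ 3 := Nat.pow_le_pow_right (by norm_num) hA
  have h1 : D A B ≤ 8 * D 0 B := by rw [D_lit]; exact Nat.mul_le_mul_right _ h8
  have h2 : (D 0 B * w) ^ 2 ≤ 2 * (1 + s1 ^ 2 + s2 ^ 2 + s3 ^ 2 + s4 ^ 2) := by
    rw [← e2]
    obtain rfl : s2 = -1 - s1 - s3 - s4 := by omega
    rcases y1 with rfl | rfl <;> rcases y3 with rfl | rfl <;> rcases y4 with rfl | rfl <;>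
      nlinarith [sq_nonneg s1, sq_nonneg s3, sq_nonneg s4, sq_nonneg (s1 - 1), sq_nonneg (s3 - 1),
        sq_nonneg (s4 - 1), sq_nonneg (1 + s1 + s3 + s4), sq_nonneg (1 + 2 * s1 + s3 + s4),
        sq_nonneg (1 + s1 + 2 * s3 + s4), sq_nonneg (1 + s1 + s3 + 2 * s4)]
  have h3 : (1 : ℤ) ≤ w ^ 2 := by rcases lt_or_gt_of_ne hw with h | h <;> nlinarith
  have h4 : (D 0 B : ℤ) ^ 2 ≤ 80 * D 0 B := by
    have : (D 0 B : ℤ) ^ 2 * 1 ≤ D 0 B ^ 2 * w ^ 2 := mul_le_mul_of_nonneg_left h3 (sq_nonneg _)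
    push_cast at hn
    have : (D A B : ℤ) ≤ 8 * D 0 B := by exact_mod_cast h1
    nlinarith
  have h5 : D 0 B ≤ 80 := by
    have := D_pos 0 B
    have : (D 0 B : ℤ) ≤ 80 := by nlinarith
    omega
  have h6 : B < 4 := (Nat.pow_lt_pow_iff_right (a := 3) (by norm_num)).1 (by
    rw [← D_three]; omega)
  have : D 0 B ≤ 27 := by interval_cases B <;> simp [D]
  omega

variable {G : Type*} [Group G] [Finite G] [Fact (Nat.Prime 5)] {S : Setup G 5} {A B : ℕ}

theorem sm_of [IsSimpleGroup G] (hG : commutator G = ⊤) (P : PB S) (hV : Nat.card S.V = 1)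
    (he : S.V.index = 4) (hN : Nat.card G = D A B * 5) {χ : IrrCharacter G} (h : χ ∈ P.Z) :
    ∃ a b, a ≤ A ∧ b ≤ B ∧ Sm (sd S χ) a b ∧ dg χ = D a b := by
  have h1 := (P.deg_ok h).1
  have h2 := (centralizer ({S.x} : Set G)).card_mul_index
  rw [S.card_centralizer, hV, hN] at h2
  rw [show (centralizer ({S.x} : Set G)).index = D A B by omega] at h1
  obtain ⟨x, y, hx, hy, e⟩ := (Nat.dvd_mul).mp h1
  obtain ⟨a, ha, rfl⟩ := (Nat.dvd_prime_pow Nat.prime_two).mp hx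
  obtain ⟨b, hb, rfl⟩ := (Nat.dvd_prime_pow Nat.prime_three).mp hy
  have h3 := all_nexc P he h
  have h4 := one_lt_dg hG (P.ne_triv h)
  refine ⟨a, b, ha, hb, ?_, e.symm⟩
  rw [Sm, D, e, sd, sgn]
  unfold nexc at h3
  split_ifs <;> omega

theorem tup [IsSimpleGroup G] (hG : commutator G = ⊤) (P : PB S) (hV : Nat.card S.V = 1)
    (he : S.V.index = 4) (hN : Nat.card G = D A B * 5) (hB : 2 ≤ B) :
    Nat.card G ≤ 1092 ∨ ∃ χ1 ∈ P.Z, ∃ χ2 ∈ P.Z, ∃ χ3 ∈ P.Z, ∃ χ4 ∈ P.Z,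
      (∀ F : IrrCharacter G → ℤ, ∑ χ ∈ P.Z, F χ = F χ1 + F χ2 + F χ3 + F χ4) ∧
      Tup A B (sd S χ1) (sd S χ2) (sd S χ3) (sd S χ4) := by
  classical
  choose! a b ha hb hs hd using fun χ (h : χ ∈ P.Z) => sm_of hG P hV he hN h
  have ld : ∑ χ ∈ P.Z, sd S χ = -1 := P.lin_deg
  obtain ⟨χ1, m1, b1⟩ : ∃ χ ∈ P.Z, b χ = 0 := by
    by_contra! h
    have := Finset.dvd_sum (s := P.Z) (a := 3) (f := sd S) fun χ hχ => by
      have := (hs χ hχ).three; have := h χ hχ; omega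
    omega
  obtain ⟨χ2, m2, a2⟩ : ∃ χ ∈ P.Z, a χ = 0 := by
    by_contra! h
    have := Finset.dvd_sum (s := P.Z) (a := 2) (f := sd S) fun χ hχ => by
      have := (hs χ hχ).val; have := h χ hχ; omega
    omega
  have s1 := hs χ1 m1
  have s2 := hs χ2 m2
  rw [b1] at s1
  rw [a2] at s2
  have m2' : χ2 ∈ P.Z.erase χ1 := Finset.mem_erase.mpr ⟨fun e => by
    have := s1.pos; rw [← e] at this; omega, m2⟩
  obtain ⟨χ3, χ4, n34, e⟩ := Finset.card_eq_two.mp (show ((P.Z.erase χ1).erase χ2).card = 2 by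
    rw [Finset.card_erase_of_mem m2', Finset.card_erase_of_mem m1, P.card_Z, he])
  have hm : ∀ χ ∈ ({χ3, χ4} : Finset _), χ ∈ P.Z := fun χ h =>
    Finset.mem_of_mem_erase (Finset.mem_of_mem_erase (e ▸ h))
  have m3 := hm χ3 (by simp)
  have m4 := hm χ4 (by simp)
  have hZ : ∀ F : IrrCharacter G → ℤ, ∑ χ ∈ P.Z, F χ = F χ1 + F χ2 + F χ3 + F χ4 := fun F => by
    rw [← Finset.add_sum_erase _ _ m1, ← Finset.add_sum_erase _ _ m2', e, Finset.sum_pair n34]
    ring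
  obtain ⟨u, u01, u1, ⟨u', du⟩, vu⟩ := exists_ind hG P (q := 2) (b := A) Nat.prime_two (by norm_num)
    (by rw [hV]; norm_num) ⟨3 ^ B * 5, by rw [hN, D]; ring⟩
  obtain ⟨w, w01, w1, ⟨w', dw⟩, vw⟩ := exists_ind hG P (q := 3) (b := B) Nat.prime_three
    (by norm_num) (by rw [hV]; norm_num) ⟨2 ^ A * 5, by rw [hN, D]; ring⟩
  have hr := rel hG P hV he (u := u) (w := w) fun g h1 h5 => by
    obtain ⟨r, hr, h⟩ := Nat.exists_prime_and_dvd (mt orderOf_eq_one_iff.mp h1)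
    have h2 := h.trans (orderOf_dvd_natCard g)
    rw [hN, D, hr.dvd_mul, hr.dvd_mul] at h2
    rcases h2 with (h2 | h2) | h2
    · exact Or.inl (vu g ((Nat.prime_dvd_prime_iff_eq hr Nat.prime_two).mp
        (hr.dvd_of_dvd_pow h2) ▸ h))
    · exact Or.inr (vw g ((Nat.prime_dvd_prime_iff_eq hr Nat.prime_three).mp
        (hr.dvd_of_dvd_pow h2) ▸ h))
    · exact absurd ((Nat.prime_dvd_prime_iff_eq hr Nat.prime_five).mp h2 ▸ h) h5
  have iu : ∀ χ ∈ P.Z, b χ = 0 → u χ = 1 := fun χ h e => u1 χ h (a χ) (by rw [hd χ h, e, D_two])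
  have iw : ∀ χ ∈ P.Z, a χ = 0 → w χ = 1 := fun χ h e => w1 χ h (b χ) (by rw [hd χ h, e, D_three])
  rw [du, dw, hN, hZ, hZ, hZ, iu χ1 m1 b1, iw χ2 m2 a2] at hr
  rw [hZ, iu χ1 m1 b1, one_mul] at du
  rw [hZ, iw χ2 m2 a2, one_mul] at dw
  rw [hZ] at ld
  have e1 : (2 : ℤ) ^ A = D A 0 := by simp [D]
  have e2 : (3 : ℤ) ^ B = D 0 B := by simp [D]
  have huw : u' * w' = 5 * (w χ1 + u χ2 + u χ3 * w χ3 + u χ4 * w χ4) -
      (1 + u χ2 + u χ3 + u χ4) * (w χ1 + 1 + w χ3 + w χ4) := by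
    apply mul_left_cancel₀ (a := ((D A B * 5 : ℕ) : ℤ)) (by have := D_pos A B; positivity)
    rw [← one_mul (w χ1), ← mul_one (u χ2)]
    simp only [D] at hr ⊢
    push_cast at hr ⊢
    linear_combination hr
  push_cast at du dw
  rw [e1] at du
  rw [e2] at dw
  by_cases hA : 4 ≤ A
  · rcases e4 hA hB s1 s2 (hs χ3 m3) (hs χ4 m4) (by omega) (ha χ1 m1) (hb χ2 m2) (ha χ3 m3)
      (hb χ3 m3) (ha χ4 m4) (hb χ4 m4) (u01 χ2) (u01 χ3) (u01 χ4) (w01 χ1) (w01 χ3) (w01 χ4)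
      (iu χ3 m3) (iu χ4 m4) (iw χ3 m3) (iw χ4 m4) du dw huw with ⟨rfl, rfl⟩ | h | h
    · left; rw [hN]; decide
    · exact Or.inr ⟨χ1, m1, χ2, m2, χ3, m3, χ4, m4, hZ, h⟩
    · exact Or.inr ⟨χ1, m1, χ2, m2, χ4, m4, χ3, m3, fun F => by rw [hZ]; ring, h⟩
  · have nd := P.norm_deg
    rw [Finset.sum_congr rfl (g := fun χ => sd S χ ^ 2) fun χ hχ => by
      rw [mu, if_pos (all_nexc P he hχ), sd]
      rcases sgn_pm 5 S.V.index (dg χ) with h | h <;> rw [h] <;> ring, hZ, hN] at nd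
    refine Or.inl (hN ▸ small (by omega) hB (by omega) (w01 χ1) (w01 χ3) (w01 χ4) dw ?_ nd)
    rintro rfl
    rcases u01 χ2 with h1 | h1 <;> rcases u01 χ3 with h2 | h2 <;> rcases u01 χ4 with h3 | h3 <;>
      rcases w01 χ1 with h4 | h4 <;> rcases w01 χ3 with h5 | h5 <;> rcases w01 χ4 with h6 | h6 <;>
      rw [h1, h2, h3, h4, h5, h6] at huw <;> omega

/-- admissible signed values at an involution with centraliser order `c` -/
def good (N c : ℕ) (s y : ℤ) : Bool :=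
  (s - y) % 4 == 0 && ((N / c : ℕ) * y) % s == 0 && decide (y.natAbs < s.natAbs) &&
    decide (y ^ 2 < c) && (N / s.natAbs % 2 == 0 || y == 0)

/-- the list of admissible values -/
def opts (N c : ℕ) (s : ℤ) : List ℤ :=
  ((List.range (2 * s.natAbs)).map fun k : ℕ => (k : ℤ) - s.natAbs).filter (good N c s)

theorem mem_opts {N c : ℕ} {s y : ℤ} (h : good N c s y = true) : y ∈ opts N c s := by
  refine List.mem_filter.mpr ⟨List.mem_map.mpr ⟨(y + s.natAbs).toNat, List.mem_range.mpr ?_, ?_⟩, h⟩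
  all_goals
    simp only [good, Bool.and_eq_true, decide_eq_true_eq] at h
    omega

/-- the remaining relations -/
def rest (L c : ℕ) (s1 s2 s3 s4 y1 y2 y3 y4 : ℤ) : Prop :=
  y1 ^ 2 + y2 ^ 2 + y3 ^ 2 + y4 ^ 2 < c ∧
    ((L + y1 ^ 2 * (L / s1) + y2 ^ 2 * (L / s2) + y3 ^ 2 * (L / s3) + y4 ^ 2 * (L / s4)) = 0 ∨
    (L + y1 ^ 2 * (L / s1) + y2 ^ 2 * (L / s2) + y3 ^ 2 * (L / s3) + y4 ^ 2 * (L / s4)) *
      (L * 5 / c : ℕ) ^ 2 = 25 * L * L)

instance (L c : ℕ) (s1 s2 s3 s4 y1 y2 y3 y4 : ℤ) : Decidable (rest L c s1 s2 s3 s4 y1 y2 y3 y4) := by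
  unfold rest; infer_instance

/-- the search over involutions -/
def srch (L m : ℕ) (s1 s2 s3 s4 : ℤ) (ok : ℕ → ℤ → Bool) : Bool :=
  (List.range (L / m + 1)).all fun k => L % (m * k) != 0 ||
    (opts (L * 5) (m * k) s1).all fun y1 => (opts (L * 5) (m * k) s2).all fun y2 =>
      (opts (L * 5) (m * k) s3).all fun y3 => !good (L * 5) (m * k) s4 (-1 - y1 - y2 - y3) ||
        !decide (rest L (m * k) s1 s2 s3 s4 y1 y2 y3 (-1 - y1 - y2 - y3)) || ok (m * k) y3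

theorem srch1 : srch 5184 2 (-64) 81 6 (-24) (fun c y => 576 % c == 0 && y ^ 2 == 4) = true := by
  decide +kernel

theorem srch2 : srch 5184 2 (-64) 81 (-54) 36 (fun c y => 576 % c == 0 && y == -6) = true := by
  decide +kernel

theorem srch3 : srch 186624 256 256 (-729) 256 216 (fun _ _ => false) = true := by
  decide +kernel

theorem srch4 : srch 186624 256 (-64) (-729) 576 216 (fun _ _ => false) = true := by
  decide +kernel

theorem srch5 : srch 864 32 (-4) (-9) 36 (-24) (fun _ _ => false) = true := by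
  decide +kernel

theorem srch_sound [IsSimpleGroup G] (hG : commutator G = ⊤) (P : PB S) (hV : Nat.card S.V = 1)
    {L m : ℕ} (hN : Nat.card G = L * 5) {χ1 χ2 χ3 χ4 : IrrCharacter G}
    (m1 : χ1 ∈ P.Z) (m2 : χ2 ∈ P.Z) (m3 : χ3 ∈ P.Z) (m4 : χ4 ∈ P.Z) (he : S.V.index = 4)
    (hZ : ∀ F : IrrCharacter G → ℤ, ∑ χ ∈ P.Z, F χ = F χ1 + F χ2 + F χ3 + F χ4)
    {ok : ℕ → ℤ → Bool} (h : srch L m (sd S χ1) (sd S χ2) (sd S χ3) (sd S χ4) ok = true)
    {t : G} (ht : orderOf t = 2) (hm : m ∣ cc t) :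
    ok (cc t) (sgn 5 S.V.index (dg χ3) * ival t χ3) = true := by
  have t1 : t ≠ 1 := fun e => by rw [e, orderOf_one] at ht; omega
  have t2 : t * t = 1 := by rw [← sq, ← ht, pow_orderOf_eq_one]
  have t5 : ¬ 5 ∣ orderOf t := by rw [ht]; norm_num
  have hc := card_cent_mul t
  have c0 : 0 < cc t := Nat.card_pos
  have hi : (centralizer ({t} : Set G)).index = L * 5 / cc t := by
    rw [← hN, ← hc, Nat.mul_div_cancel_left _ c0]
  have hL : cc t ∣ L := (Nat.Coprime.symm ((Nat.Prime.coprime_iff_not_dvd Nat.prime_five).mpr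
    (not_dvd_card_centralizer S hV t1 t5))).dvd_of_dvd_mul_right ⟨_, by rw [← hN, hc]⟩
  have ha := fun χ (_ : χ ∈ P.Z) => (ival_inv hG t2 χ).1
  have nm := P.norm_le t5 ha
  rw [Finset.sum_congr rfl (g := fun χ => (sgn 5 S.V.index (dg χ) * ival t χ) ^ 2) fun χ hχ => by
    rw [mu, if_pos (all_nexc P he hχ)]
    rcases sgn_pm 5 S.V.index (dg χ) with h | h <;> rw [h] <;> ring] at nm
  have hg : ∀ χ ∈ P.Z, good (L * 5) (cc t) (sd S χ) (sgn 5 S.V.index (dg χ) * ival t χ) = true :=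
    fun χ hχ => by
      have h1 := (ival_inv hG t2 χ).2
      have h2 := dg_dvd_index_mul χ (ha χ hχ)
      have h3 := abs_lt_of_simple hG (P.ne_triv hχ) t1 (ha χ hχ)
      have h4 := Finset.single_le_sum (f := fun χ => (sgn 5 S.V.index (dg χ) * ival t χ) ^ 2)
        (fun _ _ => sq_nonneg _) hχ
      have h5 : L * 5 / dg χ % 2 = 0 ∨ ival t χ = 0 := or_iff_not_imp_left.mpr fun h => ival_eq (by
        simpa using zero_of_defect_zero χ Nat.prime_two (Nat.mul_div_cancel' (dg_dvd χ)).symm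
          (by rw [hN]; omega) ht.symm.dvd)
      rw [hi] at h2
      rw [← Int.natCast_natAbs] at h3
      simp only [good, Bool.and_eq_true, decide_eq_true_eq, Bool.or_eq_true, beq_iff_eq, sd]
      refine ⟨⟨⟨⟨?_, ?_⟩, ?_⟩, by linarith⟩, ?_⟩ <;>
        rcases sgn_pm 5 S.V.index (dg χ) with h | h <;> rw [h]
      · omega
      · omega
      · simpa using h2
      · simpa using h2
      · omega
      · omega
      · simpa using h5
      · simpa using h5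
  have li := P.lin_int t5 ha
  have hd : ∀ χ ∈ P.Z, dg χ ∣ L := fun χ hχ => by
    have h1 := (P.deg_ok hχ).1
    have h2 := (centralizer ({S.x} : Set G)).card_mul_index
    rw [S.card_centralizer, hV, hN] at h2
    rwa [show (centralizer ({S.x} : Set G)).index = L by omega] at h1
  have qd := P.quad t2 ha hd
  rw [Finset.sum_congr rfl (g := fun χ => (sgn 5 S.V.index (dg χ) * ival t χ) ^ 2 * (L / sd S χ))
    fun χ hχ => by
      rw [sd]
      rcases sgn_pm 5 S.V.index (dg χ) with h | h <;> rw [h] <;> simp, hZ, hV, hi, hN] at qd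
  rw [hZ] at nm li
  have hj := card_invJ_le (S := S) t
  obtain ⟨k, hk⟩ := hm
  have m0 : 0 < m := Nat.pos_of_ne_zero (by rintro rfl; omega)
  simp only [srch, List.all_eq_true, Bool.or_eq_true, bne_iff_ne, Bool.not_eq_true',
    decide_eq_false_iff_not] at h
  have h1 := (h k (List.mem_range.mpr (Nat.lt_succ_of_le ((Nat.le_div_iff_mul_le m0).mpr (by
    rw [mul_comm, ← hk]
    exact Nat.le_of_dvd (by have : 0 < Nat.card G := Nat.card_pos; omega) hL))))).resolve_left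
      (by rw [← hk]; exact not_not.mpr (Nat.mod_eq_zero_of_dvd hL))
  rw [← hk] at h1
  have h2 := h1 _ (mem_opts (hg χ1 m1)) _ (mem_opts (hg χ2 m2)) _ (mem_opts (hg χ3 m3))
  rw [show ∀ a b c, a + b + c + sgn 5 S.V.index (dg χ4) * ival t χ4 = -1 →
    -1 - a - b - c = sgn 5 S.V.index (dg χ4) * ival t χ4 from fun a b c h => by omega] at h2
  · refine h2.resolve_left (not_or.mpr ⟨by rw [hg χ4 m4]; simp, not_not.mpr ⟨by linarith, ?_⟩⟩)
    have i0 : ((L * 5 / cc t : ℕ) : ℤ) ≠ 0 := by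
      rw [← hi]; exact_mod_cast index_ne_zero_of_finite
    rw [hV] at hj
    interval_cases (invJ S t).card
    · left
      apply mul_right_cancel₀ (pow_ne_zero 2 i0)
      linear_combination qd
    · right
      push_cast at qd ⊢
      linear_combination qd
  · exact li

theorem sum_elem {φ : G → ℂ} (hφ : IsCharacter G φ) {E : Subgroup G} (hE : ∀ x ∈ E, x ^ 2 = 1)
    {d a : ℤ} (h1 : φ 1 = d) (h2 : ∀ t, orderOf t = 2 → φ t = a) :
    ∃ n : ℕ, d - a + Nat.card E * a = Nat.card E * n := by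
  classical
  have := Fintype.ofFinite E
  obtain ⟨n, hn⟩ := H5.exists_nat_classInner (H5.isCharacter_restrict hφ E) H5.isCharacter_one
  rw [H5.classInner_one_right, inv_mul_eq_iff_eq_mul₀ H5.natCard_ne_zero,
    ← Finset.add_sum_erase _ _ (Finset.mem_univ 1), Finset.sum_congr rfl (g := fun _ => (a : ℂ))
      fun x hx => h2 _ (orderOf_eq_prime (hE _ x.2) fun e =>
        Finset.ne_of_mem_erase hx (Subtype.ext e)), Finset.sum_const,
    Finset.card_erase_of_mem (Finset.mem_univ _), Finset.card_univ, ← Nat.card_eq_fintype_card,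
    nsmul_eq_mul, Nat.cast_pred Nat.card_pos, OneMemClass.coe_one, h1] at hn
  refine ⟨n, Int.cast_injective (α := ℂ) ?_⟩
  push_cast
  linear_combination hn

theorem sd_pos {χ : IrrCharacter G} {n : ℕ} (h : sd S χ = n) :
    sgn 5 S.V.index (dg χ) = 1 ∧ dg χ = n := by
  have := dg_pos χ
  rcases sgn_pm 5 S.V.index (dg χ) with e | e <;> rw [sd, e] at h <;> omega

theorem sd_neg {χ : IrrCharacter G} {n : ℕ} (h : sd S χ = -n) :
    sgn 5 S.V.index (dg χ) = -1 ∧ dg χ = n := by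
  have := dg_pos χ
  rcases sgn_pm 5 S.V.index (dg χ) with e | e <;> rw [sd, e] at h <;> omega

theorem five4 [IsSimpleGroup G] (hG : commutator G = ⊤) (P : PB S) (hV : Nat.card S.V = 1)
    (he : S.V.index = 4) (hN : Nat.card G = D A B * 5) (hB : 2 ≤ B) :
    Nat.card G ≤ 1092 ∨ (Nat.card G = 25920 ∧ (∀ t : G, orderOf t = 2 → cc t ∣ 576) ∧
      ∀ E : Subgroup G, (∀ x ∈ E, x ^ 2 = 1) → Nat.card E ≠ 32) := by
  refine (tup hG P hV he hN hB).imp_right ?_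
  rintro ⟨χ1, m1, χ2, m2, χ3, m3, χ4, m4, hZ, h⟩
  have key := fun L m hN ok => srch_sound hG P hV (L := L) (m := m) hN m1 m2 m3 m4 he hZ (ok := ok)
  have c2 : ∀ t : G, orderOf t = 2 → 2 ∣ cc t := fun t ht =>
    ht ▸ Subgroup.orderOf_dvd_natCard _ (mem_centralizer_singleton_iff.mpr rfl)
  have t2 : ∀ t : G, orderOf t = 2 → t * t = 1 := fun t ht => by
    rw [← sq, ← ht, pow_orderOf_eq_one]
  rcases h with ⟨rfl, rfl, e1, e2, e3, e4⟩ | ⟨rfl, rfl, e1, e2, e3, e4⟩ |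
    ⟨rfl, rfl, e1, e2, e3, e4⟩ | ⟨rfl, rfl, e1, e2, e3, e4⟩ | ⟨rfl, rfl, e1, e2, e3, e4⟩ <;>
    rw [e1, e2, e3, e4] at key
  · have h := fun t ht => key 5184 2 hN _ srch1 ht (c2 t ht)
    obtain ⟨f1, f2⟩ := sd_pos (n := 6) e3
    simp only [Bool.and_eq_true, beq_iff_eq, f1, one_mul] at h
    refine ⟨hN, fun t ht => Nat.dvd_of_mod_eq_zero (h t ht).1, fun E hE h32 => ?_⟩
    obtain ⟨n, hn⟩ := sum_elem (H6.isCharacter_altSq (irr_char χ3)) hE (d := 15) (a := -1)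
      (by rw [mul_one, dg_cast, f2]; norm_num) fun t ht => by
        rw [t2 t ht, dg_cast, f2, (ival_inv hG (t2 t ht) χ3).1, ← Int.cast_pow, (h t ht).2]
        norm_num
    rw [h32] at hn
    omega
  · have h := fun t ht => key 5184 2 hN _ srch2 ht (c2 t ht)
    obtain ⟨f1, f2⟩ := sd_neg (n := 54) e3
    simp only [Bool.and_eq_true, beq_iff_eq, f1, neg_one_mul, neg_inj] at h
    refine ⟨hN, fun t ht => Nat.dvd_of_mod_eq_zero (h t ht).1, fun E hE h32 => ?_⟩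
    obtain ⟨n, hn⟩ := sum_elem (irr_char χ3) hE (d := 54) (a := 6)
      (by rw [dg_cast, f2]; norm_num) fun t ht => by rw [(ival_inv hG (t2 t ht) χ3).1, (h t ht).2]
    rw [h32] at hn
    omega
  · obtain ⟨t, ht, h⟩ := exists_central (G := G) (a := 7) Nat.prime_two (by rw [hN]; decide)
    exact absurd (key 186624 256 hN _ srch3 ht h) Bool.false_ne_true
  · obtain ⟨t, ht, h⟩ := exists_central (G := G) (a := 7) Nat.prime_two (by rw [hN]; decide)
    exact absurd (key 186624 256 hN _ srch4 ht h) Bool.false_ne_true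
  · obtain ⟨t, ht, h⟩ := exists_central (G := G) (a := 4) Nat.prime_two (by rw [hN]; decide)
    exact absurd (key 864 32 hN _ srch5 ht h) Bool.false_ne_true

end Cfsg.Agent.H17.B5
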