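import Cfsg.Agent.H17.BmU

/-! The class of {3,4}-transpositions of the Baby Monster, read off from the double coset table. -/

set_option autoImplicit false
set_option Elab.async false
set_option maxRecDepth 100000
set_option exponentiation.threshold 400000

namespace Cfsg.Agent.H17.BmX

open Cfsg Cfsg.Agent.H58 Cfsg.Agent.H17 Cfsg.Agent.H52.Fi

open BmF BmP

/-- a word traced through the table: steps, final label, oracle and word -/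
structure Tr where
  st : List Stp
  j : ℕ
  o : ℕ
  b : List ℕ

noncomputable def trOK (j0 : ℕ) (w : List ℕ) (t : Tr) : Bool :=
  runS FT iv (selE [eqA, eqB]) 603
    (fun j w' => band (Nat.beq j t.j) (selE [eqA, eqB] t.o w' t.b)) t.st j0 [] w

/-- the word of a conjugate of the involution -/
def tw (v : List ℕ) : List ℕ := invw iv v ++ fw ++ v

def g9 : List ℕ := [1, 2, 3, 4, 5, 6, 7, 8, 9]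

/-- a point, a word leading to it, the order of the product, a word moving it, and a trace -/
structure Rep where
  p : ℕ
  v : List ℕ
  k : ℕ
  mv : ℕ
  t : Tr

def wd (U v : List ℕ) (k : ℕ) : List ℕ :=
  if k = 2 then tw v ++ invw iv U else if k = 3 then tw v ++ tw U ++ invw iv v
    else tw v ++ tw U ++ tw v ++ invw iv U

def kk (k : ℕ) : ℕ := if k = 2 then 2 else if k = 3 then 3 else 4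

noncomputable def rpOK (j : ℕ) (ws : List (List ℕ)) (p0 : ℕ) (r : Rep) : Bool :=
  band (trOK j (wd (getW LW j) r.v r.k) r.t) (band (allM (mskL BmE.ga) r.t.b)
    (band ([0, 1, 27].contains r.t.j) (band (allM (mskL gA) r.v)
      (band (Nat.beq (run Tb23.tb r.v 0) r.p) (band (allM (mskL gA) (getW ws r.mv))
        (band (allM 18446744073709551615 (getW LW j))
          (Nat.beq r.p p0 || !Nat.beq (run Tb23.tb (getW ws r.mv) r.p) r.p)))))))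

noncomputable def rpM (l : List Rep) : ℕ := linkM (l.map fun r => (0, r.p))

noncomputable def neOK (p0 : ℕ) (v : List ℕ) (r : Rep) (b : ℕ) : Bool :=
  band (allM (mskL gA) v) (band (Nat.beq (run Tb23.tb v 0) p0) (band (Nat.beq r.k 3)
    (band (Nat.blt b 31671) (band (allM (mskL gA) (tw v ++ tw r.v))
      (!Nat.beq (run Tb23.tb ((tw v ++ tw r.v) ++ (tw v ++ tw r.v) ++ (tw v ++ tw r.v)) b) b)))))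

theorem knc : Nat.beq (run Tb23.tb ([10] ++ fw) 0) (run Tb23.tb (fw ++ [10]) 0) = false := by
  decide +kernel

def z1 : Tr := ⟨[⟨0, [], 1100, 0, []⟩, ⟨1, [764, 766, 768, 766, 772, 770, 768, 766, 772, 764, 760, 762, 774, 772, 764, 760, 766, 772, 768, 758, 774, 772, 764, 760, 766, 768, 770, 772, 764, 766, 768, 774, 772, 766, 758, 774, 772, 764, 760, 762], 1104, 1, [9, 4, 8, 9, 5, 6, 7, 6, 5, 3, 4, 8, 9, 5, 4, 8, 6, 5, 4, 7, 6, 5, 3, 2, 3, 4, 8, 9, 5, 4, 8, 6, 5, 4, 7, 6, 3, 4, 8, 5, 4, 6, 3, 2, 3, 4, 8, 5, 6, 7]⟩], 27, 0, [1, 2, 3, 2, 1, 4, 3, 2, 1, 6, 8, 4, 3, 5, 4, 6, 9, 8, 4, 3, 2, 5, 4, 6, 5, 8, 4, 3, 2, 7, 6, 5, 4, 3, 2, 8, 4, 3, 5, 4, 6, 5, 9, 8, 4]⟩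
theorem kz1 : band (trOK 27 [11] z1) (band (Nat.beq z1.j 27) (allM (mskL g9) z1.b)) = true := by decide +kernel
def v10 : List ℕ := [10, 7, 6, 5, 4, 3, 2, 8, 4, 3, 5, 4, 6, 5, 7, 6, 8, 4, 3, 2, 5, 4, 3, 8, 4, 5, 6, 7]
theorem kv10 : eqA (tw v10) [10] = true := by decide +kernel
def z2 : Tr := ⟨[⟨101, [8, 6, 10, 8, 12, 2, 4, 6, 14, 8, 6, 4, 2, 10, 8, 6, 4, 14, 16, 12, 10, 8, 6, 14], 1012, 0, [5, 6, 7, 10, 4, 8, 9, 5, 4, 8, 6, 7, 5, 6, 4, 5, 3, 4, 8, 2, 3, 4, 5, 6, 7, 10, 5, 4, 8, 9, 8, 6, 4, 5, 3, 4, 8, 6, 7, 5, 6, 3, 4, 5, 2, 3, 4, 8, 9, 2, 3, 4, 8, 4, 5, 6, 3, 4, 5, 2, 3, 4, 8, 2, 3, 4, 5, 6, 7, 6, 5, 2]⟩, ⟨42, [502, 494, 490, 500, 502, 494, 492, 498], 1026, 1, [9, 8, 9, 4, 8, 9, 6, 5, 4, 8, 7, 6, 3, 4, 8, 9, 2, 3, 4, 8, 9, 5, 4, 8, 6, 5,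 7, 6, 3, 4, 8, 9, 5, 4, 3, 2, 3, 4, 8, 5, 10, 7, 6, 5, 4, 8, 9, 3, 4, 8, 5, 6, 7, 2, 3, 4, 8, 9, 5, 4, 6, 7]⟩, ⟨53, [566, 586, 568, 594], 1048, 0, [8, 9, 8, 7, 5, 6, 4, 5, 3, 4, 8, 2, 3, 4, 5, 6, 7, 10, 8, 6, 4, 5, 2, 3, 4, 8, 9, 6, 5, 2, 3, 4, 8, 5, 6, 7, 4, 5, 6, 3, 4, 5, 2, 3, 4, 8, 9, 7, 6, 5, 3, 4, 8, 4, 5, 6, 7, 6, 2, 3, 4, 5, 2, 3, 4, 3, 2]⟩, ⟨81, [656, 646, 650, 652, 646, 618, 656, 642], 1066, 1, [9, 8, 5, 4, 6, 5, 4, 8, 7, 3, 4, 8, 9, 5, 4, 8, 6, 5, 4, 7, 6, 5, 3, 4, 8, 9, 5, 4, 8, 6, 5, 4, 7, 6, 5, 3, 4, 8, 5, 4, 2, 3, 4, 8, 9, 5, 4, 8, 3, 4, 5, 6, 7, 2, 3, 10, 7, 6, 5, 4, 8, 9, 3, 4, 8, 5, 4, 6, 5, 7, 6, 2, 3, 4, 5, 10]⟩, ⟨51, [598, 580], 1042, 0, [3, 2, 6, 7, 8, 4, 3, 2, 5, 4, 3, 6, 5, 4, 7, 6, 8, 4, 3, 2, 9, 8, 4, 3, 2, 5, 4,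 3, 6, 5, 7, 6, 8, 4, 3, 5, 4, 6, 8, 9, 8, 4, 3, 2, 5, 4, 3, 8, 10, 7, 6, 5, 4, 3, 2, 8, 4, 3, 5, 4, 6, 7, 8, 9, 8, 4, 5, 6, 10]⟩, ⟨61, [498, 494, 502, 500, 492, 494, 498, 502, 494, 492, 496, 490, 500, 502, 494, 498, 504, 506], 1022, 1, [9, 8, 9, 5, 6, 5, 7, 6, 5, 4, 8, 3, 4, 8, 9, 5, 4, 8, 6, 5, 4, 7, 6, 5, 3, 4, 8, 5, 2, 3, 4, 8, 9, 5, 4, 8, 6, 5, 4, 3, 4, 8, 9, 5, 4, 6, 5, 10, 7, 6, 5, 4, 8, 9, 3, 4, 8, 5, 4, 6, 3, 2, 3, 4, 8, 5, 6]⟩], 0, 0, [9, 4, 8, 3, 4, 5, 2, 3, 4, 8, 9, 6, 5, 4, 8, 5, 6, 7, 4, 5, 6, 3, 4, 5, 2, 3, 4, 8, 9, 6, 3, 4, 5, 2, 3, 4, 8, 1, 2, 3, 4, 5, 6, 7, 8, 9, 4, 8, 5, 6, 4, 5, 3, 4, 8, 9, 6, 5, 3, 4, 8, 5, 6, 2, 3, 4, 5, 1, 2, 3, 4, 8, 5, 6, 3, 4, 5, 2, 3, 4, 3, 1, 2, 1]⟩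
theorem kz2 : band (trOK 0 (v10 ++ (tw (getW LW 27) ++ fw) ++ invw iv v10) z2) (band (Nat.beq z2.j 0) (allM (mskL BmE.ga) z2.b)) = true := by decide +kernel
def p22 : Tr := ⟨[⟨7, [], 1100, 0, [10, 7, 6, 5, 4, 8, 9]⟩, ⟨1, [758, 764, 766, 772, 774, 764, 772, 760, 764, 762, 766, 768, 772, 764, 774, 758, 772, 774, 766, 772, 764, 760, 768, 766, 772, 774, 764, 772, 770, 768, 766, 772, 764, 774, 772, 758, 774], 1106, 1, [8, 4, 8, 9, 7, 6, 5, 4, 3, 4, 8, 9, 5, 4, 8, 6, 5, 4, 7, 6, 5, 3, 4, 8, 9, 5, 4, 8, 3, 4, 5, 6, 7, 2, 3, 4, 8, 9, 5, 4, 6, 5, 7, 6, 3, 4, 5, 10, 7, 6, 5, 4, 8, 9, 3, 4, 8, 5, 4, 6, 5, 7, 6, 2, 3, 10]⟩], 26, 0, [2, 3, 2, 5, 4, 3, 6, 5, 4, 8, 4, 3, 5, 4, 7, 6, 5, 4, 3, 8, 4, 5, 10, 7, 6, 5, 4, 3, 2, 1, 8, 4, 3, 5, 4, 6, 5, 7, 6, 10]⟩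
theorem kp22 : band (trOK 27 (getW LW 22) p22) (band (Nat.beq p22.j 26) (allM (mskL gA) p22.b)) = true := by decide +kernel
def p29 : Tr := ⟨[⟨22, [], 1098, 0, [8, 4, 3, 2, 5, 6, 9, 8, 4, 3, 5, 4, 8, 9]⟩, ⟨36, [674, 670, 682, 678, 680, 678, 674, 670, 682, 678, 672, 686], 1086, 1, [5, 6, 7, 10, 2, 4, 5, 8, 4, 3, 6, 7, 5, 6, 4, 5, 8, 4, 3, 9, 8, 4, 5, 6, 7, 10, 2, 4, 3, 7, 6, 8, 4, 5, 9, 8, 4, 3, 2, 6, 7, 5, 6, 4, 5, 9, 8, 4, 3, 5, 6, 9, 8, 4, 5, 8, 9]⟩], 31, 0, [4, 5, 1, 2, 3, 4, 8, 9, 4, 5, 3, 4, 8, 6, 5, 4, 3, 2, 1, 7, 6, 4, 5, 3, 4, 8, 9, 5, 3, 4, 8, 5, 6, 7, 4, 5, 6, 3, 4, 5, 2, 3, 4, 8, 6, 7, 2, 3, 4, 5, 6, 3, 4, 5, 2, 3, 4]⟩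
theorem kp29 : band (trOK 27 (getW LW 29) p29) (band (Nat.beq p29.j 31) (allM (mskL gA) p29.b)) = true := by decide +kernel
def r0_0 : Rep := ⟨0, [], 2, 0, ⟨[], 0, 0, [1, 2, 3, 4, 5, 6, 8, 4, 3, 2, 1, 5, 4, 3, 2, 8, 4, 3, 5, 4, 6, 5, 8, 4, 3, 2, 1, 7, 6, 5, 4, 3, 2, 8, 4, 3, 5, 4, 6, 5, 7, 6, 8, 4, 3, 2, 5, 4, 3, 8, 4, 5, 6, 7]⟩⟩
def r0_1 : Rep := ⟨1, [10], 3, 6, ⟨[], 0, 0, [1, 2, 3, 4, 5, 6, 8, 4, 3, 2, 1, 5, 4, 3, 2, 8, 4, 3, 5, 4, 6, 5, 8, 4, 3, 2, 1, 7, 6, 5, 4, 3, 2, 8, 4, 3, 5, 4, 6, 5, 7, 6, 8, 4, 3, 2, 5, 4, 3, 8, 4, 5, 6, 7]⟩⟩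
def r0_2 : Rep := ⟨466, [10, 7, 6, 5, 4, 3, 8, 4, 5, 6, 7, 10], 2, 1, ⟨[], 0, 0, [2, 3, 4, 5, 6, 7, 8, 4, 3, 2, 5, 4, 3, 6, 5, 4, 8, 4, 3, 2, 5, 4, 3, 6, 5, 4, 7, 6, 5, 8, 4, 3, 2]⟩⟩
def r0 : List Rep := [r0_0, r0_1, r0_2]
theorem k0 : allA r0 (rpOK 0 BmD0.ws 0) = true := by decide +kernel
theorem b0 : Nat.beq (bfs Fi23M.nets BmD0.ws [1, 8, 0, 2, 7, 3, 4, 7, 1, 2, 5, 3, 8, 6, 1, 7, 4, 2, 0, 3, 5, 8, 4, 7, 2, 1, 6, 3, 2, 0, 7, 1, 8, 3, 4, 0, 2, 5, 7, 3, 6, 1, 4, 7, 2, 8, 3, 5, 1, 0, 7, 6, 4, 2, 3, 8, 5, 1, 2, 7, 4, 6, 1, 0, 3, 5, 2, 7, 4, 1, 8, 0, 3, 5, 4, 2, 1, 5, 6] (rpM r0)) (Nat.pred (Nat.pow 2 31671)) = true := by decide +kernel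
def r22_0 : Rep := ⟨0, [], 2, 8, ⟨[⟨107, [538, 542, 540, 534, 530, 528, 542, 530, 540, 542, 536, 540, 534, 538, 544], 1032, 0, [2, 3, 4, 8, 9, 8, 6, 4, 5, 3, 4, 8, 2, 3, 4, 5, 6, 7, 10, 4, 8, 9, 8, 4, 5, 3, 4, 8, 6, 7, 5, 6, 4, 5, 2, 3, 4, 8, 9, 3, 4, 8, 4, 5, 6, 7, 5, 6, 5, 3, 4]⟩], 1, 1, [8, 9, 11, 3, 4, 8, 9, 5, 4, 8, 3, 4, 5, 6, 7, 6, 5, 4, 8, 9, 11, 3, 4, 8, 9, 5, 4, 8, 3]⟩⟩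
def r22_1 : Rep := ⟨191, [10, 7, 6, 5, 4, 3, 2, 1, 8, 4, 9], 3, 0, ⟨[⟨129, [536, 544, 538, 534, 532, 528, 530, 542, 540, 534, 538, 536, 530, 542, 540, 534, 528, 530, 542, 540, 532, 528, 530, 542], 1034, 0, [10, 3, 4, 8, 9, 8, 7, 6, 4, 5, 3, 4, 8, 2, 3, 4, 5, 6, 7, 10, 9, 8, 4, 5, 3, 4, 8, 6, 7, 4, 5, 6, 3, 4, 5, 2, 3, 4, 8, 9, 2, 3, 4, 8, 4, 5, 6, 7, 4, 5, 6, 5, 4]⟩, ⟨79, [504, 494, 502, 500, 490, 492, 494, 498, 502, 500, 494, 502, 492, 494, 498, 504, 506], 1022, 1, [9, 8, 4, 8, 9, 6, 5, 7, 6, 5, 3, 4, 8, 9, 5, 4, 8, 6, 5, 4, 3, 2, 3, 4, 8, 9, 5, 4, 6, 5, 7, 3, 4, 2, 10, 7, 6, 5, 4, 8, 9, 3, 4, 8, 5, 4, 6, 2]⟩], 0, 0, [2, 3, 4, 3, 2, 5, 6, 8, 9, 8, 4, 3, 5, 4, 6, 5, 8, 4, 3, 9, 8, 7, 6, 5, 4, 3, 2, 1, 8, 4, 3, 2, 5, 4, 3, 6, 7, 9, 8, 4, 3,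 2, 5, 4, 3, 6, 7, 8, 4, 5, 6, 9, 8, 4, 3, 2, 5, 4, 8, 9]⟩⟩
def r22_2 : Rep := ⟨3345, [10, 7, 6, 5, 4, 3, 2, 1, 8, 4, 3, 2, 5, 4, 6, 5, 9, 8, 4, 3, 5, 4, 8, 9], 4, 1, ⟨[⟨155, [532, 530, 528, 544, 532, 538, 544, 536, 540, 542, 530, 528, 534, 538, 540, 534, 542, 530, 536, 540, 534, 538, 544, 542, 540, 534, 538, 530, 528, 532], 1040, 0, [2, 3, 2, 4, 3, 2, 5, 4, 3, 2, 6, 5, 4, 3, 7, 6, 8, 4, 3, 2, 5, 4, 6, 5, 7, 8, 4, 3, 9, 8, 4, 3, 2, 5, 4, 3, 6, 5, 4, 7, 8, 4, 3, 5, 4, 6, 5, 9, 10, 7, 6, 5, 4, 3, 2, 8, 4, 5, 6, 7, 10]⟩, ⟨79, [838, 842, 836, 844, 838, 832], 1132, 1, [8, 9, 4, 8, 5, 4, 8, 9, 6, 5, 4, 7, 6, 5, 4, 8, 3, 4, 8, 9, 5, 4, 6, 5, 7, 6, 3, 4, 5, 2, 3, 4, 8, 9, 5, 4, 6, 5, 7, 6, 3, 4, 5, 10, 7, 6, 5, 4, 8, 9, 3, 4, 8, 5, 4, 2, 3, 4, 5, 6,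 7, 10]⟩, ⟨199, [534, 540, 536, 532, 528, 530, 542, 540, 534, 538, 544], 1032, 0, [2, 3, 2, 4, 3, 6, 5, 4, 7, 6, 5, 4, 3, 8, 4, 3, 2, 5, 4, 6, 5, 7, 6, 9, 8, 4, 3, 5, 4, 6, 5, 7, 6, 8, 4, 3, 5, 4, 8, 10, 7, 6, 5, 4, 3, 8, 4, 5, 6, 7, 9, 8, 4, 5, 6]⟩], 1, 1, [2, 3, 8, 4, 5, 9, 8, 4, 3, 6, 7, 5, 6, 4, 5, 8, 4, 3, 2, 6, 4, 5, 9, 8, 4, 3, 11, 9, 8, 4, 5, 6, 7, 4, 3, 8, 4, 5, 6, 9, 8, 4, 5, 11, 9, 8, 4, 3, 2, 11, 9, 8, 4, 3, 5, 6, 4, 5, 8, 4, 3, 9, 8, 4, 5, 11, 9, 8, 4, 3, 8, 4, 9, 8, 11]⟩⟩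
def r22 : List Rep := [r22_0, r22_1, r22_2]
theorem k22 : allA r22 (rpOK 22 BmD2.ws 4) = true := by decide +kernel
theorem b22 : Nat.beq (bfs Fi23M.nets BmD2.ws [2, 4, 7, 1, 5, 6, 3, 0, 2, 4, 8, 5, 3, 4, 7, 2, 1, 3, 2, 6, 0, 5, 4, 7, 1, 3, 0, 5, 6, 8, 2, 4, 5, 6, 7, 3, 1, 4, 2, 7, 5, 0, 3, 6, 1, 7, 4, 8, 2, 3, 5, 6, 4, 2, 1, 3, 5, 7, 2, 4, 3, 4, 2, 5, 1, 6] (rpM r22)) (Nat.pred (Nat.pow 2 31671)) = true := by decide +kernel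
theorem n22 : neOK 4 [10, 7, 6, 5] r22_1 0 = true := by decide +kernel
def r23_0 : Rep := ⟨0, [], 2, 10, ⟨[⟨156, [590, 576], 1052, 0, [3, 2, 5, 4, 3, 2, 7, 8, 4, 3, 5, 4, 6, 5, 7, 6, 8, 4, 3, 2, 9, 8, 4, 3, 2, 5, 4, 3, 6, 5, 4, 7, 8, 4, 3, 2, 5, 6, 7, 10, 7, 6, 5, 4, 3, 2, 8, 4, 3, 5, 6, 7, 9, 8, 4, 3, 2, 5, 4, 6, 10, 7]⟩, ⟨29, [670, 680, 678, 674, 682, 672, 678, 682, 680, 678, 674, 670, 676], 1084, 1, [5, 4, 8, 6, 5, 4, 7, 6, 5, 4, 8, 3, 4, 8, 9, 5, 4, 8, 6, 5, 3, 4, 8, 9, 2, 3, 4, 8, 5, 4, 6, 5, 7, 6, 3, 4, 8, 5, 4, 3, 10, 7, 6, 5, 4, 8, 3, 4, 5, 2, 3]⟩], 27, 0, [2, 4, 6, 5, 4, 3, 2, 8, 4, 3, 2, 5, 4, 3, 6, 5, 4, 7, 6, 8, 4, 3, 2, 5, 4, 8, 9, 8, 4, 3, 2, 5, 4, 3, 6, 5, 4, 7, 6, 5, 8, 4, 3, 5, 4, 6, 8, 9, 8, 4, 1, 2, 3, 4, 5, 6, 7, 8, 4,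 3, 2, 5, 4, 6, 8, 9, 8, 4, 3, 2, 1, 5, 4, 3, 2, 8, 4, 3, 5, 4, 6, 5, 8]⟩⟩
def r23_1 : Rep := ⟨28, [10, 7, 6, 5, 4, 3, 2, 1], 4, 1, ⟨[⟨172, [592, 562, 568, 582, 586, 574, 590, 564], 1056, 0, [7, 8, 4, 3, 2, 5, 4, 3, 6, 5, 4, 7, 6, 8, 4, 3, 2, 5, 4, 6, 8, 9, 8, 4, 3, 2, 5, 4, 3, 6, 5, 4, 7, 8, 4, 3, 2, 5, 4, 6, 5, 7, 9, 8, 4, 5, 6, 10, 7, 6, 5, 4, 3, 2, 8, 4, 3, 5, 4, 6, 7, 8, 9, 8, 4, 3, 5, 4, 6, 7, 8]⟩, ⟨29, [906, 910, 894, 898, 906, 902, 898, 906, 910, 908, 906, 902], 1158, 1, [9, 8, 4, 3, 2, 5, 4, 3, 9, 8, 4, 5, 6, 7, 10, 4, 3, 2, 6, 4, 5, 9, 8, 4, 3, 4, 5, 6, 8, 4, 5, 9, 8, 4, 3, 2, 8, 4, 5, 9, 8, 4, 3, 6, 7, 4, 5, 6, 8, 4, 5, 9, 8, 4, 3, 6, 7, 5, 6, 5, 8]⟩, ⟨81, [876, 870, 878, 874, 876], 1150, 0, [2, 4, 5, 4, 3, 6, 5, 4, 7, 6, 5, 8, 4,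 3, 2, 5, 4, 3, 6, 5, 4, 7, 6, 8, 4, 3, 2, 5, 4, 3, 6, 8, 9, 8, 4, 3, 2, 5, 4, 6, 5, 7, 6, 8, 4, 3, 5, 4, 8, 9, 8, 4, 3, 5, 4, 6, 5, 10, 7, 6, 5, 4, 3]⟩, ⟨27, [910, 906, 902, 910, 908, 910, 902, 894, 898, 906, 910, 904, 898, 892, 896], 1160, 1, [4, 3, 5, 6, 4, 5, 8, 4, 3, 2, 7, 6, 5, 4, 3, 9, 8, 4, 5, 6, 7, 10, 2, 7, 6, 5, 8, 4, 3, 5, 6, 7, 4, 5, 6, 8, 4, 5, 9, 8, 4, 3, 2, 8, 4, 5, 9, 8, 4, 3, 6, 7, 5, 6, 4, 5, 9, 8, 4, 3, 9, 8, 4, 5, 6, 7, 8, 4, 5, 4]⟩, ⟨265, [556, 568], 1042, 0, [5, 6, 5, 7, 6, 5, 8, 4, 3, 2, 5, 4, 3, 6, 5, 4, 7, 6, 5, 8, 4, 3, 2, 5, 4, 3, 6, 5, 4, 7, 6, 5, 8, 4, 3, 5, 4, 6, 5, 9, 8, 4, 3, 2, 5, 4, 3, 6, 5, 4, 7, 6, 8, 4, 3, 2, 5, 6, 9, 8, 4, 5, 6, 10, 7, 6, 5, 4, 3, 8, 4, 5, 6, 7, 9, 8, 4, 5, 6, 10]⟩, ⟨29, [506, 504, 502,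 494, 498, 500, 490, 502, 500, 494, 502, 492, 494, 498, 504, 506], 1022, 1, [9, 8, 9, 6, 5, 4, 8, 7, 3, 4, 8, 5, 4, 6, 5, 7, 6, 3, 4, 8, 9, 5, 4, 3, 2, 3, 4, 8, 9, 5, 4, 8, 3, 4, 5, 6, 7, 10, 7, 6, 5, 4, 8, 9, 3, 4, 8, 5, 4, 6, 5, 7, 6, 3, 4, 8, 9, 5, 4, 8, 3, 10, 7]⟩], 0, 0, [2, 4, 3, 6, 5, 7, 8, 4, 3, 5, 4, 6, 5, 7, 6, 8, 4, 3, 2, 5, 4, 3, 8, 9, 8, 4, 3, 2, 5, 4, 3, 8, 4, 5, 6, 7, 9, 8, 4, 1, 2, 3, 4, 5, 6, 7, 8, 4, 3, 5, 4, 6, 9, 8, 4, 3, 2, 5, 4, 3, 6, 8, 4, 5]⟩⟩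
def r23_2 : Rep := ⟨674, [10, 7, 6, 5, 4, 3, 2, 1, 8, 4, 3, 5, 6, 9, 8, 4, 3, 5], 4, 0, ⟨[⟨192, [572, 592], 1042, 0, [3, 4, 5, 4, 3, 2, 6, 7, 8, 4, 3, 2, 5, 4, 3, 6, 8, 4, 9, 8, 4, 3, 2, 5, 4, 3, 6, 5, 7, 6, 8, 4, 3, 2, 5, 4, 6, 7, 8, 10, 7, 6, 5, 4, 3, 8, 4, 5, 6, 7, 9, 8, 4, 3, 2, 5, 4]⟩, ⟨29, [498, 496, 494, 490, 496, 504, 498, 494, 492, 504, 502, 500, 490, 494, 502, 498, 504, 506, 492, 494, 498, 504, 502, 500, 490, 496], 1028, 1, [4, 8, 3, 4, 8, 9, 5, 4, 8, 6, 5, 4, 7, 6, 5, 3, 4, 8, 9, 5, 4, 8, 6, 7, 3, 4, 5, 6, 2, 3, 4, 8, 9, 5, 4, 6, 5, 7, 6, 3, 4, 8, 5, 4, 3, 2, 3, 4, 8, 10, 7, 6, 5, 4, 8, 3, 4, 2]⟩, ⟨81, [804, 808, 806, 808, 800, 808, 804, 798], 1110, 0, [5, 6, 5, 4, 3, 2, 7, 6, 5, 8, 4, 3, 2, 5, 4, 6, 5, 8, 4, 3, 9, 8, 4, 3, 2, 5,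 4, 3, 6, 5, 4, 7, 6, 5, 8, 4, 3, 2, 5, 4, 3, 9, 8, 4, 3, 2, 5, 4, 3, 8, 4, 10, 7, 6, 5, 4, 3, 2, 8, 4, 3, 5, 4, 6, 5, 7, 6, 8, 4, 3, 5, 10, 7]⟩, ⟨27, [494, 504, 498, 494, 500, 490, 502, 500, 494, 502, 492, 498], 1026, 1, [9, 5, 4, 8, 6, 5, 4, 8, 9, 3, 4, 8, 9, 5, 4, 8, 6, 5, 4, 7, 6, 3, 4, 8, 9, 5, 4, 6, 7, 3, 2, 3, 4, 8, 5, 4, 3, 10, 7, 6, 5, 4, 8, 9, 3, 4, 5, 6, 7, 2, 3, 4, 8, 9, 5, 4, 6, 5]⟩, ⟨285, [572, 592], 1042, 0, [2, 3, 4, 3, 2, 5, 4, 3, 2, 6, 5, 4, 7, 6, 8, 4, 3, 2, 5, 4, 3, 6, 5, 4, 7, 6, 8, 4, 3, 5, 4, 6, 5, 7, 9, 8, 4, 3, 2, 5, 4, 3, 6, 5, 4, 7, 6, 5, 8, 4, 10, 7, 6, 5, 4, 3, 2, 8, 4, 3, 5, 4, 6, 7, 9, 8, 4, 5, 6, 10]⟩, ⟨29, [498, 504, 494, 498, 490, 500, 502, 494, 492, 496, 490, 500, 502, 494, 498, 504, 506], 1022, 1, [9, 8,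 9, 6, 7, 6, 5, 3, 4, 8, 5, 4, 3, 2, 3, 4, 8, 9, 5, 4, 8, 6, 5, 4, 7, 6, 5, 3, 4, 8, 9, 2, 3, 4, 8, 10, 7, 6, 5, 4, 8, 9, 3, 4, 8, 5, 4, 3, 2, 3, 4, 8, 9, 5, 4, 8, 6, 3, 4]⟩], 0, 0, [2, 1, 5, 4, 3, 6, 8, 4, 3, 2, 5, 4, 3, 8, 4, 5, 6, 9, 8, 4, 3, 2, 5, 4, 3, 8, 4, 5, 9, 8, 4, 3, 2, 7, 6, 5, 4, 3, 2, 1, 8, 4, 3, 2, 5, 4, 3, 6, 5, 4, 7, 9, 8, 4, 3, 2, 1, 5, 4, 3, 6, 7]⟩⟩
def r23_3 : Rep := ⟨12421, [10, 7, 6, 5, 4, 3, 2, 1, 8, 4, 3, 2, 5, 4, 6, 9, 8, 4, 3, 2, 1, 5, 4, 3, 6, 5, 7, 6, 8, 4, 3, 5], 3, 0, ⟨[⟨220, [566, 574, 584, 592, 572, 574, 568, 582, 568], 1048, 0, [6, 3, 4, 5, 2, 3, 4, 8, 9, 8, 4, 5, 3, 4, 8, 2, 3, 4, 5, 6, 7, 10, 7, 6, 5, 4, 8, 9, 5, 6, 4, 5, 3, 4, 8, 5, 6, 7, 4, 5, 6, 3, 4, 5, 2, 3, 4, 8, 9, 4, 8, 6, 7, 5, 6, 4, 5, 3, 4, 8, 5,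 6, 7, 4, 5, 6, 3, 4, 5, 2, 3, 4, 8, 5, 6, 7, 3, 4, 5, 6, 3, 4, 5, 4, 3, 2]⟩, ⟨29, [654, 642, 636, 626, 636], 1074, 1, [10, 8, 4, 3, 2, 7, 6, 5, 8, 4, 3, 9, 8, 4, 5, 6, 7, 10, 7, 6, 5, 4, 3, 2, 3, 4, 5, 8, 4, 3, 6, 7, 5, 6, 8, 4, 5, 9, 8, 4, 3, 2, 9, 8, 4, 5, 4, 8]⟩, ⟨81, [872, 876, 868, 874, 876, 870, 878, 874], 1142, 0, [7, 10, 6, 4, 5, 3, 4, 8, 9, 7, 6, 5, 4, 8, 2, 3, 4, 5, 6, 7, 10, 5, 2, 3, 4, 8, 9, 7, 6, 5, 2, 3, 4, 8, 6, 7, 4, 5, 6, 3, 4, 5, 2, 3, 4, 8, 9, 7, 6, 5, 4, 8, 3, 4, 5, 2, 3, 4, 8, 5, 6, 7, 4, 5, 6, 3, 4, 5, 2, 3, 4, 8, 7, 3, 4, 5, 6, 5, 4, 3]⟩, ⟨27, [676], 1084, 1, [5, 6, 4, 5, 8, 4, 3, 2, 3, 6, 4, 5, 8, 4, 3, 9, 8, 4, 5, 6, 7, 10, 3, 4, 5, 9, 8, 4, 3, 2, 6, 4, 5, 9, 8, 4, 3, 6, 7, 4, 5, 6, 8, 4, 5, 9, 8, 4, 3, 2, 5, 4, 3,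 5, 6, 8, 4, 5, 9, 8, 4, 3, 8, 4, 5, 6, 4, 5, 4, 9, 8]⟩], 27, 0, [3, 2, 1, 4, 5, 4, 3, 2, 1, 6, 5, 4, 3, 8, 4, 3, 2, 1, 5, 4, 3, 2, 6, 5, 4, 3, 8, 4, 3, 5, 9, 8, 4, 3, 2, 1, 5, 4, 3, 2, 6, 5, 8, 4, 3, 5, 4, 6, 5, 9, 8, 7, 6, 5, 4, 3, 2, 1, 8, 4, 3, 2, 5, 4, 3, 6, 7, 9, 8, 4, 5, 6]⟩⟩
def r23_4 : Rep := ⟨12486, [10, 7, 6, 5, 4, 3, 2, 1, 8, 4, 3, 2, 5, 4, 6, 9, 8, 4, 3, 2, 5, 4, 3, 6, 5, 7, 6, 8, 4, 5, 10], 3, 0, ⟨[⟨218, [572, 592], 1042, 0, [6, 3, 4, 5, 2, 3, 4, 8, 9, 8, 4, 5, 3, 4, 8, 2, 3, 4, 5, 6, 7, 10, 6, 4, 5, 2, 3, 4, 8, 6, 7, 4, 5, 6, 3, 4, 5, 2, 3, 4, 8, 9, 4, 8, 7, 5, 6, 4, 5, 3, 4, 8, 5, 6, 7, 4, 5, 6, 3, 4, 5, 2, 3, 4, 8, 2, 3, 4, 5, 6, 7, 5, 4, 3, 2]⟩, ⟨29, [498, 494, 492, 502, 498, 494, 500, 502, 494, 498, 504, 506, 492, 494, 498,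 504, 502, 494, 492, 498, 500, 502, 494, 498, 492, 490, 500, 502, 494, 496, 490, 500, 502], 1024, 1, [8, 9, 5, 6, 5, 7, 3, 4, 8, 9, 5, 4, 8, 6, 5, 4, 7, 6, 3, 4, 8, 9, 5, 4, 8, 3, 4, 5, 6, 2, 3, 4, 8, 9, 5, 4, 8, 6, 7, 3, 4, 5, 2, 3, 10, 7, 6, 5, 4, 8, 9, 3, 4, 8, 5, 4, 6, 5, 7, 6, 3, 4, 8, 9]⟩, ⟨81, [534, 538, 544], 1032, 0, [2, 3, 2, 4, 3, 2, 5, 4, 3, 6, 5, 4, 3, 7, 6, 5, 8, 4, 3, 2, 5, 4, 3, 6, 5, 4, 8, 4, 3, 2, 5, 9, 8, 4, 3, 2, 5, 4, 3, 6, 5, 4, 7, 6, 5, 8, 4, 3, 5, 4, 8, 9, 8, 4, 3, 5, 4, 8, 10, 7, 6, 5, 4, 3, 2, 8, 4, 3, 5, 4, 6, 5, 7, 6, 8, 4, 5, 9, 8, 4, 5, 6, 10, 7, 6]⟩, ⟨27, [28, 26, 34, 32, 36, 20, 22, 24, 32, 34, 26, 24, 22, 32, 24, 28, 30, 26, 28, 24, 32, 22, 24, 26, 20, 22, 24, 32, 34, 36], 1016, 1, [5, 4, 8, 6, 5, 4, 8, 9, 7,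 6, 5, 3, 4, 8, 5, 4, 2, 3, 4, 8, 9, 5, 4, 8, 3, 10, 7, 6, 5, 4, 8, 9, 3, 4, 8, 5, 4, 6, 5, 7, 6, 3, 4, 2, 3, 4, 5, 6, 10, 7]⟩], 0, 0, [2, 4, 3, 5, 6, 5, 4, 3, 8, 4, 3, 2, 1, 5, 4, 3, 2, 6, 5, 4, 8, 4, 3, 2, 5, 4, 3, 6, 5, 9, 8, 4, 3, 2, 1, 5, 4, 3, 2, 6, 5, 4, 8, 4, 3, 5, 4, 9, 8, 7, 6, 5, 4, 3, 2, 1, 8, 4, 3, 2, 5, 4, 3, 6, 7, 9, 8, 4, 3, 2, 5, 4, 6, 5, 7, 6, 8, 4, 3, 2, 5, 4, 3, 9]⟩⟩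
def r23 : List Rep := [r23_0, r23_1, r23_2, r23_3, r23_4]
theorem k23 : allA r23 (rpOK 23 BmD3.ws 30) = true := by decide +kernel
theorem b23 : Nat.beq (bfs Fi23M.nets BmD3.ws [1, 3, 2, 4, 14, 15, 11, 17, 16, 6, 3, 2, 13, 12, 11, 4, 18, 7, 10, 12, 3, 2, 15, 16, 17, 18, 7, 10, 12, 13, 2, 1, 17, 18, 11, 7, 2, 1, 0, 20, 0, 1, 0, 1, 2, 3, 18, 10, 12] (rpM r23)) (Nat.pred (Nat.pow 2 31671)) = true := by decide +kernel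
theorem n23 : neOK 30 [10, 7, 6, 5, 4, 3] r23_3 0 = true := by decide +kernel
def r29_0 : Rep := ⟨0, [], 2, 0, ⟨[⟨125, [804, 808, 806, 808, 800, 808, 804, 798], 1110, 0, [3, 2, 4, 3, 2, 6, 5, 4, 7, 6, 5, 4, 8, 4, 3, 2, 5, 4, 3, 6, 5, 4, 7, 6, 5, 8, 4, 3, 2, 5, 4, 3, 6, 5, 4, 7, 6, 9, 8, 4, 3, 5, 4, 8, 9, 10, 7, 6, 5, 4, 3, 2, 8, 4, 3, 5, 4, 6, 5, 9, 8, 4, 3, 2]⟩, ⟨15, [498, 504, 494, 498, 500, 490, 502, 500, 494, 502, 492, 494, 498, 504, 506], 1022, 1, [6, 5, 4, 3, 2, 4, 3, 6, 7, 5, 6, 4, 5, 8, 4, 3, 9, 8, 4, 5, 6, 7, 10, 8, 4, 3, 2, 9, 8, 4, 3, 5, 6, 7, 4, 5, 6, 8, 4, 5, 9, 8, 4, 3, 2, 4, 5, 8, 4, 3, 7, 4, 5, 6, 8, 4, 5, 9, 8, 4, 3, 5, 6, 7, 4, 5, 6, 8, 4, 5, 9, 8, 4, 3, 4, 5, 6, 7, 6, 9]⟩], 0, 0, [1, 2, 3, 4, 8, 9, 4, 8, 5, 6, 4, 5, 2, 3,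 4, 8, 7, 6, 5, 4, 3, 2, 1, 9, 8, 4, 5, 3, 4, 8, 9, 4, 5, 3, 4, 8, 6, 7, 5, 6, 4, 5, 2, 3, 4, 8, 3, 4, 5, 6, 7, 6, 5, 3, 4, 2, 3]⟩⟩
def r29_1 : Rep := ⟨6, [10, 7, 6, 5, 4, 8], 3, 1, ⟨[⟨137, [806, 804, 808, 800, 804, 808, 794, 796, 804], 1110, 0, [2, 3, 2, 6, 7, 8, 4, 3, 2, 5, 4, 3, 6, 5, 4, 7, 6, 8, 9, 8, 4, 3, 10, 7, 6, 5, 4, 3, 8, 4, 5, 9, 8]⟩, ⟨15, [498, 494, 498, 504, 502, 494, 492, 498, 494, 490, 500, 502, 494, 498, 492, 494, 496, 490, 500, 502], 1024, 1, [4, 8, 9, 5, 4, 8, 3, 4, 8, 9, 5, 4, 8, 6, 5, 4, 7, 6, 3, 4, 8, 9, 5, 4, 8, 6, 5, 4, 3, 4, 5, 6, 2, 3, 4, 8, 9, 5, 4, 6, 5, 7, 6, 3, 4, 5, 2, 3, 4, 10, 7, 6, 5, 4, 8, 9, 3, 4, 5, 6, 2, 3, 4, 8, 9]⟩, ⟨93, [528, 534, 538, 540, 534, 542, 530, 540, 542, 536, 540, 534, 538, 544], 1032, 0,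 [8, 5, 6, 4, 5, 3, 4, 8, 9, 7, 6, 5, 3, 4, 8, 2, 3, 4, 5, 6, 7, 10, 7, 6, 4, 5, 3, 4, 8, 9, 2, 3, 4, 8, 5, 6, 7, 4, 5, 6, 3, 4, 5, 2, 3, 4, 8, 9, 7, 6, 4, 5, 3, 4, 8, 6, 7, 4, 5, 6, 3, 4, 5, 2, 3, 4, 8, 3, 4, 5, 6, 7, 3, 4, 5, 6, 4, 5, 2, 3, 4]⟩, ⟨36, [26, 24, 32, 34, 36], 1016, 1, [4, 3, 2, 5, 9, 8, 4, 3, 6, 7, 5, 6, 4, 5, 9, 8, 4, 3, 2, 5, 4, 3, 5, 6, 8, 4, 5, 9, 8, 4, 3, 6, 7, 4, 5, 6, 8, 4, 5, 9, 8, 4, 3, 5, 6, 7, 9, 8, 4, 5, 6, 4, 9, 8]⟩], 0, 0, [4, 8, 9, 5, 6, 4, 5, 1, 2, 3, 4, 8, 7, 6, 5, 4, 3, 2, 1, 8, 6, 7, 5, 6, 4, 5, 2, 3, 4, 8, 9, 7, 6, 5, 4, 8, 5, 6, 3, 4, 5, 2, 3, 4, 8, 6, 7, 4, 5, 6, 3, 4, 5, 2, 3, 4, 8, 4, 5, 6, 7, 6]⟩⟩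
def r29_2 : Rep := ⟨131, [10, 7, 6, 5, 4, 3, 2, 8, 4, 3, 9, 8], 4, 0, ⟨[⟨149, [804, 808, 806, 802, 792, 794, 796], 1120, 0, [6, 3, 4, 5, 2, 3, 4, 8, 9, 7, 5, 6, 4, 5, 3, 4, 8, 2, 3, 4, 5, 6, 7, 10, 7, 6, 3, 4, 5, 2, 3, 4, 8, 7, 4, 5, 6, 3, 4, 5, 2, 3, 4, 8, 9, 2, 3, 4, 8, 6, 7, 5, 6, 4, 5, 2, 3, 4, 8, 2, 3, 4, 5, 6, 2, 3, 4, 5, 3, 4, 2, 3]⟩, ⟨15, [910, 902, 906, 910, 908, 906, 910, 906, 902, 894], 1158, 1, [9, 8, 9, 4, 5, 4, 7, 6, 5, 3, 4, 8, 9, 5, 4, 6, 3, 2, 3, 4, 8, 5, 4, 6, 5, 7, 6, 3, 4, 8, 5, 4, 3, 10, 7, 6, 5, 4, 8, 3, 4, 5, 6, 2, 3, 4, 5]⟩, ⟨93, [874, 860, 868, 874, 876, 870, 878, 874, 876], 1150, 0, [5, 3, 4, 8, 9, 8, 5, 6, 4, 5, 3, 4, 8, 2, 3, 4, 5, 6, 7, 10, 8, 4, 5, 6, 3, 4, 5, 2, 3, 4, 8, 9, 4, 8, 6, 7, 5, 6, 4, 5, 3, 4, 8, 2,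 3, 4, 5, 6, 3, 4, 5, 4, 3]⟩, ⟨36, [906, 902, 908, 898, 892, 904, 902, 910, 904, 906, 902], 1164, 1, [10, 5, 9, 8, 4, 3, 2, 7, 6, 5, 8, 4, 3, 9, 8, 4, 5, 6, 7, 10, 3, 4, 5, 8, 4, 3, 2, 6, 8, 4, 5, 9, 8, 4, 3, 5, 6, 7, 4, 5, 6, 8, 4, 5, 9, 8, 4, 3, 2, 5, 8, 4, 3, 6, 7, 5, 6, 8, 4, 5, 9, 8, 4, 3, 6, 7, 8, 4, 5, 6, 5, 4]⟩, ⟨176, [808, 806, 802, 796, 804, 808, 804, 802, 800, 802, 808, 796, 804], 1110, 0, [3, 4, 5, 4, 3, 6, 5, 4, 3, 8, 4, 3, 5, 4, 6, 5, 7, 6, 9, 8, 4, 3, 2, 5, 4, 3, 6, 5, 4, 7, 6, 5, 8, 4, 3, 5, 9, 10, 7, 6, 5, 4, 3, 2, 8, 4, 3, 5, 4, 6, 9, 8, 4, 3, 2, 5, 4, 6, 5]⟩, ⟨15, [498, 504, 494, 498, 500, 490, 502, 500, 494, 502, 492, 494, 498, 504, 506], 1022, 1, [4, 5, 9, 8, 4, 3, 2, 6, 4, 5, 8, 4, 3, 9, 8, 4, 5, 6, 7, 10, 3, 2, 8, 4,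 3, 6, 7, 5, 6, 4, 5, 8, 4, 3, 2, 5, 4, 3, 4, 5, 6, 8, 4, 5, 9, 8, 4, 3, 6, 7, 4, 5, 6, 8, 4, 5, 9, 8, 4, 3, 5, 6, 7, 4, 5, 6, 4, 5, 8, 4, 8]⟩], 0, 0, [8, 6, 4, 5, 3, 4, 8, 9, 6, 7, 5, 6, 4, 5, 3, 4, 8, 2, 3, 4, 5, 6, 7, 9, 6, 5, 4, 8, 3, 4, 5, 6, 2, 3, 4, 5, 1, 2, 3, 4, 8, 9, 3, 4, 8, 5, 6, 4, 5, 3, 4, 8, 2, 3, 4, 5, 1, 2, 3, 4, 8, 1, 2, 3, 4, 5, 2, 3, 4, 1, 2]⟩⟩
def r29_3 : Rep := ⟨5506, [10, 7, 6, 5, 4, 3, 2, 1, 8, 4, 3, 2, 5, 4, 3, 6, 5, 4, 7, 6, 5, 10, 7, 6], 2, 8, ⟨[⟨173, [806, 808, 806, 802, 804, 808, 806, 802, 800, 798], 1110, 0, [2, 4, 5, 4, 6, 5, 4, 7, 6, 5, 4, 8, 4, 3, 2, 5, 4, 3, 6, 5, 4, 7, 6, 5, 8, 4, 3, 2, 5, 4, 6, 5, 8, 4, 3, 9, 8, 4, 3, 2, 5, 4, 3, 6, 5, 7, 6, 8, 4, 3, 2, 9, 8, 10, 7, 6, 5, 4, 3, 2, 8, 4]⟩, ⟨15, [498, 494,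 502, 492, 494, 498, 504, 506], 1022, 1, [8, 9, 4, 5, 4, 8, 6, 5, 4, 7, 6, 5, 3, 4, 8, 5, 4, 6, 5, 7, 3, 4, 2, 3, 4, 8, 5, 4, 6, 5, 7, 6, 3, 4, 8, 5, 4, 3, 10, 7, 6, 5, 4, 8, 3]⟩], 0, 0, [2, 4, 3, 2, 5, 6, 5, 4, 3, 2, 7, 8, 4, 3, 2, 5, 4, 3, 6, 5, 4, 7, 6, 5, 8, 4, 9, 8, 4, 1, 2, 3, 4, 5, 6, 7, 8, 4, 3, 5, 6, 9, 8, 4, 3, 2, 5, 4, 6, 8]⟩⟩
def r29_4 : Rep := ⟨1304, [10, 7, 6, 5, 4, 3, 8, 4, 5, 6, 7, 9, 8, 10], 4, 4, ⟨[⟨153, [806, 804, 802, 800], 1110, 0, [2, 3, 5, 4, 3, 2, 6, 5, 4, 3, 7, 6, 5, 4, 3, 2, 8, 4, 3, 2, 5, 4, 3, 6, 5, 4, 7, 6, 5, 8, 4, 3, 2, 5, 4, 3, 6, 5, 7, 6, 8, 4, 3, 5, 4, 8, 9, 8, 4, 3, 5, 4, 6, 5, 7, 6, 8, 4, 5, 9, 10, 7, 6, 5, 4, 3, 8, 4, 5, 6, 9, 8, 4, 3]⟩, ⟨15, [506, 502, 494, 498, 504, 494, 498, 492, 502, 494, 498, 504, 506,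 500, 502, 494, 498, 504, 490, 500, 496], 1028, 1, [9, 8, 4, 6, 5, 4, 8, 9, 7, 6, 5, 3, 4, 8, 9, 5, 4, 8, 6, 5, 4, 3, 4, 5, 6, 2, 3, 4, 8, 10, 7, 6, 5, 4, 8, 3, 4, 5, 6, 2, 3, 4, 5]⟩, ⟨93, [804, 808, 806, 808, 800, 808, 804, 798], 1110, 0, [6, 5, 4, 8, 9, 8, 7, 6, 4, 5, 3, 4, 8, 2, 3, 4, 5, 6, 7, 10, 9, 8, 6, 4, 5, 2, 3, 4, 8, 9, 7, 6, 5, 3, 4, 8, 5, 6, 7, 4, 5, 6, 3, 4, 5, 2, 3, 4, 8, 9, 6, 5, 2, 3, 4, 8, 5, 6, 7, 4, 5, 6, 3, 4, 5, 2, 3, 4, 8, 2, 3, 4, 5, 6, 4, 5, 4, 2]⟩, ⟨36, [506, 496, 498, 504, 506, 494, 502, 490, 500, 502, 494, 492, 498, 494, 504, 496], 1028, 1, [8, 4, 8, 5, 4, 8, 7, 3, 4, 8, 9, 5, 4, 8, 6, 5, 7, 6, 3, 4, 8, 9, 5, 4, 8, 3, 4, 5, 2, 3, 4, 8, 9, 5, 10, 7, 6, 5]⟩, ⟨180, [802, 796, 804, 802, 806, 808, 800, 796, 804, 808, 804,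 798], 1110, 0, [2, 3, 2, 4, 3, 5, 6, 7, 6, 5, 4, 8, 4, 3, 2, 5, 4, 3, 6, 5, 4, 7, 6, 5, 8, 4, 3, 2, 5, 4, 6, 5, 8, 4, 3, 9, 8, 4, 3, 2, 5, 4, 6, 5, 7, 6, 8, 4, 10, 7, 6, 5, 4, 3, 2, 8, 4, 3, 5, 4, 9, 8, 4, 3, 2, 5]⟩, ⟨15, [496, 490, 500, 502, 494, 498, 504, 506], 1022, 1, [4, 3, 2, 7, 6, 4, 5, 8, 4, 3, 9, 8, 4, 5, 6, 7, 10, 5, 4, 3, 2, 8, 4, 3, 5, 6, 4, 5, 8, 4, 3, 2, 6, 5, 4, 3, 4, 5, 6, 8, 4, 5, 9, 8, 4, 3, 6, 7, 4, 5, 6, 8, 4, 5, 9, 8, 4, 3, 6, 7, 8, 4, 5, 6, 4, 5, 8, 4, 8]⟩], 0, 0, [2, 3, 2, 4, 3, 5, 4, 3, 6, 5, 4, 8, 4, 3, 2, 1, 5, 4, 3, 2, 8, 4, 3, 5, 4, 6, 5, 8, 4, 9, 8, 4, 3, 2, 1, 5, 4, 3, 2, 6, 5, 4, 3, 7, 6, 5, 4, 3, 2, 1, 8, 4, 3, 2, 5, 4, 6, 9, 8, 4, 3, 5, 4, 6, 5, 7, 6, 8, 4, 3, 2, 5, 4, 8, 9]⟩⟩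
def r29_5 : Rep := ⟨2381, [10, 7, 6, 5, 4, 3, 2, 8, 4, 5, 6, 7, 9, 8, 4, 3, 2, 5, 4, 6, 10], 3, 0, ⟨[⟨167, [808, 800, 804, 808, 798, 794, 796, 804, 792], 1112, 0, [10, 2, 3, 4, 8, 9, 8, 7, 6, 4, 5, 3, 4, 8, 2, 3, 4, 5, 6, 7, 10, 8, 4, 5, 3, 4, 8, 9, 6, 4, 5, 2, 3, 4, 8, 5, 6, 7, 4, 5, 6, 3, 4, 5, 2, 3, 4, 8, 9, 4, 8, 6, 7, 5, 6, 4, 5, 3, 4, 8, 2, 3, 4, 5, 6, 7, 4, 5, 6, 3, 4, 5, 2]⟩, ⟨15, [632, 642, 616, 630, 626, 636], 1074, 1, [8, 6, 5, 4, 8, 9, 7, 6, 5, 4, 3, 4, 8, 9, 5, 4, 8, 6, 5, 4, 7, 6, 3, 4, 8, 9, 5, 4, 8, 6, 5, 4, 7, 6, 5, 3, 4, 8, 5, 6, 2, 3, 4, 8, 9, 5, 4, 8, 6, 5, 7, 3, 4, 8, 9, 5, 6, 2, 3, 4, 8, 5, 10, 7, 6, 5, 4, 8, 3, 4, 5, 6, 2, 3]⟩, ⟨93, [870, 874, 860, 862, 872, 876, 870, 878, 874], 1142, 0, [4, 8, 5, 6, 4, 5, 3, 4, 8, 9,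 8, 6, 4, 5, 3, 4, 8, 2, 3, 4, 5, 6, 7, 10, 8, 9, 4, 8, 6, 7, 4, 5, 6, 3, 4, 5, 2, 3, 4, 8, 9, 5, 6, 3, 4, 5, 2, 3, 4, 8, 3, 4, 5, 3, 2]⟩, ⟨36, [670, 680, 678, 674, 684, 672, 682, 678, 680, 686, 684, 672, 682, 678, 674, 670, 676], 1084, 1, [4, 5, 4, 8, 6, 5, 7, 6, 3, 4, 8, 9, 5, 4, 8, 6, 5, 4, 7, 6, 3, 4, 8, 9, 5, 4, 8, 6, 5, 2, 3, 4, 8, 5, 4, 6, 5, 7, 3, 4, 8, 9, 2, 10, 7, 6, 5, 4, 8, 9, 3, 4, 8, 5, 6, 7, 2]⟩], 27, 0, [5, 4, 8, 6, 7, 5, 6, 4, 5, 3, 4, 8, 9, 6, 4, 5, 2, 3, 4, 8, 1, 2, 3, 4, 5, 6, 7, 9, 6, 5, 3, 4, 8, 3, 4, 5, 6, 2, 3, 4, 5, 1, 2, 3, 4, 8, 9, 6, 5, 1, 2, 3, 4, 8, 5, 6, 3, 4, 5, 1, 2, 3, 4, 8, 6, 2, 3, 2]⟩⟩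
def r29 : List Rep := [r29_0, r29_1, r29_2, r29_3, r29_4, r29_5]
theorem k29 : allA r29 (rpOK 29 BmD4.ws 0) = true := by decide +kernel
theorem b29 : Nat.beq (bfs Fi23M.nets BmD4.ws [4, 1, 0, 2, 3, 8, 7, 6, 4, 5, 9, 8, 7, 6, 4, 5, 8, 7, 9, 6, 4, 7, 5, 8, 6, 4, 3, 7, 5, 9, 7, 5] (rpM r29)) (Nat.pred (Nat.pow 2 31671)) = true := by decide +kernel
theorem n29 : neOK 0 [] r29_5 1 = true := by decide +kernel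
def r34_0 : Rep := ⟨4, [10, 7, 6, 5], 4, 0, ⟨[⟨170, [988, 986, 992, 998, 990, 1004, 1006, 990, 1004], 1194, 0, [8, 5, 6, 4, 5, 3, 4, 8, 9, 8, 7, 6, 4, 5, 3, 4, 8, 2, 3, 4, 5, 6, 7, 10, 4, 8, 9, 6, 5, 2, 3, 4, 8, 5, 6, 3, 4, 5, 2, 3, 4, 8, 9, 8, 6, 7, 5, 6, 3, 4, 5, 2, 3, 4, 8, 3, 4, 5, 6, 7, 3, 4, 5, 6, 2, 3, 4, 5, 2, 3, 2]⟩, ⟨20, [904, 902, 906, 910, 908, 904, 902, 906, 892], 1166, 1, [6, 5, 4, 3, 2, 5, 8, 4, 3, 9, 8, 4, 5, 6, 7, 10, 5, 9, 8, 4, 3, 2, 8, 4, 5, 9, 8, 4, 3, 5, 6, 7, 4, 5, 6, 8, 4, 5, 9, 8, 4, 3, 2, 4, 5, 8, 4, 3, 7, 4, 5, 6, 8, 4, 5, 9, 8, 4, 3, 8, 4, 5, 6, 7, 8, 4, 5, 6, 9, 8, 4, 5, 4, 8, 9]⟩, ⟨6, [716, 714, 710, 704, 712, 708, 700, 706, 704, 708, 712, 714, 706, 704, 708, 700, 716, 714, 706, 704, 708, 712, 704, 702, 716, 714,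 706], 1088, 0, [7, 10, 4, 5, 2, 3, 4, 8, 6, 7, 5, 6, 4, 5, 3, 4, 8, 2, 3, 4, 5, 6, 7, 10, 6, 4, 5, 2, 3, 4, 8, 9, 6, 5, 2, 3, 4, 8, 5, 6, 7, 4, 5, 6, 3, 4, 5, 2, 3, 4, 8, 9, 7, 6, 5, 4, 8, 7, 6, 3, 4, 5, 2, 3, 4, 8, 5, 6, 7, 4, 5, 6, 3, 4, 5, 2, 3, 4, 8, 4, 5, 6, 7, 5, 6, 3, 4, 5, 2, 3, 4, 3, 2]⟩, ⟨15, [680, 678, 682, 686, 684, 672, 682, 678, 674, 670, 680, 678, 674, 682, 678, 686, 684, 672, 682], 1082, 1, [8, 7, 6, 5, 4, 8, 3, 4, 8, 5, 4, 6, 5, 7, 3, 2, 3, 4, 8, 9, 5, 4, 8, 6, 5, 7, 6, 3, 4, 8, 5, 6, 7, 2, 3, 10, 7, 6, 5, 4, 8, 3, 4]⟩, ⟨93, [700, 712, 704, 708, 700, 706, 714, 716, 704, 708, 706, 714, 712, 704, 706], 1088, 0, [2, 3, 2, 5, 6, 7, 6, 8, 4, 3, 2, 5, 4, 3, 6, 5, 4, 7, 6, 8, 4, 3, 5, 4, 6, 7, 9, 8, 4, 3, 2, 5, 4, 3, 6, 5, 4, 7,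 6, 8, 4, 3, 2, 5, 4, 6, 5, 9, 8, 4, 10, 7, 6, 5, 4, 3, 8, 4, 5, 6, 7, 9, 8, 4, 3, 5, 4, 6, 5, 8, 4, 3, 10]⟩, ⟨6, [678, 686, 684, 680, 678, 674, 670, 672, 682, 678, 674, 680, 684, 672, 682, 678, 686, 684, 672, 682], 1082, 1, [9, 8, 9, 4, 8, 5, 4, 8, 6, 7, 6, 3, 4, 8, 9, 5, 4, 8, 6, 5, 4, 7, 6, 5, 3, 4, 8, 9, 5, 4, 8, 6, 5, 4, 7, 6, 5, 3, 4, 8, 9, 5, 4, 3, 2, 3, 4, 8, 9, 5, 4, 8, 6, 5, 7, 6, 3, 4, 8, 9, 5, 2, 3, 4, 8, 9, 5, 10, 7, 6, 5, 4, 8, 9, 3, 4, 8, 5, 4, 6, 5, 7, 6, 3, 4, 8, 5, 4, 2, 10, 7, 6, 5]⟩, ⟨1, [700, 704, 708, 700, 710, 714, 706, 704, 708, 700, 710, 712, 704, 708, 700, 706, 704, 714], 1094, 0, [5, 6, 7, 6, 5, 8, 4, 3, 2, 5, 4, 3, 6, 5, 4, 7, 6, 5, 8, 4, 3, 2, 5, 4, 3, 9, 8, 4, 3, 2, 5, 4, 3, 8, 4, 5, 6, 7, 10, 7, 6, 5, 4, 3, 2,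 8, 4, 3, 5, 4, 6, 5, 7, 6, 8, 4, 3, 2, 5, 4, 3, 8, 10, 7, 6, 5]⟩, ⟨37, [906, 910, 906, 902, 896, 892, 904, 910], 1172, 1, [4, 8, 9, 5, 7, 6, 5, 4, 8, 3, 4, 8, 9, 5, 4, 8, 6, 5, 4, 7, 3, 2, 3, 4, 8, 9, 5, 4, 8, 6, 5, 4, 3, 4, 8, 9, 5, 4, 8, 6, 5, 10, 7, 6, 5, 4, 8, 9, 3, 4, 8]⟩, ⟨252, [1000, 974, 992, 996, 990, 996, 990, 1006], 1190, 0, [3, 2, 6, 5, 4, 7, 6, 5, 4, 3, 2, 8, 4, 3, 2, 5, 4, 3, 6, 5, 4, 7, 8, 4, 3, 5, 6, 7, 9, 8, 4, 3, 2, 5, 4, 3, 6, 5, 4, 7, 8, 4, 3, 5, 4, 6, 5, 7, 9, 8, 4, 5, 10, 7, 6, 5, 4, 3, 2, 8, 4, 3, 5, 4, 6, 5, 7, 9, 8, 4, 5]⟩, ⟨20, [836, 842, 826, 834, 838, 842, 844, 836, 842, 840, 844, 838, 842, 838, 844], 1126, 1, [9, 8, 4, 8, 9, 5, 4, 8, 9, 7, 3, 4, 8, 9, 2, 3, 4, 8, 5, 4, 6, 5, 7, 6, 3, 4, 8, 5, 4, 2, 10, 7, 6, 5,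 4, 8, 9, 3, 4, 8, 5, 6, 2, 3, 4, 5]⟩, ⟨6, [808, 802, 800, 806, 802, 804, 808, 800, 802, 796, 804], 1110, 0, [4, 8, 9, 7, 6, 4, 5, 3, 4, 8, 2, 3, 4, 5, 6, 7, 10, 7, 6, 5, 3, 4, 8, 9, 5, 4, 8, 6, 7, 4, 5, 6, 3, 4, 5, 2, 3, 4, 8, 6, 7, 4, 5, 6, 3, 4, 5, 2, 3, 4, 8, 2, 3, 4, 5, 6, 7, 2, 3, 4, 5, 3, 4]⟩, ⟨15, [494, 498, 502, 494, 492, 496, 490, 500, 502, 494, 498, 504, 506], 1022, 1, [8, 4, 8, 9, 5, 4, 8, 6, 5, 4, 8, 9, 7, 6, 5, 4, 3, 4, 5, 6, 2, 3, 4, 8, 5, 4, 6, 5, 7, 6, 3, 4, 8, 5, 4, 3, 10, 7, 6, 5, 4, 8, 3, 4, 5, 6, 7, 2, 3, 4, 5, 6]⟩], 0, 0, [3, 2, 4, 5, 4, 6, 5, 8, 4, 3, 2, 1, 5, 4, 3, 2, 8, 4, 3, 5, 6, 9, 8, 4, 3, 2, 1, 5, 4, 3, 2, 6, 8, 4, 3, 5, 4, 8, 9, 8, 4, 3, 2, 5, 7, 6, 5, 4, 3, 2, 1, 8, 4, 3, 2, 5, 4, 6, 5, 7, 6, 8, 9, 8, 4, 3, 5,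 4, 6, 5, 7, 8, 4, 3, 2]⟩⟩
def r34_1 : Rep := ⟨467, [10, 7, 6, 5, 4, 3, 2, 8, 4, 5, 6, 7, 10], 2, 0, ⟨[⟨188, [1000, 988, 1004, 976, 998, 980], 1194, 0, [4, 3, 2, 5, 6, 5, 4, 3, 2, 7, 6, 5, 4, 3, 8, 4, 3, 2, 5, 4, 3, 6, 5, 7, 9, 8, 4, 3, 2, 5, 4, 3, 6, 5, 4, 7, 6, 8, 4, 3, 5, 4, 6, 5, 8, 9, 8, 4, 3, 5, 4, 6, 7, 10, 7, 6, 5, 4, 3, 2, 8, 4, 5, 6, 7, 9, 8, 4, 3]⟩, ⟨20, [902, 908, 906, 910, 906, 902, 894], 1158, 1, [4, 3, 2, 8, 4, 3, 9, 8, 4, 5, 6, 7, 10, 2, 3, 4, 5, 6, 8, 4, 5, 9, 8, 4, 3, 2, 4, 5, 8, 4, 3, 6, 7, 4, 5, 6, 8, 4, 5, 9, 8, 4, 3, 2, 5, 4, 3, 6, 7, 5, 6, 4, 5, 9, 8, 4, 3, 8, 4, 5, 6, 9, 8, 4, 5, 4]⟩, ⟨6, [874, 870, 876, 878, 874, 870, 874], 1142, 0, [6, 7, 10, 8, 9, 5, 4, 8, 6, 7, 5, 6, 4, 5, 3, 4, 8, 2, 3, 4, 5, 6, 7, 10, 4, 8, 9,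 6, 5, 4, 8, 3, 4, 5, 2, 3, 4, 8, 9, 7, 6, 5, 2, 3, 4, 8, 6, 7, 4, 5, 6, 3, 4, 5, 2, 3, 4, 8, 7, 3, 4, 5, 6, 5, 4]⟩, ⟨15, [], 1084, 1, [9, 8, 9, 4, 6, 5, 7, 6, 3, 4, 8, 9, 5, 4, 8, 6, 5, 4, 7, 6, 3, 4, 8, 5, 4, 6, 2, 3, 4, 8, 5, 4, 6, 5, 7, 6, 3, 4, 8, 5, 4, 3, 10, 7, 6, 5, 4, 8, 3, 2]⟩], 27, 0, [5, 4, 8, 9, 5, 2, 3, 4, 8, 6, 7, 5, 6, 3, 4, 5, 1, 2, 3, 4, 8, 9, 7, 6, 3, 4, 5, 2, 3, 4, 8, 1, 2, 3, 4, 5, 6, 7, 4, 8, 9, 6, 4, 5, 3, 4, 8, 3, 4, 5, 6, 2, 3, 4, 5, 1, 2, 3, 4, 8, 2, 3, 4, 5, 3, 4, 2]⟩⟩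
def r34_2 : Rep := ⟨129, [10, 7, 6, 5, 4, 3, 2, 1, 8, 4, 3, 5], 4, 0, ⟨[⟨186, [982, 992, 998, 990, 976, 988, 984, 996], 1192, 0, [2, 3, 2, 4, 3, 2, 5, 4, 3, 6, 7, 8, 4, 3, 2, 5, 4, 3, 6, 5, 7, 6, 8, 4, 3, 5, 4, 9, 8, 4, 3, 2, 5, 4, 3, 6, 5, 8, 4, 9, 8, 10, 7, 6, 5, 4, 3, 2, 8, 4, 3, 5, 4, 6, 5, 7, 9, 8, 4, 5, 6, 10]⟩, ⟨20, [654, 644, 650, 614, 652, 642], 1062, 1, [3, 7, 6, 4, 5, 8, 4, 3, 2, 6, 5, 8, 4, 3, 9, 8, 4, 5, 6, 7, 10, 4, 5, 8, 4, 3, 2, 6, 5, 9, 8, 4, 3, 5, 6, 7, 4, 5, 6, 8, 4, 5, 9, 8, 4, 3, 2, 7, 6, 5, 9, 8, 4, 3, 5, 6, 7, 4, 5, 9, 8, 4, 9]⟩, ⟨6, [576, 572, 574, 572, 586, 584, 574], 1054, 0, [2, 4, 3, 5, 4, 6, 5, 4, 3, 7, 8, 4, 3, 2, 5, 4, 3, 6, 5, 4, 7, 6, 5, 8, 4, 9, 8, 4, 3, 2, 5, 4, 3, 6, 5, 7, 6, 8, 4, 3, 5, 4, 6, 9, 8, 4, 3,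 2, 5, 4, 6, 7, 10, 7, 6, 5, 4, 3, 8, 4, 5, 6, 7, 9, 8, 4, 3, 5, 4, 6, 5, 8, 10, 7, 6]⟩, ⟨15, [840, 844, 838, 842, 838, 840, 844, 838, 842, 826, 832], 1128, 1, [6, 7, 6, 5, 4, 8, 3, 4, 8, 5, 4, 6, 5, 7, 6, 2, 3, 4, 8, 9, 5, 4, 8, 6, 5, 4, 7, 3, 4, 8, 9, 5, 4, 8, 6, 5, 4, 2, 3, 4, 5, 10, 7, 6, 5, 4, 8, 3, 4, 5, 6, 7, 2, 3, 4, 8, 9, 5, 4, 6, 10]⟩, ⟨93, [800, 808, 804, 802, 806, 808, 804, 790, 796, 804, 802], 1116, 0, [3, 2, 5, 4, 6, 5, 4, 3, 2, 8, 4, 3, 2, 5, 4, 3, 6, 5, 4, 7, 6, 8, 4, 3, 2, 5, 4, 3, 6, 7, 8, 4, 5, 6, 9, 8, 4, 3, 2, 5, 4, 3, 6, 5, 7, 6, 8, 4, 3, 5, 6, 9, 8, 4, 3, 2, 5, 4, 6, 8, 10, 7, 6, 5, 4, 3, 2, 8, 4, 3, 5, 6, 7, 9, 10]⟩, ⟨6, [838, 842, 840, 844, 838, 842, 832, 826, 834, 838], 1130, 1, [8, 4, 5, 3, 4, 8, 9, 5, 4, 8, 6, 5,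 4, 7, 6, 5, 3, 4, 8, 5, 4, 6, 5, 3, 2, 3, 4, 8, 9, 5, 4, 8, 6, 5, 7, 6, 3, 4, 8, 5, 2, 3, 4, 8, 9, 5, 10, 7, 6, 5, 4, 8, 9, 3, 4, 8, 5, 6, 7, 2, 3, 4, 8, 5, 4, 6, 3]⟩, ⟨1, [570, 582, 568, 560, 598, 570, 578, 566, 590, 576], 1044, 0, [4, 3, 2, 5, 4, 3, 2, 7, 6, 5, 4, 3, 2, 8, 4, 3, 2, 5, 4, 3, 6, 5, 4, 7, 6, 8, 4, 3, 2, 5, 6, 7, 9, 8, 4, 3, 2, 5, 4, 3, 6, 5, 7, 8, 4, 3, 9, 8, 10, 7, 6, 5, 4, 3, 2, 8, 4, 3, 5, 4, 6, 5, 7, 8, 9, 8, 4]⟩, ⟨37, [652, 626], 1076, 1, [8, 9, 4, 8, 5, 4, 6, 5, 4, 8, 9, 3, 4, 8, 9, 5, 4, 6, 5, 7, 6, 2, 3, 4, 8, 9, 5, 4, 8, 6, 5, 4, 7, 3, 4, 8, 9, 5, 4, 6, 5, 7, 10, 7, 6, 5, 4, 8, 9, 3, 4, 8, 5, 4, 3, 2, 3, 4, 8, 9, 5, 4, 6, 7, 3]⟩, ⟨268, [994, 984, 1004, 1008, 1004, 984, 996, 990, 996], 1190, 0, [2, 6, 8, 4, 3, 2, 5,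 4, 3, 6, 5, 4, 7, 6, 8, 4, 3, 2, 5, 4, 3, 6, 5, 4, 8, 9, 8, 4, 3, 2, 5, 4, 3, 6, 5, 7, 6, 8, 4, 3, 5, 4, 6, 8, 9, 8, 4, 3, 2, 5, 4, 3, 8, 10, 7, 6, 5, 4, 3, 2, 8, 4, 3, 5, 4, 6, 5, 7, 8, 4, 9]⟩, ⟨20, [840, 842, 826, 828, 834, 838, 836, 844, 838, 842, 836, 838, 844], 1126, 1, [9, 4, 8, 5, 4, 6, 5, 4, 8, 7, 3, 4, 8, 9, 5, 4, 8, 6, 5, 7, 6, 3, 4, 8, 9, 5, 4, 8, 6, 7, 2, 3, 4, 8, 9, 5, 4, 8, 6, 5, 7, 6, 3, 4, 8, 9, 5, 2, 3, 4, 8, 9, 5, 4, 10, 7, 6, 5, 4, 8, 9, 3, 4, 8, 5, 6, 2, 3, 4, 5]⟩, ⟨6, [792, 798, 806, 808, 804, 802, 800, 802, 808, 804], 1110, 0, [4, 5, 3, 4, 8, 9, 5, 6, 4, 5, 3, 4, 8, 2, 3, 4, 5, 6, 7, 10, 9, 5, 2, 3, 4, 8, 5, 6, 7, 4, 5, 6, 3, 4, 5, 2, 3, 4, 8, 9, 5, 6, 3, 4, 5, 2, 3, 4, 8, 5, 6, 7, 4, 5, 6, 3, 4, 5, 2, 3, 4, 8, 3, 4,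 5, 6, 7, 4, 5, 3, 4, 3, 2]⟩, ⟨15, [494, 498, 502, 494, 492, 496, 490, 500, 502, 494, 498, 504, 506], 1022, 1, [8, 6, 3, 4, 8, 9, 5, 4, 8, 6, 5, 4, 7, 3, 4, 8, 5, 4, 6, 5, 2, 3, 4, 8, 5, 4, 6, 5, 7, 6, 3, 4, 8, 5, 4, 3, 10, 7, 6, 5, 4, 8, 3, 4, 5, 6, 2, 3]⟩], 0, 0, [2, 3, 4, 8, 5, 6, 4, 5, 2, 3, 4, 8, 9, 6, 7, 5, 6, 4, 5, 3, 4, 8, 1, 2, 3, 4, 5, 6, 7, 9, 1, 2, 3, 4, 8, 5, 6, 4, 5, 3, 4, 8, 9, 4, 8, 5, 6, 4, 5, 3, 4, 8, 2, 3, 4, 5, 1, 2, 3, 4, 8, 2, 3, 4, 5, 6, 4, 5, 4, 3, 1]⟩⟩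
def r34_3 : Rep := ⟨23808, [10, 7, 6, 5, 4, 3, 2, 1, 8, 4, 3, 2, 5, 4, 6, 9, 8, 4, 3, 2, 5, 4, 3, 6, 5, 7, 6, 8, 4, 5, 9, 8, 4, 3, 2, 1], 3, 0, ⟨[⟨234, [982, 992, 1000, 1008, 996, 990, 1000], 1190, 0, [3, 2, 4, 3, 2, 5, 4, 3, 6, 5, 4, 3, 8, 4, 3, 2, 5, 4, 3, 6, 5, 7, 6, 9, 8, 4, 3, 2, 5, 4, 3, 6, 5, 7, 8, 4, 3, 9, 8, 4, 5, 6, 7, 10, 7, 6, 5, 4, 3, 2, 8, 4, 3, 5, 4, 6, 5, 7, 6, 9, 8, 4, 3, 2, 5, 4]⟩, ⟨20, [840, 844, 828], 1126, 1, [8, 4, 3, 5, 6, 4, 5, 8, 4, 3, 9, 8, 4, 5, 6, 7, 10, 7, 4, 5, 6, 8, 4, 5, 9, 8, 4, 3, 4, 5, 6, 8, 4, 5, 9, 8, 4, 3, 2, 9, 8, 4, 3, 7, 5, 6, 4, 5, 8, 4, 3, 9, 8, 4, 9, 8, 9]⟩, ⟨6, [806, 804, 808, 800, 804, 808, 794, 796, 804], 1110, 0, [7, 10, 4, 5, 3, 4, 8, 6, 7, 5, 6, 4, 5, 3, 4, 8, 2, 3, 4, 5, 6, 7, 10, 8, 3, 4,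 5, 2, 3, 4, 8, 9, 7, 6, 4, 5, 2, 3, 4, 8, 6, 7, 5, 6, 3, 4, 5, 2, 3, 4, 8, 9, 7, 6, 5, 3, 4, 8, 4, 5, 6, 3, 4, 5, 2, 3, 4, 8, 6, 4, 5, 2, 3, 4, 2]⟩, ⟨15, [504, 502, 494, 492, 500, 502, 494, 498, 490, 500, 502, 494, 492, 496, 490, 500, 502, 494, 498, 504, 506], 1022, 1, [4, 5, 4, 8, 9, 6, 5, 4, 8, 9, 3, 4, 8, 9, 5, 4, 8, 6, 5, 4, 7, 3, 4, 8, 9, 5, 2, 3, 4, 8, 5, 4, 6, 5, 7, 6, 3, 4, 8, 5, 4, 10, 7, 6, 5, 4, 8, 3, 4, 5, 6, 7, 2, 3, 4, 8, 9, 5, 4, 6, 10]⟩, ⟨93, [10, 12, 16, 14, 6, 4, 8, 10, 6, 8, 14, 6, 4, 2, 0], 1010, 0, [3, 2, 5, 6, 5, 7, 8, 4, 3, 2, 5, 4, 3, 6, 5, 4, 7, 6, 5, 8, 4, 3, 2, 5, 9, 8, 4, 3, 2, 5, 4, 6, 5, 7, 6, 8, 4, 3, 5, 4, 8, 9, 8, 4, 3, 5, 4, 8, 10, 7, 6, 5, 4, 3, 2, 8, 4, 3, 5, 4, 6, 5, 7, 6, 8, 4, 3, 5, 4, 8, 10, 7, 6, 5,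 4]⟩, ⟨6, [30, 26, 28, 30, 24, 32, 34, 22, 20, 24, 22, 32, 24, 26, 28, 24, 32, 22, 24, 26, 20, 22, 24, 32, 34, 36], 1016, 1, [8, 4, 5, 4, 6, 5, 4, 8, 7, 6, 5, 4, 8, 3, 4, 8, 9, 5, 4, 8, 6, 5, 4, 7, 6, 5, 3, 4, 8, 9, 5, 4, 8, 6, 5, 4, 7, 6, 5, 3, 4, 8, 2, 3, 4, 8, 5, 4, 6, 5, 7, 6, 3, 4, 8, 9, 5, 4, 8, 3, 4, 5, 10, 7, 6, 5, 4, 8, 9, 3, 4, 8, 5, 4, 6, 5, 7, 6, 3, 4, 8, 9, 5, 4, 8, 10, 7, 6, 5]⟩, ⟨1, [16, 14, 6, 4, 8, 10, 6, 8, 14, 6, 4, 2, 0], 1010, 0, [5, 6, 7, 10, 3, 4, 5, 2, 3, 4, 8, 6, 7, 5, 6, 4, 5, 3, 4, 8, 2, 3, 4, 5, 6, 7, 10, 7, 6, 3, 4, 5, 2, 3, 4, 8, 4, 5, 6, 3, 4, 5, 2, 3, 4, 8, 9, 4, 5, 6, 7, 4, 5, 6, 4, 5, 2, 3, 4, 2, 3]⟩, ⟨37, [32, 36, 26, 24, 30, 28, 26, 24, 32, 34, 22, 24, 32, 26, 28, 30, 24, 26, 28, 22, 24, 26, 20, 22, 24, 32,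 34, 36], 1016, 1, [9, 8, 9, 4, 8, 5, 4, 8, 6, 7, 6, 5, 4, 8, 3, 4, 8, 9, 5, 4, 8, 6, 5, 4, 7, 6, 5, 3, 4, 8, 9, 5, 4, 8, 3, 4, 5, 2, 3, 4, 8, 9, 5, 4, 8, 6, 3, 4, 5, 2, 3, 4, 8, 10, 7, 6, 5, 4, 8, 9, 3, 4, 8, 5, 4, 6, 5, 7, 6, 3, 4, 8, 9, 5, 4, 3, 10]⟩], 0, 0, [2, 5, 4, 3, 8, 4, 3, 2, 1, 5, 4, 3, 2, 6, 5, 4, 3, 8, 4, 9, 8, 4, 3, 2, 1, 5, 4, 3, 2, 6, 5, 4, 3, 8, 4, 3, 2, 1, 5, 4, 9, 8, 4, 5, 6, 7, 6, 5, 4, 3, 2, 1, 8, 4, 3, 2, 5, 4, 3, 6, 5, 8, 9, 8, 4, 3, 2, 5, 4, 6, 5, 7, 6, 8, 4, 5, 9, 8, 4]⟩⟩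
def r34_4 : Rep := ⟨25097, [10, 7, 6, 5, 4, 3, 2, 1, 8, 4, 3, 2, 5, 4, 6, 9, 8, 4, 3, 2, 5, 4, 3, 6, 5, 7, 6, 8, 4, 3, 5, 9, 8, 4, 3, 2, 1], 3, 0, ⟨[⟨236, [986, 1002, 988, 976, 1002, 978, 976, 988, 1000, 992, 996], 1196, 0, [4, 5, 4, 3, 8, 4, 3, 5, 4, 6, 5, 7, 9, 8, 4, 3, 5, 4, 6, 5, 7, 6, 8, 4, 5, 9, 8, 4, 10, 7, 6, 5, 4, 3, 8, 4, 5, 6, 7]⟩, ⟨20, [942, 954, 946, 934, 958, 930, 944, 942, 948], 1176, 1, [8, 4, 5, 4, 8, 9, 6, 3, 4, 8, 9, 5, 4, 8, 6, 5, 4, 3, 2, 3, 4, 8, 5, 6, 10, 7, 6, 5, 4, 8, 9, 3, 4, 8, 5, 4, 6, 5, 7, 6, 3, 4, 8, 5, 4, 10]⟩, ⟨6, [568, 582, 568, 574, 584, 592, 584, 574, 570], 1058, 0, [10, 5, 6, 4, 5, 3, 4, 8, 9, 8, 7, 6, 4, 5, 3, 4, 8, 2, 3, 4, 5, 6, 7, 10, 3, 4, 8, 9, 5, 4, 8, 6, 3, 4, 5, 2, 3, 4, 8, 9, 7, 6, 5, 4, 8, 3,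 4, 5, 2, 3, 4, 8, 5, 6, 7, 4, 5, 6, 3, 4, 5, 2, 3, 4, 8, 6, 7, 2, 3, 4, 5, 2, 3, 2]⟩, ⟨15, [948, 938, 934, 948, 926, 956, 930], 1176, 1, [10, 3, 7, 6, 4, 5, 8, 4, 3, 2, 3, 4, 5, 8, 4, 3, 9, 8, 4, 5, 6, 7, 10, 3, 2, 7, 6, 4, 5, 8, 4, 3, 6, 7, 4, 5, 6, 8, 4, 5, 9, 8, 4, 3, 2, 6, 4, 5, 8, 4, 3, 5, 6, 4, 5, 9, 8, 4, 9, 8]⟩, ⟨93, [582, 556, 582, 570, 576, 564, 560], 1056, 0, [2, 3, 2, 4, 6, 7, 8, 4, 3, 9, 8, 4, 3, 2, 5, 4, 3, 6, 5, 4, 7, 6, 5, 8, 4, 3, 5, 4, 6, 9, 8, 4, 3, 2, 5, 4, 3, 6, 5, 8, 10, 7, 6, 5, 4, 3, 2, 8, 4, 3, 9, 8, 4]⟩, ⟨6, [906, 910, 896, 898, 892, 904, 902, 906, 910, 908, 910, 898, 906, 902, 898, 906], 1160, 1, [8, 4, 3, 6, 7, 5, 6, 4, 5, 8, 4, 3, 9, 8, 4, 5, 6, 7, 10, 3, 2, 7, 6, 4, 5, 8, 4, 3, 7, 4, 5, 6, 8, 4, 5, 9, 8, 4, 3,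 2, 6, 7, 5, 6, 4, 5, 8, 4, 3, 6, 7, 6, 9]⟩, ⟨1, [562, 578, 558, 568, 576, 584, 556, 592, 584, 574, 570], 1058, 0, [3, 4, 3, 5, 4, 3, 7, 6, 5, 4, 8, 4, 3, 2, 5, 4, 3, 6, 5, 8, 4, 9, 8, 4, 3, 2, 5, 4, 3, 6, 5, 7, 8, 4, 3, 5, 10, 7, 6, 5, 4, 3, 2, 8, 4, 3, 5, 4, 8, 9, 8, 4, 3, 2, 5, 4, 3, 6, 5, 4, 7]⟩, ⟨37, [], 1186, 1, [7, 6, 5, 8, 4, 3, 2, 7, 6, 5, 8, 4, 3, 9, 8, 4, 5, 6, 7, 10, 5, 9, 8, 4, 3, 2, 3, 4, 5, 8, 4, 3, 6, 7, 4, 5, 6, 8, 4, 5, 9, 8, 4, 3, 2, 7, 6, 8, 4, 5, 9, 8, 4, 3, 7, 6, 9, 8, 4, 8]⟩], 27, 0, [4, 8, 9, 3, 4, 8, 6, 7, 5, 6, 3, 4, 5, 2, 3, 4, 8, 9, 8, 7, 6, 4, 5, 2, 3, 4, 8, 1, 2, 3, 4, 5, 6, 7, 4, 8, 9, 3, 4, 8, 5, 6, 4, 5, 1, 2, 3, 4, 8, 9, 8, 4, 5, 2, 3, 4, 8, 3, 4, 5, 6, 2, 3, 4, 5, 1, 2, 3, 4, 8, 1, 2, 3, 4, 5, 6, 5, 4, 3]⟩⟩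
def r34 : List Rep := [r34_0, r34_1, r34_2, r34_3, r34_4]
theorem k34 : allA r34 (rpOK 34 BmD1.ws 27) = true := by decide +kernel
theorem b34 : Nat.beq (bfs Fi23M.nets BmD1.ws [0, 5, 3, 6, 10, 12, 11, 9, 5, 2, 10, 6, 9, 2, 13, 17, 4, 12, 2, 6, 10, 13, 6, 10, 16, 4, 9, 6, 10, 11, 7, 2, 9, 16, 4, 3, 16, 3] (rpM r34)) (Nat.pred (Nat.pow 2 31671)) = true := by decide +kernel
theorem n34 : neOK 27 [10, 7, 6, 5, 4, 3, 2, 1, 8] r34_3 0 = true := by decide +kernel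

theorem run23 {w : List ℕ} (hw : ∀ x ∈ w, x ∈ gA) {j : ℕ} (hj : j < 31671) :
    run Tb23.tb w j = Fi23P.M.φ (wv Fi23P.el w)⁻¹ j := by
  rw [tab23.run_eq w hw j hj]
  congr 3
  exact (tab23.wv hw)

theorem lt23 (d : Spor.Fi23) : Fi23P.M.φ d 0 < 31671 := perm_lt (tab23.hfix d) (by decide)

theorem orb_ind {ws : List (List ℕ)} {l : List Rep} {sc : List ℕ}
    (hb : Nat.beq (bfs Fi23M.nets ws sc (rpM l)) (Nat.pred (Nat.pow 2 31671)) = true) (P : ℕ → Prop)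
    (h1 : ∀ w ∈ ws, ∀ j, P (Fi23P.M.φ (wv Fi23P.el w) j) → P j) (h2 : ∀ r ∈ l, P r.p) :
    ∀ j < 31671, P j := by
  intro j hj
  refine bfs_sound Fi23M.netsOK {j | P j} (ws := ws) (fun w hw j h => h1 w hw j ?_) sc (rpM l)
    (fun j hj => ?_) j ?_
  · rw [← BmC.e1, Fi23P.M.φ_wv, BmC.n1]; exact h
  · obtain ⟨_, hp, rfl⟩ := linkM_spec hj
    obtain ⟨r, hr, rfl⟩ := List.mem_map.1 hp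
    exact h2 r hr
  · have : Nat.pred (Nat.pow 2 31671) = 2 ^ 31671 - 1 := rfl
    rw [Nat.eq_of_beq_eq_true hb, this, Nat.testBit_two_pow_sub_one, decide_eq_true hj]

section
variable {G : Type*} [Group G]

theorem pw2 {x t : G} (hx : x * x = 1) (h : t⁻¹ * x * t = x) (ht : t * t = 1) : (x * t) ^ 2 = 1 := by
  rw [inv_eq_of_mul_eq_one_right ht] at h
  calc (x * t) ^ 2 = x * (t * x * t) := by simp only [pow_succ, pow_zero, one_mul, mul_assoc]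
    _ = 1 := by rw [h, hx]

theorem pw3 {x t : G} (hx : x * x = 1) (h : (t * x)⁻¹ * x * (t * x) = t) (ht : t * t = 1) :
    (x * t) ^ 3 = 1 := by
  rw [mul_inv_rev, inv_eq_of_mul_eq_one_right ht, inv_eq_of_mul_eq_one_right hx] at h
  calc (x * t) ^ 3 = (x * t * x * (t * x)) * t := by
        simp only [pow_succ, pow_zero, one_mul, mul_assoc]
    _ = 1 := by rw [h, ht]

theorem pw4 {x t : G} (hx : x * x = 1) (h : (t * x * t)⁻¹ * x * (t * x * t) = x) (ht : t * t = 1) :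
    (x * t) ^ 4 = 1 := by
  rw [mul_inv_rev, mul_inv_rev, inv_eq_of_mul_eq_one_right ht, inv_eq_of_mul_eq_one_right hx] at h
  calc (x * t) ^ 4 = x * (t * (x * t) * x * (t * x * t)) := by
        simp only [pow_succ, pow_zero, one_mul, mul_assoc]
    _ = 1 := by rw [h, hx]

theorem index_cent (a : G) :
    (Subgroup.centralizer {a}).index = Nat.card (conjugatesOf a) := by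
  have h : Subgroup.centralizer {a} = (MulAction.stabilizer (ConjAct G) (a : G)).comap
      (ConjAct.toConjAct (G := G)).toMonoidHom := Subgroup.ext fun x =>
    Subgroup.mem_centralizer_singleton_iff.trans mul_inv_eq_iff_eq_mul.symm
  rw [h, Subgroup.index_comap_of_surjective _ ConjAct.toConjAct.surjective,
    MulAction.index_stabilizer]
  exact congrArg _ (Set.ext fun x => ConjAct.mem_orbit_conjAct.trans isConj_comm)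

variable (e : ℕ → G)

/-- the conjugate of the involution by `g` -/
noncomputable def cj (g : G) : G := g⁻¹ * wv e fw * g

variable {e}

theorem cj_mul (a b : G) : cj e (a * b) = b⁻¹ * cj e a * b := by simp [cj, mul_assoc]

theorem cj_one : cj e 1 = wv e fw := by simp [cj]

variable (Q : RuleOK e rels0 iv)

include Q

theorem cj_sq (g : G) : cj e g * cj e g = 1 := by
  have := f_sq Q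
  calc cj e g * cj e g = g⁻¹ * (wv e fw * wv e fw) * g := by simp [cj, mul_assoc]
    _ = 1 := by rw [this]; simp

theorem H_le : clL e BmE.ga ≤ Subgroup.centralizer {wv e fw} :=
  clL_le fun x hx => Subgroup.mem_centralizer_singleton_iff.2 (f_comm Q x hx)

theorem cj_H {h : G} (hh : h ∈ clL e BmE.ga) : h⁻¹ * wv e fw * h = wv e fw := by
  rw [mul_assoc, ← Subgroup.mem_centralizer_singleton_iff.1 (H_le Q hh), inv_mul_cancel_left]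

theorem cj_rc {a b : G} (h : Rc (clL e BmE.ga) a b) : cj e a = cj e b := by
  have := cj_mul (e := e) (a * b⁻¹) b
  rw [inv_mul_cancel_right] at this
  rw [this, cj, cj_H Q h, cj]

theorem wv_inv {v : List ℕ} (h : ∀ x ∈ v, x < 64) : wv e (invw iv v) = (wv e v)⁻¹ :=
  prod_invw Q.hinv v h

theorem wv_tw {v : List ℕ} (h : ∀ x ∈ v, x < 64) : wv e (tw v) = cj e (wv e v) := by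
  rw [tw, wv_append, wv_append, wv_inv Q h, cj]

theorem tr_sound {j0 : ℕ} {w : List ℕ} {t : Tr} (h : trOK j0 w t = true) :
    Rc (clL e BmE.ga) (lab e LW j0 * wv e w) (lab e LW t.j * wv e t.b) := by
  have he := selE_sound (l := [eqA, eqB]) (forall_cons (tabA Q).sound (forall_cons (tabB Q).sound
      (forall_nil' _)))
  obtain ⟨j, w', h1, h2⟩ := runS_sound Q.hinv (BmU.facts Q) he _ _ _ _ h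
  rw [band_iff, Nat.beq_eq] at h1
  rw [he _ _ _ h1.2, h1.1, show wv e [] = 1 from rfl, mul_one] at h2
  exact h2

theorem psi {w : List ℕ} (h : ∀ x ∈ w, x ∈ gA) : hom Q rlA (wv Fi23P.el w) = wv e w :=
  (congrArg (hom Q rlA) (tab23.wv h).symm).trans ((tabA Q).wv h)

theorem psi_St {d : Spor.Fi23} (h : d ∈ Fi23P.M.St 0) : hom Q rlA d ∈ clL e BmE.ga := by
  rw [← Fi23P.index_H.2] at h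
  refine (show Fi23P.H ≤ (clL e BmE.ga).comap (hom Q rlA) from clL_le fun x hx => ?_) h
  rw [Subgroup.mem_comap, hom_el Q rlA rfl]
  exact el_mem_closure e _ _ (by revert x; decide)

theorem cj_pt {a b : Spor.Fi23} (h : Fi23P.M.φ a⁻¹ 0 = Fi23P.M.φ b⁻¹ 0) :
    cj e (hom Q rlA a) = cj e (hom Q rlA b) := by
  refine cj_rc Q ?_
  rw [Rc, ← map_inv, ← map_mul]
  refine psi_St Q (Fi23P.M.mem_St.2 ?_)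
  rw [map_mul, Equiv.Perm.mul_apply, ← h, map_inv, pself_inv]

theorem rp_pow (hz : cj e (lab e LW 27) = wv e fw) {j p0 : ℕ} {ws : List (List ℕ)} {r : Rep}
    (h : rpOK j ws p0 r = true) : (cj e (lab e LW j) * cj e (wv e r.v)) ^ kk r.k = 1 := by
  simp only [rpOK, band_iff, List.contains_iff_mem] at h
  obtain ⟨h1, h2, h3, h4, -, -, h5, -⟩ := h
  have hv : ∀ x ∈ r.v, x < 64 := fun x hx =>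
    (show ∀ x ∈ gA, x < 64 by decide) x (allM_mem h4 x hx)
  have hU := allM_lt h5
  have a1 : cj e (lab e LW r.t.j) = wv e fw := by
    simp only [List.mem_cons, List.not_mem_nil, or_false] at h3
    rcases h3 with h | h | h <;> rw [h]
    exacts [cj_one, cj_one, hz]
  have a2 := cj_rc Q (tr_sound Q h1)
  rw [cj_mul (lab e LW r.t.j), a1, cj_H Q (wv_mem fun x hx =>
    el_mem_closure e _ x (allM_mem h2 x hx))] at a2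
  have a3 : ∀ y g, cj e (lab e LW j * (y * g⁻¹)) = wv e fw →
      y⁻¹ * cj e (lab e LW j) * y = cj e g := fun y g h => by
    rw [← cj_mul, show lab e LW j * y = lab e LW j * (y * g⁻¹) * g by
      rw [mul_assoc, inv_mul_cancel_right], cj_mul, h, cj]
  unfold wd at a2
  unfold kk
  split_ifs at a2 ⊢ with c2 c3
  · rw [wv_append, wv_tw Q hv, wv_inv Q hU] at a2
    exact pw2 (cj_sq Q _) (a3 _ _ a2) (cj_sq Q _)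
  · rw [wv_append, wv_append, wv_tw Q hv, wv_tw Q hU, wv_inv Q hv] at a2
    exact pw3 (cj_sq Q _) (a3 _ _ a2) (cj_sq Q _)
  · rw [wv_append, wv_append, wv_append, wv_tw Q hv, wv_tw Q hU, wv_inv Q hU] at a2
    exact pw4 (cj_sq Q _) (a3 _ _ a2) (cj_sq Q _)

/-- all products with the transpositions of `Fi23` have order at most four -/
def Good (x : G) : Prop := ∀ d, orderOf (x * cj e (hom Q rlA d)) ≤ 4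

/-- not a transposition of `Fi23` -/
def Far (x : G) : Prop := ∀ d, x ≠ cj e (hom Q rlA d)

theorem Good.conj {x : G} (h : Good Q x) (a : Spor.Fi23) :
    Good Q ((hom Q rlA a)⁻¹ * x * hom Q rlA a) := fun d => by
  have := h (d * a⁻¹)
  rw [map_mul, map_inv, cj_mul, inv_inv] at this
  rw [← orderOf_injective (MulAut.conj (hom Q rlA a)).toMonoidHom (MulAut.conj _).injective]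
  simpa [mul_assoc] using this

theorem Far.conj {x : G} (h : Far Q x) (a : Spor.Fi23) :
    Far Q ((hom Q rlA a)⁻¹ * x * hom Q rlA a) := fun d c => by
  refine h (d * a⁻¹) ?_
  rw [map_mul, map_inv, cj_mul, ← c]
  simp [mul_assoc]

theorem good_of (hz : cj e (lab e LW 27) = wv e fw) {j p0 : ℕ} {ws : List (List ℕ)} {l : List Rep}
    {sc : List ℕ}
    (hs : ∀ d ∈ clW Fi23P.el ws, Rc (clL e BmE.ga) (lab e LW j * hom Q rlA d) (lab e LW j))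
    (hl : allA l (rpOK j ws p0) = true)
    (hb : Nat.beq (bfs Fi23M.nets ws sc (rpM l)) (Nat.pred (Nat.pow 2 31671)) = true) :
    Good Q (cj e (lab e LW j)) := fun d => by
  refine orb_ind hb (fun p => ∀ d, Fi23P.M.φ d⁻¹ 0 = p →
    orderOf (cj e (lab e LW j) * cj e (hom Q rlA d)) ≤ 4) (fun w hw p h d hd => ?_)
    (fun r hr d hd => ?_) _ (lt23 _) d rfl
  · have a1 := h (d * (wv Fi23P.el w)⁻¹) (by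
      rw [mul_inv_rev, inv_inv, map_mul, Equiv.Perm.mul_apply, hd])
    have a2 := cj_rc Q (hs _ (Subgroup.inv_mem _ (wv_mem_clW _ hw)))
    rw [map_mul, cj_mul, ← a2, cj_mul] at a1
    rw [← orderOf_injective (MulAut.conj (hom Q rlA (wv Fi23P.el w)⁻¹)⁻¹).toMonoidHom
      (MulAut.conj _).injective]
    simpa [mul_assoc] using a1
  · have a1 := allA_spec hl r hr
    have a2 := rp_pow Q hz a1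
    simp only [rpOK, band_iff, Nat.beq_eq] at a1
    obtain ⟨-, -, -, h4, h5, -⟩ := a1
    rw [run23 (allM_mem h4) (by decide)] at h5
    rw [cj_pt Q (hd.trans h5.symm), psi Q (allM_mem h4)]
    refine (orderOf_le_of_pow_eq_one ?_ a2).trans ?_ <;> unfold kk <;> split_ifs <;> omega

theorem nc (hi : Function.Injective (hom Q rlA)) : e 10 * wv e fw ≠ wv e fw * e 10 := fun h => by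
  have a1 : wv Fi23P.el ([10] ++ fw) = wv Fi23P.el (fw ++ [10]) := hi (by
    rw [psi Q (by decide), psi Q (by decide), wv_append, wv_append]
    simpa [wv] using h)
  have a2 := knc
  rw [run23 (by decide) (by decide), run23 (by decide) (by decide), a1] at a2
  simp at a2

theorem cent0 (hi : Function.Injective (hom Q rlA)) {d : Spor.Fi23}
    (h : cj e (hom Q rlA d) = wv e fw) : d ∈ Fi23P.M.St 0 := by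
  have a1 : Fi23P.M.St 0 ≤ (Subgroup.centralizer {wv e fw}).comap (hom Q rlA) :=
    fun x hx => H_le Q (psi_St Q hx)
  rcases Fi23P.coatom.le_iff.1 a1 with c | c
  · have : Fi23P.el 10 ∈ (Subgroup.centralizer {wv e fw}).comap (hom Q rlA) := c ▸ trivial
    rw [Subgroup.mem_comap, hom_el Q rlA rfl, Subgroup.mem_centralizer_singleton_iff] at this
    exact absurd this (nc Q hi)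
  · rw [← c, Subgroup.mem_comap, Subgroup.mem_centralizer_singleton_iff]
    rw [cj, mul_assoc, inv_mul_eq_iff_eq_mul] at h
    exact h.symm

theorem far_of (hi : Function.Injective (hom Q rlA)) (hz : cj e (lab e LW 27) = wv e fw) {j p0 b : ℕ}
    {ws : List (List ℕ)} {l : List Rep} {sc v : List ℕ} {r : Rep}
    (hs : ∀ d ∈ clW Fi23P.el ws, Rc (clL e BmE.ga) (lab e LW j * hom Q rlA d) (lab e LW j))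
    (hl : allA l (rpOK j ws p0) = true)
    (hb : Nat.beq (bfs Fi23M.nets ws sc (rpM l)) (Nat.pred (Nat.pow 2 31671)) = true)
    (hr : r ∈ l) (hn : neOK p0 v r b = true) : Far Q (cj e (lab e LW j)) := fun d c => by
  have a1 : ∀ s ∈ clW Fi23P.el ws, Fi23P.M.φ s (Fi23P.M.φ d⁻¹ 0) = Fi23P.M.φ d⁻¹ 0 := fun s h => by
    have b1 := cj_rc Q (hs s h)
    rw [cj_mul, c, ← cj_mul, ← map_mul] at b1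
    have b2 := Fi23P.M.mem_St.1 (cent0 Q hi (d := d * s * d⁻¹) (by
      rw [map_mul, cj_mul, b1, ← cj_mul, ← map_mul, mul_inv_cancel, map_one, cj_one]))
    rw [map_mul, map_mul, Equiv.Perm.mul_apply, Equiv.Perm.mul_apply] at b2
    rw [map_inv Fi23P.M.φ d] at b2 ⊢
    exact Equiv.Perm.eq_inv_iff_eq.2 b2
  have a2 := orb_ind hb (fun p => (∀ s ∈ clW Fi23P.el ws, Fi23P.M.φ s p = p) → p < 31671 → p = p0)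
    (fun w hw p h h1 h2 => by
      rw [h1 _ (wv_mem_clW _ hw)] at h
      exact h h1 h2) (fun r hr h1 h2 => by
      have b1 := allA_spec hl r hr
      simp only [rpOK, band_iff, Bool.or_eq_true, Nat.beq_eq] at b1
      obtain ⟨-, -, -, -, -, b2, -, b3 | b3⟩ := b1
      · exact b3
      · rw [run23 (allM_mem b2) h2, h1 _ (Subgroup.inv_mem _ (wv_getW_mem _ _ _))] at b3
        simp at b3) _ (lt23 _) a1 (lt23 _)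
  have a3 := allA_spec hl r hr
  have a4 := rp_pow Q hz a3
  simp only [rpOK, band_iff] at a3
  simp only [neOK, band_iff, Nat.beq_eq, Nat.blt_eq] at hn
  obtain ⟨h1, h2, h3, h4, h5, h6⟩ := hn
  have lt : ∀ {w : List ℕ}, allM (mskL gA) w = true → ∀ x ∈ w, x < 64 := fun h x hx =>
    (show ∀ x ∈ gA, x < 64 by decide) x (allM_mem h x hx)
  rw [run23 (allM_mem h1) (by decide)] at h2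
  rw [c, cj_pt Q (a2.trans h2.symm), psi Q (allM_mem h1), h3, ← wv_tw Q (lt h1),
    ← wv_tw Q (lt a3.2.2.2.1), ← wv_append, ← psi Q (allM_mem h5), ← map_pow,
    map_eq_one_iff _ hi] at a4
  have h7 := allM_mem h5
  rw [run23 (by simp only [List.forall_mem_append] at h7 ⊢; tauto) h4, wv_append _ (_ ++ _),
    wv_append _ (_ ++ _), ← pow_two, ← pow_succ, show 2 + 1 = kk 3 from rfl, a4] at h6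
  simp at h6

theorem partner (hz : cj e (lab e LW 27) = wv e fw) {a b : ℕ} {t : Tr}
    (h : band (trOK 27 (getW LW a) t) (band (Nat.beq t.j b) (allM (mskL gA) t.b)) = true) :
    ∃ d, cj e (lab e LW b) = (hom Q rlA d)⁻¹ * cj e (lab e LW a) * hom Q rlA d := by
  simp only [band_iff, Nat.beq_eq] at h
  have a1 := cj_rc Q (tr_sound Q h.1)
  rw [cj_mul, hz, h.2.1, cj_mul, ← psi Q (allM_mem h.2.2)] at a1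
  refine ⟨(wv Fi23P.el t.b)⁻¹, ?_⟩
  rw [show cj e (lab e LW a) = _ from a1]
  simp [mul_assoc]

variable (hg : clL e BmU.gg = ⊤)

include hg

theorem inj [Nontrivial G] : Function.Injective (hom Q rlA) := by
  have := Fi23P.simple
  rcases (MonoidHom.normal_ker (hom Q rlA)).eq_bot_or_eq_top with h | h
  · exact (MonoidHom.ker_eq_bot_iff _).1 h
  · have a1 : ∀ x ∈ gA, e x = 1 := fun x hx => by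
      rw [← (tabA Q).hψ x hx]; exact MonoidHom.mem_ker.1 (h ▸ trivial)
    have a2 : e 11 = 1 := by
      have b1 : wv e [9, 11, 9, 11, 9, 11] = 1 := Q.hrel _ (by decide)
      have b2 : e 11 = (e 11)⁻¹ := by
        have := Q.hinv 11 (by decide)
        rwa [show ivf iv 11 = 11 by decide +kernel] at this
      simp only [wv, List.map_cons, List.prod_cons, List.map_nil, List.prod_nil,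
        a1 9 (by decide), one_mul, mul_one] at b1
      rw [← b1, ← mul_assoc, mul_eq_one_iff_eq_inv.2 b2, one_mul]
    refine absurd (eq_bot_iff.2 (hg ▸ clL_le fun x hx => ?_)) (bot_ne_top (α := Subgroup G)).symm
    rcases (show x ∈ gA ∨ x = 11 by revert x; decide) with h | h
    · exact a1 x h
    · exact h ▸ a2

theorem z_central : cj e (lab e LW 27) * wv e fw ∈ Subgroup.center G := by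
  have hs : ∀ w : List ℕ, (∀ x ∈ w, x ∈ g9) →
      Rc (clL e BmE.ga) (lab e LW 27 * wv e w) (lab e LW 27) := fun w hw => by
    rw [← psi Q fun x hx => (show ∀ x ∈ g9, x ∈ gA by decide) x (hw x hx)]
    exact (BmU.dcs Q hg).stab 4 _ (Fi23P.H_clW ▸ wv_mem fun x hx =>
      el_mem_closure _ _ x (hw x hx) : _ ∈ clW Fi23P.el BmD0.ws)
  have a1 : ∀ x ∈ BmE.ga, Rc (clL e BmE.ga) (lab e LW 27 * e x) (lab e LW 27) := fun x hx => by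
    rcases (show x ∈ g9 ∨ x = 11 by revert x; decide) with h | rfl
    · simpa [wv] using hs [x] (by simpa using h)
    · have b1 := kz1
      simp only [band_iff, Nat.beq_eq] at b1
      have b2 := tr_sound Q b1.1
      rw [b1.2.1] at b2
      simpa [wv] using b2.trans (hs _ (allM_mem b1.2.2))
  have : clL e BmU.gg ≤ Subgroup.centralizer {cj e (lab e LW 27) * wv e fw} := clL_le fun x hx => by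
    rw [Subgroup.mem_centralizer_singleton_iff]
    rcases (show x ∈ BmE.ga ∨ x = 10 by revert x; decide) with h | rfl
    · have b1 := cj_rc Q (a1 x h)
      rw [cj_mul, mul_assoc, inv_mul_eq_iff_eq_mul] at b1
      rw [mul_assoc, ← f_comm Q x h, ← mul_assoc, ← b1, mul_assoc]
    · have b1 := kz2
      simp only [band_iff, Nat.beq_eq] at b1
      have b2 := cj_rc Q (tr_sound Q b1.1)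
      have hv : ∀ x ∈ v10, x < 64 := by decide
      have b3 : cj e (wv e v10) = e 10 := by
        rw [← wv_tw Q hv, (tabA Q).sound _ _ kv10]; simp [wv]
      rw [b1.2.1, show lab e LW 0 = 1 from rfl, one_mul, one_mul, cj, cj, cj_H Q (wv_mem fun x hx =>
        el_mem_closure e _ x (allM_mem b1.2.2 x hx)), wv_append, wv_append, wv_append,
        wv_tw Q (by decide +kernel), wv_inv Q hv] at b2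
      rw [← b3, cj.eq_1 e (wv e v10), show lab e LW 27 = wv e (getW LW 27) from rfl]
      generalize cj e (wv e (getW LW 27)) * wv e fw = y at b2
      conv_rhs => rw [← b2]
      simp [mul_assoc]
  exact Subgroup.mem_center_iff.2 fun g =>
    Subgroup.mem_centralizer_singleton_iff.1 (this (hg ▸ trivial))

theorem hz_of [IsSimpleGroup G] : cj e (lab e LW 27) = wv e fw := by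
  rcases (inferInstance : (Subgroup.center G).Normal).eq_bot_or_eq_top with h | h
  · have := z_central Q hg
    rw [h, Subgroup.mem_bot, mul_eq_one_iff_eq_inv] at this
    rw [this, inv_eq_of_mul_eq_one_right (f_sq Q)]
  · exact absurd (Subgroup.mem_center_iff.1 (h ▸ trivial : wv e fw ∈ Subgroup.center G) _)
      (nc Q (inj Q hg))

theorem good (hz : cj e (lab e LW 27) = wv e fw) (g : G) : Good Q (cj e g) := by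
  obtain ⟨i, d, h⟩ := (BmU.dcs Q hg).cover g
  rw [cj_rc Q h, cj_mul]
  refine Good.conj Q ?_ d
  have C := (BmU.dcs Q hg).stab
  have g0 := good_of Q hz (C 0) k0 b0
  have g1 := good_of Q hz (C 1) k22 b22
  have g5 := good_of Q hz (C 5) k29 b29
  obtain ⟨d1, e1⟩ := partner Q hz kp22
  obtain ⟨d5, e5⟩ := partner Q hz kp29
  fin_cases i
  exacts [g0, g1, good_of Q hz (C 2) k23 b23, e1 ▸ g1.conj Q d1, (hz.trans cj_one.symm) ▸ g0, g5,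
    e5 ▸ g5.conj Q d5, good_of Q hz (C 7) k34 b34]

theorem cent [Nontrivial G] (hz : cj e (lab e LW 27) = wv e fw) {g : G} (h : cj e g = wv e fw) :
    g ∈ clL e BmE.ga ∨ g * (lab e LW 27)⁻¹ ∈ clL e BmE.ga := by
  have hi := inj Q hg
  obtain ⟨i, d, h1⟩ := (BmU.dcs Q hg).cover g
  have C := (BmU.dcs Q hg).stab
  have a1 : cj e (lab e LW (BmU.La.getD i 0)) = cj e (hom Q rlA d⁻¹) := by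
    rw [cj_rc Q h1, cj_mul] at h
    rw [cj.eq_1 e (hom Q rlA d⁻¹), ← h]; simp [mul_assoc]
  have a2 : cj e (lab e LW (BmU.La.getD i 0)) = wv e fw → d ∈ BmU.S 0 := fun c => by
    have := Subgroup.inv_mem _ (cent0 Q hi (a1.symm.trans c))
    rwa [inv_inv, ← Fi23P.index_H.2, Fi23P.H_clW] at this
  have f1 := far_of Q hi hz (C 1) k22 b22 (by simp [r22]) n22
  have f5 := far_of Q hi hz (C 5) k29 b29 (by simp [r29]) n29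
  obtain ⟨d1, e1⟩ := partner Q hz kp22
  obtain ⟨d5, e5⟩ := partner Q hz kp29
  fin_cases i
  exacts [Or.inl (by simpa [Rc, lab, BmU.La, LW, getW_eq, wv] using h1.trans (C 0 d (a2 cj_one))),
    absurd a1 (f1 _), absurd a1 (far_of Q hi hz (C 2) k23 b23 (by simp [r23]) n23 _),
    absurd (e1.symm.trans a1) (f1.conj Q d1 _), Or.inr (h1.trans (C 4 d (a2 hz))), absurd a1 (f5 _),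
    absurd (e5.symm.trans a1) (f5.conj Q d5 _),
    absurd a1 (far_of Q hi hz (C 7) k34 b34 (by simp [r34]) n34 _)]

theorem index_H (hG : Nat.card G = 4154781481226426191177580544000000) :
    (clL e BmE.ga).index = 27143910000 := by
  have h1 := (clL e BmE.ga).index_mul_card
  have h2 := (card_H Q).2
  have h3 := (BmU.index_le Q hg).2
  rw [hG] at h1
  by_contra hc
  have h4 : (clL e BmE.ga).index * Nat.card (clL e BmE.ga) ≤ 27143909999 * 153064959367549707878400 :=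
    Nat.mul_le_mul (by omega) h2
  rw [h1] at h4
  norm_num at h4

theorem u_notMem (hG : Nat.card G = 4154781481226426191177580544000000) :
    lab e LW 27 ∉ clL e BmE.ga := fun h => by
  have C := BmU.dcs Q hg
  have := (C.exact BmU.hn ((index_H Q hg hG).trans BmU.sum_n.symm)).2
    (a₁ := ⟨0, ((1 : Spor.Fi23) : _ ⧸ _)⟩) (a₂ := ⟨4, ((1 : Spor.Fi23) : _ ⧸ _)⟩) (by
      rw [DCS.toQ_mk, DCS.toQ_mk, QuotientGroup.eq, map_one, one_mul, one_mul]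
      exact (clL e BmE.ga).mul_mem (Subgroup.inv_mem _ (Subgroup.inv_mem _ (Subgroup.one_mem _)))
        (Subgroup.inv_mem _ h))
  exact absurd (congrArg Sigma.fst this) (by decide)

theorem index_C (hG : IsB G) : (Subgroup.centralizer {wv e fw}).index = 13571955000 := by
  have := hG.1
  have hz := hz_of Q hg
  have hu := u_notMem Q hg hG.2
  have hc : ∀ g, g ∈ Subgroup.centralizer {wv e fw} ↔ cj e g = wv e fw := fun g => by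
    rw [Subgroup.mem_centralizer_singleton_iff, cj, mul_assoc, inv_mul_eq_iff_eq_mul, eq_comm]
  have h1 : (clL e BmE.ga).relIndex (Subgroup.centralizer {wv e fw}) = 2 :=
    Subgroup.relIndex_eq_two_iff.2 ⟨_, Subgroup.inv_mem _ ((hc _).2 hz), fun b hb => by
      have n : b * (lab e LW 27)⁻¹ ∈ clL e BmE.ga → b ∉ clL e BmE.ga := fun h1 h2 =>
        hu (by simpa using Subgroup.mul_mem _ (Subgroup.inv_mem _ h1) h2)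
      rcases cent Q hg hz ((hc b).1 hb) with h | h
      exacts [Or.inr ⟨h, fun c => n c h⟩, Or.inl ⟨h, n h⟩]⟩
  have h2 := Subgroup.relIndex_mul_index (H_le Q)
  rw [h1, index_H Q hg hG.2] at h2
  omega

theorem main (hG : IsB G) : ∃ D : Set G, (∃ d ∈ D, D = conjugatesOf d) ∧ Nat.card D = 13571955000 ∧
    (∀ d ∈ D, orderOf d = 2) ∧ (∀ d ∈ D, ∀ x ∈ D, orderOf (d * x) ≤ 4) ∧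
    ∀ d ∈ D, Nat.card (Subgroup.centralizer ({d} : Set G)) = 306129918735099415756800 := by
  have := hG.1
  have h1 : Nat.card (conjugatesOf (wv e fw)) = 13571955000 := by rw [← index_cent, index_C Q hg hG]
  have h2 : ∀ d ∈ conjugatesOf (wv e fw), ∃ g, d = cj e g := fun d hd => by
    obtain ⟨c, rfl⟩ := isConj_iff.1 hd
    exact ⟨c⁻¹, by simp [cj]⟩
  refine ⟨_, ⟨wv e fw, IsConj.refl _, rfl⟩, h1, fun d hd => ?_, fun d hd x hx => ?_, fun d hd => ?_⟩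
  · obtain ⟨g, rfl⟩ := h2 d hd
    refine orderOf_eq_prime (by rw [pow_two, cj_sq Q]) fun c => nc Q (inj Q hg) ?_
    rw [cj, mul_assoc, inv_mul_eq_one, eq_comm, mul_eq_right] at c
    rw [c, mul_one, one_mul]
  · obtain ⟨g, rfl⟩ := h2 d hd
    obtain ⟨k, rfl⟩ := h2 x hx
    have := good Q hg (hz_of Q hg) (g * k⁻¹) 1
    rw [map_one, cj_mul, cj_one] at this
    rw [← orderOf_injective (MulAut.conj k).toMonoidHom (MulAut.conj _).injective]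
    simpa [mul_assoc, cj] using this
  · have h3 := (Subgroup.centralizer ({d} : Set G)).index_mul_card
    rw [index_cent, ← isConj_iff_conjugatesOf_eq.1 hd, h1, hG.2] at h3
    omega

end

end Cfsg.Agent.H17.BmX
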