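import Cfsg.Agent.H16.Gen4
import Cfsg.Agent.H81.SubCount
import Cfsg.Agent.H89.Real

/-! Further constraints for the searches in principal blocks of defect one. -/

set_option autoImplicit false
set_option linter.unusedSectionVars false

namespace Cfsg.Agent.H17.J3

open Cfsg Subgroup H35 H14 H16
open scoped ComplexConjugate

variable {G : Type*} [Group G] [Finite G] {p : ℕ} [hp : Fact p.Prime]

/-- possible orders of the centraliser of an element of `V` -/
noncomputable def centOK2 (p v e c k : ℕ) : Bool :=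
  anyL (List.range v) fun i => decide (v * e % i = 0 ∧ c % (p * (v * e / i)) = 0 ∧
    c / (p * (v * e / i)) % p = 1 ∧ v * e / i % k = 0)

theorem centOK2_of (S : Setup G p) {w : S.V} (hw : w ≠ 1) {k : ℕ}
    (hk : k ∣ Nat.card (centralizer ({(w : S.K)} : Set S.K))) :
    centOK2 p (Nat.card S.V) S.V.index
      (Nat.card (centralizer ({((w : S.K) : G)} : Set G))) k = true := by
  obtain ⟨m, hm, h1⟩ := cent_V S w
  have h2 := index_cent_lt S hw
  have h3 := card_mul_index (centralizer ({(w : S.K)} : Set S.K))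
  have h4 : 0 < (centralizer ({(w : S.K)} : Set S.K)).index :=
    Nat.pos_of_ne_zero index_ne_zero_of_finite
  have h5 : 0 < p * Nat.card (centralizer ({(w : S.K)} : Set S.K)) :=
    Nat.mul_pos hp.out.pos Nat.card_pos
  refine anyL_iff.mpr ⟨_, List.mem_range.mpr h2, decide_eq_true ?_⟩
  rw [S.V.card_mul_index, ← h3, Nat.mul_div_cancel _ h4, h1, Nat.mul_div_cancel _ h5]
  exact ⟨Nat.mul_mod_left _ _, Nat.mul_mod_left _ _, hm, Nat.mod_eq_zero_of_dvd hk⟩

theorem exists_V_cent (S : Setup G p) {q a : ℕ} (hq : q.Prime) (h : q ∣ Nat.card S.V)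
    (ha : q ^ a ∣ Nat.card S.V * S.V.index) : ∃ w : S.V, orderOf ((w : S.K) : G) = q ∧
      centOK2 p (Nat.card S.V) S.V.index
        (Nat.card (centralizer ({((w : S.K) : G)} : Set G))) (q ^ a) = true := by
  have : Fact q.Prime := ⟨hq⟩
  obtain ⟨v, hv, ho⟩ := H36.exists_orderOf_eq_of_dvd S.V hq h
  obtain ⟨T, hT⟩ := (IsPGroup.of_card (n := 1) (G := zpowers v)
    (by rw [Nat.card_zpowers, ho, pow_one])).exists_le_sylow
  obtain ⟨z, hz, hz1, hzc⟩ := H81.exists_mem_center_of_normal T.isPGroup' (S.V.subgroupOf T)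
    fun e => hq.ne_one (by
      have : (⟨v, hT (mem_zpowers v)⟩ : (T : Subgroup S.K)) ∈ S.V.subgroupOf T := hv
      rw [e, mem_bot] at this
      rw [← ho, show v = 1 from congrArg Subtype.val this, orderOf_one])
  have h1 := orderOf_pow_orderOf_div (orderOf_pos z).ne' (T.isPGroup'.dvd_orderOf hz1)
  have h2 : orderOf (((⟨(z ^ (orderOf z / q) : (T : Subgroup S.K)), pow_mem hz _⟩ : S.V) : S.K) : G) =
      q := (orderOf_coe _).trans ((orderOf_coe (z ^ (orderOf z / q))).trans h1)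
  refine ⟨_, h2, centOK2_of S (fun e => hq.ne_one (by rw [← h2, e]; simp)) ?_⟩
  rw [S.V.card_mul_index] at ha
  exact (T.pow_dvd_card_of_pow_dvd_card ha).trans (card_dvd_of_le fun u hu =>
    mem_centralizer_singleton_iff.mpr
      (congrArg Subtype.val (mem_center_iff.mp (pow_mem hzc _) ⟨u, hu⟩)))

/-- every sublist with sum divisible by `m` lies in `o` -/
noncomputable def outOK (p e m : ℕ) (o l : List ℕ) : ℕ → Bool → Bool :=
  List.rec (motive := fun _ => ℕ → Bool → Bool) (fun s b => Bool.rec (Nat.blt 0 (s % m)) true b)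
    (fun d _ ih s b => ih s b && force ((s + (sgn p e d * d % m).toNat) % m) fun s' =>
      ih s' (b && anyL o (Nat.beq d))) l

theorem outOK_spec {ι : Type*} {p e m : ℕ} (hm : 0 < m) {o : List ℕ} (f : ι → ℕ) (u : ι → Prop)
    [DecidablePred u] (L : List ι) : ∀ (s : ℕ) (b : Bool), outOK p e m o (L.map f) s b = true →
      (m : ℤ) ∣ s + (L.map fun i => if u i then sgn p e (f i) * f i else 0).sum →
      b = true ∧ ∀ i ∈ L, u i → f i ∈ o := by
  induction L with
  | nil =>
    intro s b h h1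
    cases b
    · have h2 : 0 < s % m := Nat.blt_eq.mp h
      have h3 : m ∣ s := by simpa [Int.natCast_dvd_natCast] using h1
      rw [Nat.mod_eq_zero_of_dvd h3] at h2
      omega
    · simp
  | cons i L ih =>
    intro s b h h1
    have h2 : (outOK p e m o (L.map f) s b && force ((s + (sgn p e (f i) * f i % m).toNat) % m)
      fun s' => outOK p e m o (L.map f) s' (b && anyL o (Nat.beq (f i)))) = true := h
    rw [force_eq, Bool.and_eq_true] at h2
    rw [List.map_cons, List.sum_cons] at h1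
    by_cases hu : u i
    · rw [if_pos hu] at h1
      obtain ⟨h3, h4⟩ := ih _ _ h2.2 (by
        have := Int.emod_nonneg (sgn p e (f i) * f i) (b := m) (by omega)
        rw [Int.natCast_mod, Nat.cast_add, Int.toNat_of_nonneg this, Int.dvd_iff_emod_eq_zero,
          Int.emod_add_emod, add_right_comm, Int.add_emod_emod, add_right_comm, add_assoc,
          ← Int.dvd_iff_emod_eq_zero]
        exact h1)
      rw [Bool.and_eq_true, anyL_iff] at h3
      obtain ⟨d, hd, e⟩ := h3.2
      exact ⟨h3.1, List.forall_mem_cons.mpr ⟨fun _ => beq_iff.mp e ▸ hd, h4⟩⟩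
    · rw [if_neg hu, zero_add] at h1
      obtain ⟨h3, h4⟩ := ih _ _ h2.1 h1
      exact ⟨h3, List.forall_mem_cons.mpr ⟨fun h => absurd h hu, h4⟩⟩

/-- the central character is congruent to the class size -/
def omg (q i d : ℕ) (a : ℤ) : Prop := ((i : ℤ) * a / d - i) % q = 0

instance (q i d : ℕ) (a : ℤ) : Decidable (omg q i d a) := inferInstanceAs (Decidable (_ = _))

/-- counting the degrees -/
def cntAll (e : ℕ) (l : List ℕ) : List (Cst (ℕ × ℤ)) :=
  l.dedup.map fun d => Cst.eq e (fun x => if x.1 = d then 1 else 0) 0 (l.count d)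

/-- a known member -/
def knownC (e : ℕ) (k : ℕ × ℤ) : Cst (ℕ × ℤ) := Cst.le (fun x => if x = k then 0 else 1) (e - 1)

/-- bound for the norm -/
def normC (p e : ℕ) (t : ℤ) : Cst (ℕ × ℤ) := Cst.le (fun x => mu p e x.1 * x.2 ^ 2) t

/-- the part of the norm from the degrees divisible by `r` -/
def nrm (p e r : ℕ) (l : List (ℕ × ℤ)) : ℤ :=
  (l.map fun x => mu p e x.1 * if x.1 % r = 0 then x.2 ^ 2 else 0).sum

section

variable {S : Setup G p} (P : PB S)

theorem forced {q b : ℕ} (hq : q.Prime) (hqp : q ≠ p) (hV : ¬ q ∣ Nat.card S.V)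
    (hb : q ^ b ∣ Nat.card G) {L : List (IrrCharacter G)} (hL : P.Z.val = L) {l o : List ℕ}
    (hl : L.map dg = l) {e : ℕ} (he : S.V.index = e) (ho : outOK p e (q ^ b) o l 0 true = true)
    {χ : IrrCharacter G} (hχ : χ ∈ P.Z) {g : G} {a : ℤ} (ha : (χ : G → ℂ) g = a) {n : ℕ}
    (hn : Nat.card G = n) :
    dg χ ∈ o ∨ omg q (n / Nat.card (centralizer ({g} : Set G))) (dg χ) a := by
  classical
  subst hl he hn
  rw [← card_cent_mul g, Nat.mul_div_cancel_left _ Nat.card_pos]
  obtain ⟨M, hM⟩ := H86.exists_isPModular hq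
  have := hM.2.1
  let r : ℤ := (centralizer ({g} : Set G)).index
  have hU : ∀ χ ψ : IrrCharacter G, SameBlock M (χ : G → ℂ) ψ →
      centralChar (χ : G → ℂ) g - r ∈ H32.locMax M → centralChar (ψ : G → ℂ) g - r ∈ H32.locMax M :=
    fun χ ψ h h' => by
      have := (H32.locMax M).sub_mem h' (h g)
      rwa [sub_sub_sub_cancel_left] at this
  have h1 : ∀ (χ : IrrCharacter G) (a : ℤ), (χ : G → ℂ) g = a →
      (centralChar (χ : G → ℂ) g - r ∈ H32.locMax M ↔
        ((centralizer ({g} : Set G)).index * a / dg χ - r) % q = 0) := fun χ a ha => by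
    have h0 : ((dg χ : ℤ) : ℂ) ≠ 0 := by exact_mod_cast (dg_pos χ).ne'
    rw [← Int.dvd_iff_emod_eq_zero, ← H32.intCast_mem_locMax_iff hM, Int.cast_sub,
      Int.cast_div (dg_dvd_index_mul χ ha) h0, centralChar, ha, dg_cast]
    simp
  have h3 := P.bt_dvd hM hqp hV _ hU hb
  rw [if_pos ((h1 (triv G) 1 (by simp [triv_apply])).mpr (by simp [dg_triv, r]))] at h3
  refine or_iff_not_imp_right.mpr fun h => (outOK_spec (pow_pos hq.pos b) dg
    (fun χ => ¬ centralChar (χ : G → ℂ) g - r ∈ H32.locMax M) L 0 true ho ?_).2 χ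
      ((mem_list hL).mp hχ) fun h' => h ((h1 χ a ha).mp h')
  have h4 := P.lin_deg
  rw [← Finset.sum_filter_add_sum_filter_not _
    fun χ : IrrCharacter G => centralChar (χ : G → ℂ) g - r ∈ H32.locMax M, Finset.sum_filter,
    Finset.sum_filter] at h4
  rw [← sum_list hL, Nat.cast_zero, zero_add, Nat.cast_pow, ← dvd_neg,
    eq_sub_iff_add_eq'.mpr h4]
  exact (fun a => by ring : ∀ a : ℤ, 1 + a = -(-1 - a)) _ ▸ h3

theorem holds_cntAll {L : List (IrrCharacter G)} (hL : P.Z.val = L) {l : List ℕ} (hl : L.map dg = l)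
    {e : ℕ} (he : S.V.index = e) (a : IrrCharacter G → ℤ) :
    ∀ c ∈ cntAll e l, c.Holds P.Z.val fun χ => (dg χ, a χ) := by
  subst he
  simp only [cntAll, List.forall_mem_map]
  refine fun d _ => holds_eq P.card_Z ?_
  change ∑ χ ∈ P.Z, _ = _
  rw [sum_list hL, ← hl]
  exact sum_ite_count L dg d

theorem holds_knownC {e : ℕ} (he : S.V.index = e) (τ : IrrCharacter G → ℕ × ℤ)
    {χ : IrrCharacter G} (hχ : χ ∈ P.Z) : (knownC e (τ χ)).Holds P.Z.val τ := by
  classical
  refine holds_le ?_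
  change ∑ φ ∈ P.Z, _ ≤ _
  rw [← Finset.add_sum_erase _ _ hχ, if_pos rfl, zero_add]
  refine (Finset.sum_le_card_nsmul _ _ 1 fun φ _ => by split_ifs <;> simp).trans ?_
  have := P.e_lt.1
  rw [Finset.card_erase_of_mem hχ, P.card_Z, he, nsmul_eq_mul, mul_one, Nat.cast_sub (by omega)]
  simp

theorem exists_known {χ : IrrCharacter G} (hV : Nat.card S.V = 1) (h1 : χ ≠ triv G)
    (h : dg χ % p ≠ 0) {g : G} (hg : ¬ p ∣ orderOf g) :
    ∃ φ ∈ P.Z, (dg φ, ival g φ) = (dg χ, ival g χ) := by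
  obtain ⟨φ, h2, h3, h4, -⟩ := P.exists_rep
    (mem_of_not_dvd P.B hV fun e => h (Nat.mod_eq_zero_of_dvd e)) h1
  exact ⟨φ, h2, by rw [h3, ival, ival, h4 g hg]⟩

theorem holds_normC {q : ℕ} [Fact q.Prime] {T : Setup G q} (Q : PB T) (hV : Nat.card S.V = 1)
    {g : G} (hg : ∀ χ : IrrCharacter G, ∃ b : ℤ, (χ : G → ℂ) g = b) (hp' : ¬ p ∣ orderOf g)
    (hq : ¬ q ∣ orderOf g) {L : List (IrrCharacter G)} (hL : Q.Z.val = L) {e e' : ℕ}
    (he : S.V.index = e) (he' : T.V.index = e') :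
    (normC p e (Nat.card (centralizer ({g} : Set G)) - 1 -
      nrm q e' p (L.map fun χ => (dg χ, ival g χ)))).Holds P.Z.val fun χ => (dg χ, ival g χ) := by
  classical
  subst he he'
  refine holds_le ?_
  change ∑ φ ∈ P.Z, _ ≤ _
  have h1 := col_int hg hg
  rw [if_pos (IsConj.refl g), P.sum_all hV _ fun χ hχ => by rw [P.ival_Y hp' hχ], ival_triv] at h1
  have h2 := Q.sum_block (fun χ => if dg χ % p = 0 then ival g χ ^ 2 else 0) fun χ hχ => by
    rw [Q.ival_Y hq hχ, Q.dg_Y hχ]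
  rw [dg_triv, if_neg (by rw [Nat.mod_eq_of_lt hp.out.one_lt]; omega), zero_add,
    ← Finset.sum_filter, sum_list hL] at h2
  have h3 : ∑ χ ∈ (Q.B.X ∪ Q.B.Y).filter (fun χ => dg χ % p = 0), ival g χ ^ 2 ≤
      ∑ χ ∈ P.R, ival g χ ^ 2 := Finset.sum_le_sum_of_subset_of_nonneg
    (fun χ hχ => P.mem_R.mpr (Nat.dvd_of_mod_eq_zero (Finset.mem_filter.mp hχ).2))
    fun _ _ _ => sq_nonneg _
  simp only [← sq, Int.cast_id] at h1 h2
  rw [nrm, List.map_map]
  simp only [Function.comp_def]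
  omega

end

end Cfsg.Agent.H17.J3
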