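import Cfsg.Agent.H17.J3b

/-! Simple groups of order 50232960: the principal 5-block. -/

set_option autoImplicit false
set_option synthInstance.maxSize 2048

namespace Cfsg.Agent.H17.J3

open Cfsg Subgroup H35 H14 H16

/-- congruences for members of the principal 2-block and 3-block -/
def frc (i d : ℕ) (a : ℤ) : Prop :=
  (d ∈ [2736, 324, 76, 171] → omg 2 i d a) ∧ (d ∈ [2736, 76, 171] → omg 3 i d a)

instance (i d : ℕ) (a : ℤ) : Decidable (frc i d a) := inferInstanceAs (Decidable (_ ∧ _))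

/-- the column on the 17-block, given the column on the 5-block -/
noncomputable def z17 (c e : ℕ) (k : List (ℕ × ℤ)) (Q : List (ℕ × ℤ) → Bool) : Bool :=
  force (50232960 / c) fun i => forceZ (c - 1 - nrm 5 e 17 k) fun N =>
  allL T17 fun t => bimp (allL k fun x => decide (x.1 % 17 = 0 ∨ x.1 ∈ t.1))
    (colS2 17 8 1 50232960 c 4 t.1.reverse
      (fun d a => decide ((d ∈ t.2.1 ∨ omg 2 i d a) ∧ (d ∈ t.2.2 ∨ omg 3 i d a)))
      (normC 17 8 N :: cntAll 8 t.1.reverse ++
        (k.filter fun x => decide (x.1 % 17 ≠ 0)).map (knownC 8)) [(2, 7), (3, 5), (5, 1)] Q)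

/-- the column on the 5-block -/
noncomputable def z5 (v e c m : ℕ) (l : List ℕ) (Q : List (ℕ × ℤ) → Bool) : Bool :=
  force (50232960 / c) fun i =>
  Bool.rec (colS2 5 e v 50232960 c m l (fun d a => decide (frc i d a)) (cntAll e l) [] Q)
    (colS2 5 e v 50232960 c m l (fun d a => decide (frc i d a ∧ omg 2 i d a)) (cntAll e l)
      [(2, 7)] Q) (decide (v % 2 ≠ 0) && outOK 5 e (2 ^ 7) [] l 0 true)

/-- admissible centraliser orders of a central involution -/
noncomputable def cOK (v e c : ℕ) : Bool :=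
  decide (c % 128 = 0 ∧ c % 17 ≠ 0 ∧ c % 19 ≠ 0) &&
    bimp (decide (c % 5 = 0)) (decide (v % 2 = 0) && centOK 5 v e c)

theorem s5 : optS 5 50232960 7100 ps DD (fun v _ => decide (v % 17 ≠ 0 ∧ v % 19 ≠ 0))
    (fun d => decide ((d % 19 = 0 ∨ degOK 19 9 d) ∧ (d % 17 = 0 ∨ degOK 17 8 d)))
    (fun e => [crossC 5 e 19 9, crossC 5 e 17 8]) [(2, 5), (3, 3)]
    (fun v e l => decide (e = 4 ∧ l = [76, 76, 816, 969] ∨ v = 6 ∧ e = 2 ∧ l = [323, 324]) ||
      bimp (allL l (fun d => decide (nexc 5 d → frc (50232960 / (5 * v)) d (sgn 5 e d))) &&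
        anyL T17 fun t => allL l fun d => decide (d % 17 = 0 ∨ d ∈ t.1))
      (if v % 2 = 0 ∧ v * e % 2 ^ 6 = 0 then allD ps fun c =>
        bimp (centOK2 5 v e c (2 ^ 6) && decide (c % 17 ≠ 0 ∧ c % 19 ≠ 0))
          (z5 v e c (4 * 5) l fun k => z17 c e k fun _ => false)
      else allD ps fun c => bimp (cOK v e c)
        (z5 v e c (if c % 5 = 0 then 4 * 5 else 4) l fun k => z17 c e k fun _ => false))) = true := by
  decide +kernel

theorem s6 : allD ps (fun c => bimp (cOK 6 2 c) (z5 6 2 c (if c % 5 = 0 then 4 * 5 else 4) [323, 324]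
    fun k => decide (c = 1920 ∧ k = [(324, 4), (323, 3)]))) = true := by decide +kernel

end Cfsg.Agent.H17.J3
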