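import Cfsg.Agent.H17.J3c

/-! Simple groups of order 50232960: the column of a central involution. -/

set_option autoImplicit false
set_option synthInstance.maxSize 2048

namespace Cfsg.Agent.H17.J3

open Cfsg Subgroup H35 H14 H16

/-- the values at a central involution -/
def fz (d : ℕ) : ℤ :=
  if d = 85 then 5 else if d = 324 then 4 else if d = 816 then -16 else if d = 1215 then 15 else
  if d = 2754 then -14 else if d = 18 then 2 else if d = 3060 then 20 else 0

/-- the column on the 19-block -/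
noncomputable def z19 (k : List (ℕ × ℤ)) : Bool :=
  forceL (k.map Prod.fst) fun l' => forceZ (1920 - 1 - nrm 17 8 19 k) fun N =>
  optS 19 50232960 7100 ps DD (fun v _ => decide (v = 1)) (fun d => decide (d % 17 = 0 ∨ d ∈ l'))
    (fun e => crossC 19 e 17 8 :: (l'.dedup.filter fun d => decide (d % 19 ≠ 0 ∧ nexc 19 d ∧
      d % 17 ≠ 0 ∧ d ≠ 1)).map fun d => M22.cnt d (mu 17 8 d * l'.count d)) [(2, 5), (3, 3)]
    fun _ e l => colS2 19 e 1 50232960 1920 4 l (fun d a => decide (d % 17 = 0 ∨ (d, a) ∈ k))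
      (normC 19 e N :: cntAll e l) [(2, 7), (3, 5), (5, 1)] fun k' =>
        decide ((∀ x ∈ k', x.2 = fz x.1) ∧ 960 ≤ (k'.map fun x => mu 19 e x.1 * x.2 ^ 2).sum)

theorem s19 : z17 1920 2 [(324, 4), (323, 3)] z19 = true := by decide +kernel

end Cfsg.Agent.H17.J3
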