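import Cfsg.Agent.H17.J3a

/-! Frobenius–Schur indicators in a principal block of defect one. -/

set_option autoImplicit false
set_option linter.unusedSectionVars false

namespace Cfsg.Agent.H17.J3

open Cfsg Subgroup H35 H14 H16 Matrix
open Cfsg.Agent.H6 (fsIndicator)
open scoped ComplexConjugate

variable {G : Type*} [Group G] [Fintype G] {p : ℕ} [hp : Fact p.Prime]

theorem fs_ne_neg (S : Setup G p) {s : G} (hs : s * s = 1)
    (hsx : ∀ i, s * S.xp i = S.xp (-i) * s) (χ : IrrCharacter G) {δ : ℤ}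
    (hδ : ∀ i, i ≠ 0 → (χ : G → ℂ) (S.xp i) = δ) {m : ℕ} (hm : Odd m)
    (hd : (dg χ : ℤ) = p * m + δ) : fsIndicator (χ : G → ℂ) ≠ -1 := fun h => by
  have hr := (H88.conjIrr_eq_iff χ).mp (H89.conjIrr_eq_of_fsIndicator (by rw [h]; norm_num))
  have h1 := dg_cast χ
  have hd' : (dg χ : ℂ) = p * m + δ := by exact_mod_cast hd
  generalize dg χ = d at *
  obtain ⟨_, n, ρ, hρ, rfl⟩ := χ
  obtain ⟨M, hu, hM⟩ := H31.exists_invariant_form ρ hr
  have s₁ := H31.transpose_eq_fsIndicator_smul ρ hr hM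
  rw [← H6.fsIndicator_def, show fsIndicator ρ.character = -1 from h] at s₁
  set X := H31.repMat ρ
  have hX : ∀ y, (X y)ᵀ * M = M * X y⁻¹ := fun y => by
    conv_rhs => rw [← hM y, mul_assoc _ (X y), ← map_mul, mul_inv_cancel, map_one, mul_one]
  have hc : (p : ℂ) ≠ 0 := by exact_mod_cast hp.out.ne_zero
  refine Nat.not_even_iff_odd.2 hm (H89.even_of_skew (M * X s)
    ((p : ℂ)⁻¹ • ∑ i, ech p i • X (S.xp i)) (hu.mul ((Group.isUnit s).map X)) ?_ ?_ ?_ ?_)
  · rw [transpose_mul, s₁, mul_smul_comm, hX, inv_eq_of_mul_eq_one_right hs]; simp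
  · rw [smul_mul_smul_comm, Finset.sum_mul_sum]
    have : ∀ a, ∑ b, (ech p a • X (S.xp a)) * (ech p b • X (S.xp b)) =
        ∑ b, ech p b • X (S.xp b) := fun a =>
      Fintype.sum_equiv (Equiv.addLeft a) _ _ fun b => by
        rw [smul_mul_smul_comm, ← map_mul X, ← S.xp_add, ← AddChar.map_add_eq_mul]; rfl
    simp only [this]
    rw [Finset.sum_const, Finset.card_univ, ZMod.card, ← Nat.cast_smul_eq_nsmul ℂ,
      smul_smul, inv_mul_cancel_right₀ hc]
  · rw [transpose_smul, transpose_sum, smul_mul_assoc, mul_smul_comm, Finset.sum_mul,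
      Finset.mul_sum]
    refine congrArg _ (Finset.sum_congr rfl fun i _ => ?_)
    rw [transpose_smul, smul_mul_assoc, mul_smul_comm, ← mul_assoc, hX, mul_assoc, mul_assoc,
      ← map_mul, ← map_mul, hsx, S.xp_neg]
  · classical
    have h2 := sum_ech (p := p) 1
    rw [trace_smul, trace_sum, ← Finset.add_sum_erase _ _ (Finset.mem_univ 0),
      Finset.sum_congr rfl fun i hi => by rw [trace_smul, ← H31.character_eq_trace_repMat,
        show ρ.character _ = _ from hδ i (Finset.ne_of_mem_erase hi), smul_eq_mul],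
      ← Finset.sum_mul, trace_smul, ← H31.character_eq_trace_repMat, S.xp_zero,
      show ρ.character 1 = _ from h1, Finset.sum_erase_eq_sub (Finset.mem_univ _)]
    simp only [mul_one, one_ne_zero, if_false] at h2
    rw [h2, hd']
    simp only [AddChar.map_zero_eq_one, smul_eq_mul]
    field_simp
    ring

theorem sqrt_count (S : Setup G p) (h2 : p ≠ 2) [Fintype S.V] :
    ∑ v : S.V, Nat.card {s : G // s * s = S.xp 2 * (v : S.K)} = Nat.card S.V := by
  have h : (2 : ZMod p) ≠ 0 := fun h =>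
    h2 ((Nat.prime_dvd_prime_iff_eq hp.out Nat.prime_two).mp
      ((ZMod.natCast_eq_zero_iff 2 p).mp (by exact_mod_cast h)))
  have e : ∀ (j : ZMod p) (w : S.V), S.xp j * (w : S.K) * (S.xp j * (w : S.K)) =
      S.xp (j + j) * ((w * w : S.V) : S.K) := fun j w => by
    rw [S.xp_add, mul_assoc, ← mul_assoc (((w : S.K)) : G), ← (S.commute_xp j w).eq]
    simp [mul_assoc]
  rw [← Nat.card_sigma]
  refine (Nat.card_congr (Equiv.ofBijective (fun w : S.V => ⟨w * w, S.xp 1 * (w : S.K),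
    by rw [e, one_add_one_eq_two]⟩) ⟨fun a b hab => ?_, fun ⟨v, s, hs⟩ => ?_⟩)).symm
  · exact Subtype.ext (S.eq_of_xp_mul_eq (congrArg (fun x => x.2.1) hab)).2
  · have h3 : s ∈ centralizer ({S.x} : Set G) := by
      rw [← centralizer_eq_of_mem hp.out S.hx (S.xp_mem _)
        (S.xp_ne_one (mul_ne_zero h S.cardK_ne_zero)), mem_centralizer_singleton_iff,
        ← S.xp_mul_pow_card, ← hs]
      exact (((Commute.refl s).mul_right (Commute.refl s)).pow_right _).eq
    obtain ⟨j, w, rfl⟩ := S.exists_decomp_of_commute (mem_centralizer_singleton_iff.mp h3).symm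
    obtain ⟨h4, h5⟩ := S.eq_of_xp_mul_eq ((e j w).symm.trans hs)
    obtain rfl : j = 1 := mul_left_cancel₀ h (by rw [mul_one, two_mul, h4])
    obtain rfl : w * w = v := Subtype.ext h5
    exact ⟨w, rfl⟩

variable {S : Setup G p} (P : PB S)

theorem fs_rel (he : S.V.index = p - 1) :
    ∑ χ ∈ P.Z, sgn p S.V.index (dg χ) * fsIndicator (χ : G → ℂ) = 0 := by
  have h : (2 : ZMod p) ≠ 0 := fun h =>
    P.p2 ((Nat.prime_dvd_prime_iff_eq hp.out Nat.prime_two).mp
      ((ZMod.natCast_eq_zero_iff 2 p).mp (by exact_mod_cast h)))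
  have hn : ∀ χ ∈ P.Z, nexc p (dg χ) := fun χ hχ => by
    rcases P.mem_Z.mp hχ with rfl | h
    · exact (P.sgn_Y P.hψ).2.mpr he
    · exact (P.sgn_X h.2).1
  have h0 : (Nat.card S.V : ℂ) ≠ 0 := H5.natCard_ne_zero
  have h1 := congrArg (Nat.cast : ℕ → ℂ) (sqrt_count S P.p2)
  simp only [Nat.cast_sum, H88.card_sqrt_eq_sum] at h1
  have h6 := (P.sum_block (fun χ => ∑ v : S.V, fsIndicator (χ : G → ℂ) *
    (χ : G → ℂ) (S.xp 2 * (v : S.K))) fun χ hχ => by
      have h4 := P.B.cardY'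
      rw [he] at h4
      have := hp.out.two_le
      rw [Finset.card_le_one.mp (Nat.eq_of_mul_eq_mul_right (by omega)
        (h4.trans (one_mul _).symm)).le _ hχ _ P.hψ]).symm.trans
    (Finset.sum_subset (Finset.subset_univ _) fun χ _ hχ => by
      simp only [Finset.mem_union, not_or] at hχ
      have h3 := P.B.psi0 χ hχ.1 hχ.2 2 h
      rw [Setup.psi, H5.classInner_one_right, mul_eq_zero, inv_eq_zero] at h3
      rw [← Finset.mul_sum, h3.resolve_left h0, mul_zero])
  rw [Finset.sum_comm, ← h6,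
    Finset.sum_congr (s₁ := P.Z) rfl (g := fun χ => Nat.card S.V *
      (sgn p S.V.index (dg χ) * fsIndicator (χ : G → ℂ))) fun χ hχ => by
      rw [mu, if_pos (hn χ hχ), Finset.sum_congr rfl fun v _ => by
        rw [P.val_sing hχ (hn χ hχ) (S.dvd_orderOf_xp_mul h v)]]
      simp [mul_comm], ← Finset.mul_sum P.Z] at h1
  have h5 : fsIndicator (triv G : G → ℂ) = 1 := H88.fsIndicator_one
  simp only [h5, triv_apply, mul_one, Finset.sum_const, Finset.card_univ, nsmul_eq_mul,
    ← Nat.card_eq_fintype_card, add_eq_left, mul_eq_zero] at h1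
  exact h1.resolve_left h0

include P in
theorem real_exc (hV : Nat.card S.V = 1) (he : 2 ∣ S.V.index) {χ : IrrCharacter G}
    (h : dg χ % p ≠ 0) (h' : ¬ nexc p (dg χ)) (g : G) : ((χ : G → ℂ) g).im = 0 := by
  rw [← Complex.conj_eq_iff_im]
  by_cases hg : p ∣ orderOf g
  · obtain ⟨i, hi, v, hc⟩ := exists_conj_sing S hg
    have : Subsingleton S.V := (Nat.card_eq_one_iff_unique.mp hV).1
    obtain ⟨u, ⟨k, rfl⟩, hu⟩ := H36.exists_orderOf_eq_of_dvd S.κ.range Nat.prime_two
      (by rwa [← index_ker])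
    have h1 : (S.κ k : ZMod p) = -1 := (mul_self_eq_one_iff.mp (by
      rw [← sq, ← Units.val_pow_eq_pow_val, ← hu, pow_orderOf_eq_one, Units.val_one])).resolve_left
        fun e => by rw [Units.ext (u := S.κ k) (v := 1) e] at hu; simp at hu
    rw [Subsingleton.elim v 1] at hc
    simp only [OneMemClass.coe_one, mul_one] at hc
    rw [irr_conj χ hc, ← H5.isIrr_apply_inv χ.2, ← S.xp_neg, ← neg_one_mul, ← h1, ← S.conj_xp]
    exact (irr_conj χ (isConj_iff.mpr ⟨_, rfl⟩)).symm
  · have e : dg χ = dg (H88.conjIrr χ) := (H88.charDegree_conjIrr χ).symm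
    exact (P.eq_of_exc hV e h h' hg).symm

end Cfsg.Agent.H17.J3
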