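import Cfsg.Agent.H17.J3d
import Cfsg.Agent.H17.J3e

/-! Simple groups of order 50232960: central involutions and elements of order 5. -/

set_option autoImplicit false
set_option linter.unusedSectionVars false
set_option synthInstance.maxSize 2048

namespace Cfsg.Agent.H17.J3

open Cfsg Subgroup H35 H14 H16
open scoped ComplexConjugate

variable {G : Type*} [Group G] [Finite G]

theorem count_eq {p q : ℕ} [Fact p.Prime] [Fact q.Prime] {S : Setup G p} {T : Setup G q}
    (P : PB S) (Q : PB T) (hV : Nat.card S.V = 1) (hW : Nat.card T.V = 1)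
    {L : List (IrrCharacter G)} (hL : Q.Z.val = L) {l : List ℕ} (hl : L.map dg = l) {e : ℕ}
    (he : T.V.index = e) {d : ℕ} (h1 : d ≠ 1) (hp : d % p ≠ 0) (hq : d % q ≠ 0) (hn : nexc p d) :
    (M22.cnt d (mu q e d * l.count d)).Holds P.Z.val dg := by
  have h2 := P.count_dg hV (Multiset.coe_toList _).symm rfl rfl h1 hp
  rw [Q.count_dg hW hL hl he h1 hq, show mu p _ d = 1 from if_pos hn, one_mul,
    ← sum_ite_count P.Z.val.toList, ← sum_list (Multiset.coe_toList _).symm] at h2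
  exact ⟨h2.symm.le, Or.inr (h2.le.trans (le_add_of_nonneg_right le_rfl))⟩

theorem sq_one {t : G} (ht : orderOf t = 2) : t * t = 1 := by rw [← sq, ← ht, pow_orderOf_eq_one]

variable [IsSimpleGroup G] (hc : Nat.card G = 50232960)
include hc

theorem perfect : commutator G = ⊤ :=
  H36.commutator_eq_top_of_simple (by rw [hc]; norm_num)

theorem block19 (S : Setup G 19) : Nat.card S.V = 1 ∧ S.V.index = 9 := by
  obtain ⟨P⟩ := nonempty_PB (perfect hc) S
  have hV : Nat.card S.V = 1 := by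
    by_contra hV
    obtain ⟨L, hL, h⟩ := P.optS_sound (perfect hc) hc hps hps' hDD sV19 (decide_eq_true hV)
      (fun _ _ => rfl) (by simp) (by simp only [List.forall_mem_cons]; norm_num)
    rw [Bool.and_eq_true, decide_eq_true_eq] at h
    obtain ⟨w, hw, hw'⟩ := exists_V_cent S Nat.prime_two (Nat.dvd_of_mod_eq_zero h.1.1)
      (Nat.dvd_of_mod_eq_zero h.1.2)
    have h1 := bimp_iff.mp (allD_spec ps _ h.2 hps _ (hps' ▸ cent_dvd hc w)) hw'
    obtain ⟨L', hL', h2⟩ := P.colS2_sound (perfect hc) rfl rfl hc hw rfl hL rfl h1 (by norm_num)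
      (fun χ hχ => P.four_mul_dvd (perfect hc) hχ hw (IsConj.refl _)) (fun _ _ => rfl) (by simp)
      (by simp)
    exact absurd h2 (by simp)
  obtain ⟨k1, k2, -, k3, k4, -⟩ := numerics (perfect hc) S
  rw [hc, hV] at k1
  have := Nat.le_of_dvd (by norm_num) k4
  refine ⟨hV, ?_⟩
  generalize S.V.index = e at *
  interval_cases e <;> omega

theorem block17 {S : Setup G 17} (P : PB S) : Nat.card S.V = 1 ∧ S.V.index = 8 ∧
    ∃ t ∈ T17, ∃ L : List (IrrCharacter G), P.Z.val = L ∧ L.map dg = t.1 := by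
  obtain ⟨T⟩ : Nonempty (Setup G 19) := exists_setup' (by rw [hc]; norm_num) (by rw [hc]; norm_num)
  obtain ⟨Q⟩ := nonempty_PB (perfect hc) T
  obtain ⟨hV, he⟩ := block19 hc T
  obtain ⟨L, hL, h⟩ := P.optS_sound (perfect hc) hc hps hps' hDD s17
    (decide_eq_true fun h => not_dvd_V T hV S (by norm_num) (Nat.dvd_of_mod_eq_zero h))
    (fun χ _ => decide_eq_true (he ▸ (Q.trace_all hV χ).2))
    (by simpa using P.holds_cross Q hV (by norm_num) rfl he)
    (by simp only [List.forall_mem_cons]; norm_num)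
  split_ifs at h with h1
  · rw [Bool.and_eq_true, decide_eq_true_eq, anyL_iff] at h
    obtain ⟨h2, t, ht, h3⟩ := h
    exact ⟨h1, h2, t, ht, L, hL, (of_decide_eq_true h3).symm⟩
  · rw [Bool.and_eq_true, decide_eq_true_eq] at h
    obtain ⟨w, hw, hw'⟩ := exists_V_cent S Nat.prime_three (Nat.dvd_of_mod_eq_zero h.1.1)
      (Nat.dvd_of_mod_eq_zero h.1.2)
    have h1 := bimp_iff.mp (allD_spec ps _ h.2 hps _ (hps' ▸ cent_dvd hc w)) (by
      rw [hw', Bool.true_and]
      exact decide_eq_true fun h => not_dvd_card_centralizer T hV (fun e => by simp [e] at hw)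
        (by rw [hw]; norm_num) (Nat.dvd_of_mod_eq_zero h))
    obtain ⟨L', hL', h2⟩ := P.trS2_sound rfl hc hw Nat.prime_three (by norm_num) rfl hL rfl h1
      (by norm_num) (fun χ hχ => P.mul_dvd_trv hχ hw (by norm_num) (IsConj.refl _))
      (fun χ hχ => decide_eq_true (P.ratOK_of hL hχ hw Nat.prime_three (by norm_num) hc))
      (holds_cntAll P hL rfl rfl _) (by simp)
    exact absurd h2 (by simp)

theorem forced17 {S : Setup G 17} (P : PB S) {t : List ℕ × List ℕ × List ℕ} (ht : t ∈ T17)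
    {L : List (IrrCharacter G)} (hL : P.Z.val = L) (hl : L.map dg = t.1) {χ : IrrCharacter G}
    (hχ : χ ∈ P.Z) {g : G} {a : ℤ} (ha : (χ : G → ℂ) g = a) :
    (dg χ ∈ t.2.1 ∨ omg 2 (50232960 / Nat.card (centralizer ({g} : Set G))) (dg χ) a) ∧
    (dg χ ∈ t.2.2 ∨ omg 3 (50232960 / Nat.card (centralizer ({g} : Set G))) (dg χ) a) := by
  obtain ⟨hV, he, -⟩ := block17 hc P
  have h := allL_iff.mp hT t ht
  rw [Bool.and_eq_true] at h
  exact ⟨forced P Nat.prime_two (by norm_num) (by rw [hV]; norm_num) (by rw [hc]; norm_num) hL hl he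
    h.1 hχ ha hc, forced P Nat.prime_three (by norm_num) (by rw [hV]; norm_num)
      (by rw [hc]; norm_num) hL hl he h.2 hχ ha hc⟩

theorem frc_of {χ : IrrCharacter G} (h1 : χ ≠ triv G) {g : G} (hg : ¬ 17 ∣ orderOf g) {a : ℤ}
    (ha : (χ : G → ℂ) g = a) :
    frc (50232960 / Nat.card (centralizer ({g} : Set G))) (dg χ) a := by
  obtain ⟨S⟩ : Nonempty (Setup G 17) := exists_setup' (by rw [hc]; norm_num) (by rw [hc]; norm_num)
  obtain ⟨P⟩ := nonempty_PB (perfect hc) S
  obtain ⟨hV, -, t, ht, L, hL, hl⟩ := block17 hc P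
  by_cases h : 17 ∣ dg χ
  · constructor <;> simp only [List.mem_cons, List.not_mem_nil, or_false] <;> omega
  obtain ⟨φ, h2, h3, h4, -⟩ := P.exists_rep (mem_of_not_dvd P.B hV h) h1
  have := forced17 hc P ht hL hl h2 ((h4 g hg).trans ha)
  rw [h3] at this
  exact ⟨fun h => this.1.resolve_left ((hT' t ht).1 _ h),
    fun h => this.2.resolve_left ((hT' t ht).2 _ h)⟩

theorem z17_sound {S : Setup G 17} (P : PB S) {U : Setup G 5} (R : PB U) {z : G}
    (hz : orderOf z = 2) {c e : ℕ} (hcz : Nat.card (centralizer ({z} : Set G)) = c)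
    (he : U.V.index = e) {K : List (IrrCharacter G)} (hK : R.Z.val = K) {k : List (ℕ × ℤ)}
    (hk : (K.map fun χ => (dg χ, ival z χ)) = k) {Q : List (ℕ × ℤ) → Bool}
    (h : z17 c e k Q = true) : ∃ L : List (IrrCharacter G), P.Z.val = L ∧
      Q (L.map fun χ => (dg χ, ival z χ)) = true := by
  obtain ⟨hV, he', t, ht, L, hL, hl⟩ := block17 hc P
  have hG := perfect hc
  subst hk
  rw [z17, force_eq, forceZ_eq] at h
  have hL' : P.Z.val = L.reverse := by rw [hL, Multiset.coe_reverse]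
  have hl' : L.reverse.map dg = t.1.reverse := by rw [List.map_reverse, hl]
  refine P.colS2_sound hG he' hV hc hz hcz hL' hl' (bimp_iff.mp (allL_iff.mp h t ht)
    (allL_iff.mpr fun x hx => ?_)) (by norm_num) (fun χ _ => four_dvd hG χ hz)
    (fun χ hχ => decide_eq_true (hcz ▸ forced17 hc P ht hL hl hχ (ival_inv hG (sq_one hz) χ).1)) ?_
    (by simp only [List.forall_mem_cons]; norm_num)
  · obtain ⟨χ, hχ, rfl⟩ := List.mem_map.mp hx
    exact decide_eq_true (P.dg_mem hV hL hl (R.ne_triv ((mem_list hK).mpr hχ)))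
  · rw [List.cons_append, List.forall_mem_cons, List.forall_mem_append, List.forall_mem_map]
    refine ⟨hcz ▸ holds_normC P R hV (fun χ => ⟨_, (ival_inv hG (sq_one hz) χ).1⟩)
      (by rw [hz]; norm_num) (by rw [hz]; norm_num) hK he' he, holds_cntAll P hL' hl' he' _,
      fun x hx => ?_⟩
    rw [List.mem_filter, decide_eq_true_eq] at hx
    obtain ⟨χ, hχ, rfl⟩ := List.mem_map.mp hx.1
    obtain ⟨φ, h1, h2⟩ := exists_known P hV (R.ne_triv ((mem_list hK).mpr hχ)) hx.2 (g := z)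
      (by rw [hz]; norm_num)
    exact h2 ▸ holds_knownC P he' (fun χ => (dg χ, ival z χ)) h1

theorem z5_sound {U : Setup G 5} (R : PB U) {z : G} (hz : orderOf z = 2) {v c e m : ℕ}
    (hcz : Nat.card (centralizer ({z} : Set G)) = c) (hv : Nat.card U.V = v)
    (he : U.V.index = e) {K : List (IrrCharacter G)} (hK : R.Z.val = K) {l : List ℕ}
    (hl : K.map dg = l) {Q : List (ℕ × ℤ) → Bool} (h : z5 v e c m l Q = true) (hm : 0 < m)
    (hm' : ∀ χ ∈ R.Z, (m : ℤ) ∣ dg χ - ival z χ) : ∃ L : List (IrrCharacter G), R.Z.val = L ∧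
      Q (L.map fun χ => (dg χ, ival z χ)) = true := by
  have hG := perfect hc
  have h1 : ∀ χ ∈ R.Z, frc (50232960 / c) (dg χ) (ival z χ) := fun χ hχ =>
    hcz ▸ frc_of hc (R.ne_triv hχ) (by rw [hz]; norm_num) (ival_inv hG (sq_one hz) χ).1
  rw [z5, force_eq] at h
  cases h2 : (decide (v % 2 ≠ 0) && outOK 5 e (2 ^ 7) [] l 0 true)
  · rw [h2] at h
    exact R.colS2_sound hG he hv hc hz hcz hK hl h hm hm' (fun χ hχ => decide_eq_true (h1 χ hχ))
      (holds_cntAll R hK hl he _) (by simp)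
  · rw [h2] at h
    rw [Bool.and_eq_true, decide_eq_true_eq] at h2
    refine R.colS2_sound hG he hv hc hz hcz hK hl h hm hm' (fun χ hχ => decide_eq_true ⟨h1 χ hχ,
      hcz ▸ (forced R Nat.prime_two (by norm_num) (fun h => h2.1 (hv ▸ Nat.mod_eq_zero_of_dvd h))
        (by rw [hc]; norm_num) hK hl he h2.2 hχ (ival_inv hG (sq_one hz) χ).1 hc).resolve_left
          (by simp)⟩) (holds_cntAll R hK hl he _) ?_
    simp only [List.forall_mem_cons]
    exact ⟨⟨Nat.prime_two, by norm_num, h2.1, by norm_num⟩, by simp⟩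

theorem not_dvd_cent {z : G} (hz : orderOf z = 2) :
    Nat.card (centralizer ({z} : Set G)) % 17 ≠ 0 ∧ Nat.card (centralizer ({z} : Set G)) % 19 ≠ 0 := by
  obtain ⟨S⟩ : Nonempty (Setup G 17) := exists_setup' (by rw [hc]; norm_num) (by rw [hc]; norm_num)
  obtain ⟨T⟩ : Nonempty (Setup G 19) := exists_setup' (by rw [hc]; norm_num) (by rw [hc]; norm_num)
  obtain ⟨P⟩ := nonempty_PB (perfect hc) S
  have hz1 : z ≠ 1 := fun e => by simp [e] at hz
  exact ⟨fun h => not_dvd_card_centralizer S (block17 hc P).1 hz1 (by rw [hz]; norm_num)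
    (Nat.dvd_of_mod_eq_zero h), fun h => not_dvd_card_centralizer T (block19 hc T).1 hz1
      (by rw [hz]; norm_num) (Nat.dvd_of_mod_eq_zero h)⟩

theorem cOK_of {U : Setup G 5} (R : PB U) {z : G} (hz : orderOf z = 2) {c : ℕ}
    (hcz : Nat.card (centralizer ({z} : Set G)) = c) (h : 128 ∣ c) :
    cOK (Nat.card U.V) U.V.index c = true ∧ 0 < (if c % 5 = 0 then 4 * 5 else 4) ∧
      ∀ χ ∈ R.Z, ((if c % 5 = 0 then 4 * 5 else 4 : ℕ) : ℤ) ∣ dg χ - ival z χ := by
  subst hcz
  rw [cOK, decide_eq_true ⟨Nat.mod_eq_zero_of_dvd h, not_dvd_cent hc hz⟩, Bool.true_and, bimp_iff,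
    decide_eq_true_eq]
  split_ifs with h5
  · obtain ⟨w, hw⟩ := exists_conj_V U (t := z) (by rw [hz]; norm_num) (Nat.dvd_of_mod_eq_zero h5)
    refine ⟨fun _ => ?_, by norm_num, fun χ hχ => R.four_mul_dvd (perfect hc) hχ hz hw⟩
    rw [centOK_of U hw fun e => by simp [e] at hz, Bool.and_true, decide_eq_true_eq]
    refine Nat.mod_eq_zero_of_dvd ?_
    rw [← hz, ← H36.orderOf_eq_of_isConj hw, orderOf_coe, orderOf_coe]
    exact orderOf_dvd_natCard w
  · exact ⟨fun h => absurd h h5, by norm_num, fun χ _ => four_dvd (perfect hc) χ hz⟩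

theorem no76 {U : Setup G 5} (R : PB U) (he : U.V.index = 4) {K : List (IrrCharacter G)}
    (hK : R.Z.val = K) (hl : K.map dg = [76, 76, 816, 969]) : False := by
  have := Fintype.ofFinite G
  have hG := perfect hc
  obtain ⟨S⟩ : Nonempty (Setup G 17) := exists_setup' (by rw [hc]; norm_num) (by rw [hc]; norm_num)
  obtain ⟨P⟩ := nonempty_PB hG S
  obtain ⟨hV, he', -⟩ := block17 hc P
  obtain ⟨z, hz⟩ := exists_prime_orderOf_dvd_card' (G := G) 2 (by rw [hc]; norm_num)
  obtain ⟨a, b, c, d, rfl, ha, hb, hc', hd⟩ : ∃ a b c d, K = [a, b, c, d] ∧ dg a = 76 ∧ dg b = 76 ∧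
      dg c = 816 ∧ dg d = 969 := by
    rcases K with _ | ⟨a, _ | ⟨b, _ | ⟨c, _ | ⟨d, _ | _⟩⟩⟩⟩ <;> simp at hl
    exact ⟨a, b, c, d, rfl, hl⟩
  have hm : ∀ χ ∈ [a, b, c, d], χ ∈ R.Z := fun χ h => (mem_list hK).mpr h
  have hv : ∀ χ ∈ R.Z, (χ : G → ℂ) z = ival z χ := fun χ _ => (ival_inv hG (sq_one hz) χ).1
  obtain ⟨k, hk⟩ : (invJ U z).Nonempty := by
    rw [Finset.nonempty_iff_ne_empty]
    intro h0
    have h1 := R.quad (sq_one hz) hv (L := 15504) fun χ hχ => by
      have := (mem_list hK).mp hχ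
      simp only [List.mem_cons, List.not_mem_nil, or_false] at this
      rcases this with rfl | rfl | rfl | rfl <;> simp [*]
    have h2 := R.lin_int (g := z) (by rw [hz]; norm_num) hv
    have h3 := abs_lt.mp (abs_lt_of_simple hG (R.ne_triv (hm a (by simp)))
      (fun e => by simp [e] at hz) (hv a (hm a (by simp))))
    have h4 : (Nat.card U.V : ℤ) ≠ 0 := by exact_mod_cast Nat.card_pos.ne'
    have h5 : ((centralizer ({z} : Set G)).index : ℤ) ≠ 0 := by
      exact_mod_cast index_ne_zero_of_finite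
    rw [h0, Finset.card_empty, sum_list hK, Nat.cast_zero, zero_pow two_ne_zero, mul_zero, zero_mul,
      mul_eq_zero, mul_eq_zero, or_iff_left (pow_ne_zero _ h5), or_iff_left h4] at h1
    rw [sum_list hK] at h2
    simp only [List.map_cons, List.sum_cons, List.map_nil, List.sum_nil, ha, hb, hc', hd, sgn,
      Nat.reduceMod, Nat.reduceDiv] at h1 h2 h3
    simp at h1 h2
    generalize ival z a = x at *
    generalize ival z b = y at *
    generalize ival z c = u at *
    generalize ival z d = w at *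
    obtain rfl : w = 1 + x + y + u := by omega
    have h6 : 0 < (x - 76) ^ 2 := by have : x - 76 ≠ 0 := by omega
                                     positivity
    nlinarith [sq_nonneg (y - 76), sq_nonneg (u - 816), sq_nonneg (x - y),
      sq_nonneg (204 * x - 19 * u), sq_nonneg (204 * y - 19 * u)]
  obtain ⟨hk1, hk2⟩ := mem_invJ.mp hk
  have h1 : ∀ χ ∈ R.Z, ∀ m, Odd m → dg χ = 5 * m + 1 → H6.fsIndicator (χ : G → ℂ) ≠ -1 :=
    fun χ hχ m h1 h2 => fs_ne_neg U (sq_of_conj (sq_one hz) hk1) (mul_xp hk2) χ (δ := 1)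
      (fun i hi => by
        rw [R.val_sing hχ (Or.inl (by omega)) (by simpa using U.dvd_orderOf_xp_mul hi 1), sgn,
          if_pos (by omega)]) h1 (by rw [h2]; simp)
  have h2 : ∀ χ ∈ R.Z, dg χ = 76 → H6.fsIndicator (χ : G → ℂ) = 1 := fun χ hχ h =>
    (H6.fsIndicator_eq_one_or_neg_one_of_real χ.2 (real_exc P hV (by rw [he']; norm_num)
      (by rw [h]; norm_num) (by rw [h]; decide))).resolve_right (h1 χ hχ 15 (by decide) h)
  have h3 := fs_rel R he
  have h4 := h1 c (hm c (by simp)) 163 (by decide) hc'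
  rw [sum_list hK] at h3
  simp only [List.map_cons, List.sum_cons, List.map_nil, List.sum_nil, ha, hb, hc', hd, sgn,
    Nat.reduceMod, h2 a (hm a (by simp)) ha, h2 b (hm b (by simp)) hb] at h3
  rcases H6.fsIndicator_trichotomy c.2 with h | h | h <;>
    rcases H6.fsIndicator_trichotomy d.2 with h' | h' | h' <;> simp [h, h'] at h3 h4 <;>
    norm_num at h3

theorem block5 {U : Setup G 5} (R : PB U) : Nat.card U.V = 6 ∧ U.V.index = 2 ∧
    ∃ K : List (IrrCharacter G), R.Z.val = K ∧ K.map dg = [323, 324] := by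
  have hG := perfect hc
  obtain ⟨S⟩ : Nonempty (Setup G 17) := exists_setup' (by rw [hc]; norm_num) (by rw [hc]; norm_num)
  obtain ⟨T⟩ : Nonempty (Setup G 19) := exists_setup' (by rw [hc]; norm_num) (by rw [hc]; norm_num)
  obtain ⟨P⟩ := nonempty_PB hG S
  obtain ⟨Q⟩ := nonempty_PB hG T
  obtain ⟨v19, e19⟩ := block19 hc T
  obtain ⟨v17, e17, t, ht, L, hL, hl⟩ := block17 hc P
  obtain ⟨K, hK, h⟩ := R.optS_sound hG hc hps hps' hDD s5
    (decide_eq_true ⟨fun h => not_dvd_V S v17 U (by norm_num) (Nat.dvd_of_mod_eq_zero h),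
      fun h => not_dvd_V T v19 U (by norm_num) (Nat.dvd_of_mod_eq_zero h)⟩)
    (fun χ hχ => decide_eq_true ⟨e19 ▸ (Q.trace_all v19 χ).2, e17 ▸ (P.trace_all v17 χ).2⟩)
    (by simpa using ⟨R.holds_cross Q v19 (by norm_num) rfl e19,
      R.holds_cross P v17 (by norm_num) rfl e17⟩) (by simp only [List.forall_mem_cons]; norm_num)
  rw [Bool.or_eq_true, decide_eq_true_eq] at h
  rcases h with (h | h) | h
  · exact (no76 hc R h.1 hK h.2).elim
  · exact ⟨h.1, h.2.1, K, hK, h.2.2⟩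
  exfalso
  have h1 := bimp_iff.mp h (by
    rw [Bool.and_eq_true, allL_iff, anyL_iff, List.forall_mem_map]
    refine ⟨fun χ hχ => decide_eq_true fun hn => ?_, t, ht, allL_iff.mpr (List.forall_mem_map.mpr
      fun χ hχ => decide_eq_true (P.dg_mem v17 hL hl (R.ne_triv ((mem_list hK).mpr hχ))))⟩
    have hχ := (mem_list hK).mpr hχ
    rw [← U.card_centralizer]
    exact frc_of hc (R.ne_triv hχ) (by rw [U.hx]; norm_num) (R.val_sing hχ hn (by rw [U.hx])))
  have key : ∀ {z : G} {m : ℕ}, orderOf z = 2 → z5 (Nat.card U.V) U.V.index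
      (Nat.card (centralizer ({z} : Set G))) m (K.map dg) (fun k => z17
        (Nat.card (centralizer ({z} : Set G))) U.V.index k fun _ => false) = true → 0 < m →
      ¬ ∀ χ ∈ R.Z, (m : ℤ) ∣ dg χ - ival z χ := fun hz h hm hm' => by
    obtain ⟨K', hK', h2⟩ := z5_sound hc R hz rfl rfl rfl hK rfl h hm hm'
    obtain ⟨-, -, h3⟩ := z17_sound hc P R hz rfl rfl hK' rfl h2
    exact absurd h3 (by simp)
  split_ifs at h1 with h2
  · obtain ⟨w, hw, hw'⟩ := exists_V_cent U Nat.prime_two (Nat.dvd_of_mod_eq_zero h2.1)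
      (Nat.dvd_of_mod_eq_zero h2.2)
    exact key hw (bimp_iff.mp (allD_spec ps _ h1 hps _ (hps' ▸ cent_dvd hc w)) (by
      rw [hw', decide_eq_true (not_dvd_cent hc hw)]; rfl)) (by norm_num)
      fun χ hχ => R.four_mul_dvd hG hχ hw (IsConj.refl _)
  · obtain ⟨z, hz, hz'⟩ := exists_central (G := G) (q := 2) (a := 6) Nat.prime_two
      (by rw [hc]; norm_num)
    obtain ⟨h3, h4, h5⟩ := cOK_of hc R hz rfl hz'
    exact key hz (bimp_iff.mp (allD_spec ps _ h1 hps _ (hps' ▸ cent_dvd hc z)) h3) h4 h5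

theorem zcol {T : Setup G 19} (Q : PB T) {z : G} (hz : orderOf z = 2)
    (hz' : 128 ∣ Nat.card (centralizer ({z} : Set G))) :
    Nat.card (centralizer ({z} : Set G)) = 1920 ∧ (∀ χ ∈ Q.Z, ival z χ = fz (dg χ)) ∧
      960 ≤ ∑ χ ∈ Q.Z, mu 19 T.V.index (dg χ) * ival z χ ^ 2 := by
  have hG := perfect hc
  obtain ⟨S⟩ : Nonempty (Setup G 17) := exists_setup' (by rw [hc]; norm_num) (by rw [hc]; norm_num)
  obtain ⟨U⟩ : Nonempty (Setup G 5) := exists_setup' (by rw [hc]; norm_num) (by rw [hc]; norm_num)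
  obtain ⟨P⟩ := nonempty_PB hG S
  obtain ⟨R⟩ := nonempty_PB hG U
  obtain ⟨v19, e19⟩ := block19 hc T
  obtain ⟨v17, e17, -⟩ := block17 hc P
  obtain ⟨v5, e5, K, hK, hk⟩ := block5 hc R
  obtain ⟨h3, h4, h5⟩ := cOK_of hc R hz rfl hz'
  rw [v5, e5] at h3
  obtain ⟨K', hK', h6⟩ := z5_sound hc R hz rfl v5 e5 hK hk
    (bimp_iff.mp (allD_spec ps _ s6 hps _ (hps' ▸ cent_dvd hc z)) h3) h4 h5
  obtain ⟨cz, k5⟩ := of_decide_eq_true h6
  obtain ⟨L, hL, h7⟩ := z17_sound hc P R hz cz e5 hK' k5 s19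
  rw [z19, forceL_eq, forceZ_eq, List.map_map] at h7
  obtain ⟨M, hM, h8⟩ := Q.optS_sound hG hc hps hps' hDD h7 (decide_eq_true v19)
    (fun χ hχ => decide_eq_true (P.dg_mem v17 hL rfl (Q.ne_triv hχ))) (by
      rw [List.forall_mem_cons, List.forall_mem_map]
      refine ⟨Q.holds_cross P v17 (by norm_num) rfl e17, fun d hd => ?_⟩
      rw [List.mem_filter, decide_eq_true_eq] at hd
      exact count_eq Q P v19 v17 hL rfl e17 hd.2.2.2.2 hd.2.1 hd.2.2.2.1 hd.2.2.1)
    (by simp only [List.forall_mem_cons]; norm_num)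
  obtain ⟨M', hM', h9⟩ := Q.colS2_sound hG rfl v19 hc hz cz hM rfl h8 (by norm_num)
    (fun χ _ => four_dvd hG χ hz)
    (fun χ hχ => decide_eq_true (P.mem_col v17 hL (by rw [hz]; norm_num) rfl (Q.ne_triv hχ))) (by
      rw [List.forall_mem_cons]
      refine ⟨?_, holds_cntAll Q hM rfl rfl _⟩
      have := holds_normC Q P v19 (fun χ => ⟨_, (ival_inv hG (sq_one hz) χ).1⟩)
        (by rw [hz]; norm_num) (by rw [hz]; norm_num) hL rfl e17
      rwa [cz] at this) (by simp only [List.forall_mem_cons]; norm_num)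
  obtain ⟨h10, h11⟩ := of_decide_eq_true h9
  rw [List.map_map] at h11
  exact ⟨cz, fun χ hχ => h10 _ (List.mem_map_of_mem ((mem_list hM').mp hχ)), h11.trans_eq (sum_list hM' _).symm⟩

theorem card_cent {z : G} (hz : orderOf z = 2) (hz' : 128 ∣ Nat.card (centralizer ({z} : Set G))) :
    Nat.card (centralizer ({z} : Set G)) = 1920 := by
  obtain ⟨T⟩ : Nonempty (Setup G 19) := exists_setup' (by rw [hc]; norm_num) (by rw [hc]; norm_num)
  obtain ⟨Q⟩ := nonempty_PB (perfect hc) T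
  exact (zcol hc Q hz hz').1

theorem conj_cent {z t : G} (hz : orderOf z = 2) (hz' : 128 ∣ Nat.card (centralizer ({z} : Set G)))
    (ht : orderOf t = 2) (ht' : 128 ∣ Nat.card (centralizer ({t} : Set G))) : IsConj z t := by
  classical
  by_contra h
  have hG := perfect hc
  obtain ⟨T⟩ : Nonempty (Setup G 19) := exists_setup' (by rw [hc]; norm_num) (by rw [hc]; norm_num)
  obtain ⟨Q⟩ := nonempty_PB hG T
  obtain ⟨h1, h2, h3⟩ := zcol hc Q hz hz'
  obtain ⟨h4, h5, -⟩ := zcol hc Q ht ht'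
  have iz := fun χ : IrrCharacter G => (⟨_, (ival_inv hG (sq_one hz) χ).1⟩ : ∃ b : ℤ, _ = (b : ℂ))
  have it := fun χ : IrrCharacter G => (⟨_, (ival_inv hG (sq_one ht) χ).1⟩ : ∃ b : ℤ, _ = (b : ℂ))
  have e1 := col_int iz iz
  have e2 := col_int it it
  have e3 := col_int iz it
  rw [if_pos (IsConj.refl _), h1] at e1
  rw [if_pos (IsConj.refl _), h4] at e2
  rw [if_neg h] at e3
  have e4 := Q.sum_all (block19 hc T).1 (fun χ => (ival z χ + ival t χ) ^ 2) fun χ hχ => by
    rw [Q.ival_Y (by rw [hz]; norm_num) hχ, Q.ival_Y (by rw [ht]; norm_num) hχ]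
  rw [Finset.sum_congr (s₁ := Q.Z) rfl
    (g := fun χ => 4 * (mu 19 T.V.index (dg χ) * ival z χ ^ 2)) fun χ hχ => by
      rw [h5 χ hχ, ← h2 χ hχ, Int.cast_id]; ring, ← Finset.mul_sum, ival_triv, ival_triv,
    Finset.sum_congr (s₁ := Finset.univ) rfl (g := fun χ => ival z χ * ival z χ +
      ival t χ * ival t χ + 2 * (ival z χ * ival t χ)) fun χ _ => by ring,
    Finset.sum_add_distrib, Finset.sum_add_distrib, ← Finset.mul_sum, e1, e2, e3] at e4
  have := Finset.sum_nonneg (s := Q.R) fun χ _ => sq_nonneg (ival z χ + ival t χ)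
  omega

theorem five {x : G} (hx : orderOf x = 5) : Nat.card (centralizer ({x} : Set G)) = 30 ∧
    Nat.card (normalizer ((zpowers x : Subgroup G) : Set G)) = 60 := by
  obtain ⟨U, rfl⟩ := exists_setup hx (by rw [hc]; norm_num)
  obtain ⟨R⟩ := nonempty_PB (perfect hc) U
  obtain ⟨v5, e5, -⟩ := block5 hc R
  rw [U.card_centralizer, U.card_normalizer, ← U.V.card_mul_index, v5, e5]
  exact ⟨rfl, rfl⟩

end Cfsg.Agent.H17.J3
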