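import Mathlib
import Cfsg.Agent.S3430
import Cfsg.Agent.H5.Complete

/-! Transitive `p'`-linear groups in which all elements with cyclic centraliser are conjugate. -/

set_option autoImplicit false
set_option linter.unusedSectionVars false
set_option linter.style.haveILetI false

namespace Cfsg.Agent.H17.K3

open Subgroup Module Polynomial

variable {p : ℕ} [hp : Fact p.Prime] {V : Type*} [AddCommGroup V] [Module (ZMod p) V] [Finite V]
  {E : Type*} [Group E] [Finite E] (ρ : E →* Module.End (ZMod p) V)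

/-- `g` acts irreducibly. -/
def Ir (g : E) : Prop := ∀ U : Submodule (ZMod p) V, (∀ v ∈ U, ρ g v ∈ U) → U = ⊥ ∨ U = ⊤

variable {ρ}

theorem Ir.of_pow {g : E} {k : ℕ} (h : Ir ρ (g ^ k)) : Ir ρ g := fun U hU => h U fun v hv => by
  induction k with
  | zero => simpa using hv
  | succ k ih =>
    clear h ih
    induction k with
    | zero => simpa using hU v hv
    | succ k ih => rw [pow_succ', map_mul]; exact hU _ ih

theorem Ir.dom [Nontrivial V] {g : E} (h : Ir ρ g) :
    IsDomain (Subalgebra.centralizer (ZMod p) {ρ g}) := by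
  have key : ∀ x : Subalgebra.centralizer (ZMod p) {ρ g}, x ≠ 0 → LinearMap.ker x.1 = ⊥ := by
    intro x hx
    refine (h _ fun v hv => ?_).resolve_right fun e => hx (Subtype.ext (LinearMap.ker_eq_top.1 e))
    have := (Subalgebra.mem_centralizer_iff _).1 x.2 _ rfl
    rw [LinearMap.mem_ker] at hv ⊢
    rw [← Module.End.mul_apply, ← this, Module.End.mul_apply, hv, map_zero]
  have : NoZeroDivisors (Subalgebra.centralizer (ZMod p) {ρ g}) := ⟨fun {a b} hab => by
    by_contra hne
    push Not at hne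
    refine hne.2 (Subtype.ext (LinearMap.ext fun v => ?_))
    have h1 : a.1 (b.1 v) = 0 := congrArg (fun f : Module.End (ZMod p) V => f v)
      (congrArg Subtype.val hab)
    have h2 := key a hne.1
    rw [LinearMap.ker_eq_bot'] at h2
    exact h2 _ h1⟩
  exact NoZeroDivisors.to_isDomain _

theorem fin_end : Finite (Module.End (ZMod p) V) :=
  Finite.of_injective (fun f : Module.End (ZMod p) V => (f : V → V)) DFunLike.coe_injective

theorem Ir.cyc [Nontrivial V] (hρ : Function.Injective ρ) {g : E} (h : Ir ρ g) :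
    IsCyclic (centralizer {g}) := by
  have := h.dom
  have := fin_end (p := p) (V := V)
  have hF := Finite.isDomain_to_isField (Subalgebra.centralizer (ZMod p) {ρ g})
  letI : CommRing (Subalgebra.centralizer (ZMod p) {ρ g}) :=
    { (inferInstance : Ring (Subalgebra.centralizer (ZMod p) {ρ g})) with mul_comm := hF.mul_comm }
  let f : centralizer {g} →* Subalgebra.centralizer (ZMod p) {ρ g} :=
    { toFun := fun x => ⟨ρ x, (Subalgebra.mem_centralizer_iff _).2 (by
        rintro _ rfl
        rw [← map_mul, ← map_mul, mem_centralizer_singleton_iff.1 x.2])⟩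
      map_one' := Subtype.ext (by simp)
      map_mul' := fun a b => Subtype.ext (by simp) }
  exact isCyclic_of_injective_ringHom f fun a b e => Subtype.ext (hρ (congrArg Subtype.val e))

theorem aeval_conj {A : Type*} [Ring A] [Algebra (ZMod p) A] {a b x : A} (h1 : a * b = 1)
    (h2 : b * a = 1) (f : (ZMod p)[X]) : aeval (a * x * b) f = a * aeval x f * b := by
  have hk : ∀ k : ℕ, (a * x * b) ^ k = a * x ^ k * b := fun k => by
    induction k with
    | zero => simp [h1]
    | succ k ih =>
      rw [pow_succ, ih, pow_succ]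
      calc a * x ^ k * b * (a * x * b) = a * x ^ k * (b * a) * x * b := by noncomm_ring
        _ = _ := by rw [h2]; noncomm_ring
  induction f using Polynomial.induction_on' with
  | add f g hf hg => rw [map_add, map_add, hf, hg, mul_add, add_mul]
  | monomial k c =>
    rw [aeval_monomial, aeval_monomial, hk, ← Algebra.smul_def, ← Algebra.smul_def]
    simp

theorem Ir.le_finrank [Nontrivial V] (hρ : Function.Injective ρ) {g : E} (h : Ir ρ g)
    (hc : ∀ i, 1 ≤ i → i < orderOf g → IsConj g (g ^ i)) :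
    orderOf g - 1 ≤ finrank (ZMod p) V := by
  classical
  have := h.dom
  have := fin_end (p := p) (V := V)
  have hF := Finite.isDomain_to_isField (Subalgebra.centralizer (ZMod p) {ρ g})
  letI : CommRing (Subalgebra.centralizer (ZMod p) {ρ g}) :=
    { (inferInstance : Ring (Subalgebra.centralizer (ZMod p) {ρ g})) with mul_comm := hF.mul_comm }
  let x : ℕ → Subalgebra.centralizer (ZMod p) {ρ g} := fun i => ⟨ρ (g ^ i),
    (Subalgebra.mem_centralizer_iff _).2 (by
      rintro _ rfl
      rw [← map_mul, ← map_mul, pow_mul_comm'])⟩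
  set f := (ρ g).charpoly with hf
  have hm : f.Monic := LinearMap.charpoly_monic _
  have h1 : ((Finset.Ico 1 (orderOf g)).image x).card = orderOf g - 1 := by
    rw [Finset.card_image_of_injOn, Nat.card_Ico]
    intro i hi j hj e
    simp only [Finset.coe_Ico, Set.mem_Ico] at hi hj
    exact pow_injOn_Iio_orderOf hi.2 hj.2 (hρ (congrArg Subtype.val e))
  rw [← h1, ← LinearMap.charpoly_natDegree (ρ g), ← hf,
    ← hm.natDegree_map (algebraMap (ZMod p) (Subalgebra.centralizer (ZMod p) {ρ g}))]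
  refine card_le_degree_of_subset_roots fun y hy => ?_
  obtain ⟨i, hi, rfl⟩ := Finset.mem_image.1 (show y ∈ (Finset.Ico 1 (orderOf g)).image x from hy)
  rw [Finset.mem_Ico] at hi
  rw [mem_roots (hm.map _).ne_zero, IsRoot.def, eval_map_algebraMap]
  apply Subtype.ext
  rw [aeval_subalgebra_coe]
  obtain ⟨c, hc⟩ := isConj_iff.1 (hc i hi.1 hi.2)
  change aeval (ρ (g ^ i)) f = 0
  rw [← hc, map_mul, map_mul, aeval_conj (by rw [← map_mul]; simp) (by rw [← map_mul]; simp), hf,
    LinearMap.aeval_self_charpoly]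
  simp

theorem card_sub (U : Submodule (ZMod p) V) : Nat.card U = p ^ finrank (ZMod p) U := by
  rw [Module.natCard_eq_pow_finrank (K := ZMod p), Nat.card_zmod]

theorem card_V : Nat.card V = p ^ finrank (ZMod p) V := by
  rw [Module.natCard_eq_pow_finrank (K := ZMod p), Nat.card_zmod]

theorem ir_of_zs (hρ : Function.Injective ρ) {r : ℕ} (hr : r.Prime)
    (h1 : r ∣ p ^ finrank (ZMod p) V - 1)
    (h2 : ∀ i, 1 ≤ i → i < finrank (ZMod p) V → ¬ r ∣ p ^ i - 1) {u : E} (hu : orderOf u = r) :
    Ir ρ u := by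
  classical
  have : Fact r.Prime := ⟨hr⟩
  have key : ∀ U : Submodule (ZMod p) V, (∀ v ∈ U, ρ u v ∈ U) →
      Nat.card U ≡ Nat.card (U ⊓ LinearMap.ker (ρ u - 1) : Submodule (ZMod p) V) [MOD r] := by
    intro U hU
    have := Fintype.ofFinite U
    let f : Function.End U := fun v => ⟨ρ u v, hU _ v.2⟩
    have hf : ∀ k : ℕ, ∀ v : U, ((f ^ k) v : V) = ρ (u ^ k) v := fun k => by
      induction k with
      | zero => intro v; simp; rfl
      | succ k ih => intro v; rw [pow_succ, pow_succ, map_mul]; exact ih (f v)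
    have h3 := Equiv.Perm.card_fixedPoints_modEq (f := f) (p := r) (n := 1) (by
      funext v
      apply Subtype.ext
      rw [hf, pow_one, ← hu, pow_orderOf_eq_one, map_one]; rfl)
    rw [← Nat.card_eq_fintype_card, ← Nat.card_eq_fintype_card] at h3
    refine h3.trans ?_
    rw [Nat.card_congr (β := (U ⊓ LinearMap.ker (ρ u - 1) : Submodule (ZMod p) V))
      ⟨fun v => ⟨v.1.1, v.1.2, by
          have : ρ u v.1.1 = v.1.1 := congrArg Subtype.val v.2
          simpa [sub_eq_zero] using this⟩,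
        fun v => ⟨⟨v.1, v.2.1⟩, Subtype.ext (by simpa [sub_eq_zero] using v.2.2)⟩,
        fun _ => rfl, fun _ => rfl⟩]
  have hz : ∀ U : Submodule (ZMod p) V, Nat.card U ≡ 1 [MOD r] → U = ⊥ ∨ U = ⊤ := by
    intro U hU
    rw [card_sub] at hU
    have h3 := (Nat.modEq_iff_dvd' (Nat.one_le_pow _ _ hp.out.pos)).1 hU.symm
    by_contra hne
    push Not at hne
    exact h2 _ (Nat.one_le_iff_ne_zero.2 fun e => hne.1 (Submodule.finrank_eq_zero.1 e))
      (Submodule.finrank_lt hne.2) h3
  have hk : LinearMap.ker (ρ u - 1) = ⊥ := by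
    have h3 := key ⊤ fun _ _ => trivial
    rw [top_inf_eq, card_sub, finrank_top] at h3
    refine (hz _ (h3.symm.trans
      ((Nat.modEq_iff_dvd' (Nat.one_le_pow _ _ hp.out.pos)).2 h1).symm)).resolve_right fun e => ?_
    rw [LinearMap.ker_eq_top, sub_eq_zero, ← map_one ρ] at e
    rw [hρ e, orderOf_one] at hu
    exact hr.one_lt.ne hu
  intro U hU
  have h3 := key U hU
  rw [hk, inf_bot_eq] at h3
  exact hz U (by simpa using h3)

/-- The hypotheses. -/
structure Hy (ρ : E →* Module.End (ZMod p) V) : Prop where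
  inj : Function.Injective ρ
  cop : ¬ p ∣ Nat.card E
  tr : ∀ v w : V, v ≠ 0 → w ≠ 0 → ∃ e, ρ e v = w
  cj : ∀ g h : E, g ≠ 1 → h ≠ 1 → IsCyclic (centralizer {g}) → IsCyclic (centralizer {h}) →
    IsConj g h

theorem Hy.index (h : Hy ρ) {v : V} (hv : v ≠ 0) :
    ∃ S : Subgroup E, (∀ e, e ∈ S ↔ ρ e v = v) ∧ S.index = Nat.card V - 1 := by
  classical
  letI : MulAction E V := MulAction.compHom V ρ
  refine ⟨MulAction.stabilizer E v, fun e => Iff.rfl, ?_⟩
  rw [MulAction.index_stabilizer]
  have : MulAction.orbit E v = {0}ᶜ := by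
    ext w
    constructor
    · rintro ⟨e, rfl⟩ h0
      apply hv
      have h1 : ρ e v = 0 := h0
      have := congrArg (ρ e⁻¹) h1
      rwa [← Module.End.mul_apply, ← map_mul, inv_mul_cancel, map_one, map_zero] at this
    · intro hw
      exact h.tr v w hv hw
  rw [this, Set.ncard_compl, Set.ncard_singleton]

theorem Hy.dvd [Nontrivial V] (h : Hy ρ) : Nat.card V - 1 ∣ Nat.card E := by
  obtain ⟨v, hv⟩ := exists_ne (0 : V)
  obtain ⟨S, -, hS⟩ := h.index hv
  exact hS ▸ S.index_dvd_card

theorem Hy.zs [Nontrivial V] (h : Hy ρ) {r : ℕ} (hr : r.Prime)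
    (h1 : r ∣ p ^ finrank (ZMod p) V - 1)
    (h2 : ∀ i, 1 ≤ i → i < finrank (ZMod p) V → ¬ r ∣ p ^ i - 1) :
    (∃ u : E, Nat.card (centralizer {u}) = r) ∧ r ∣ Nat.card E ∧ ¬ r ^ 2 ∣ Nat.card E ∧
      r - 1 ≤ finrank (ZMod p) V := by
  have : Fact r.Prime := ⟨hr⟩
  have hd : r ∣ Nat.card E := h1.trans (card_V (p := p) (V := V) ▸ h.dvd)
  have hne : ∀ u : E, orderOf u = r → u ≠ 1 := fun u hu e => by
    rw [e, orderOf_one] at hu; exact hr.one_lt.ne hu
  have hir : ∀ u : E, orderOf u = r → Ir ρ u := fun u hu => ir_of_zs h.inj hr h1 h2 hu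
  have hC : ∀ u : E, orderOf u = r → Nat.card (centralizer {u}) = r := fun u hu => by
    have hc := (hir u hu).cyc h.inj
    obtain ⟨y, hy⟩ := IsCyclic.exists_monoid_generator (α := centralizer {u})
    obtain ⟨k, hk⟩ := hy ⟨u, mem_centralizer_singleton_iff.2 rfl⟩
    have hk' : (y : E) ^ k = u := congrArg Subtype.val hk
    have h3 : Ir ρ (y : E) := Ir.of_pow (hk' ▸ hir u hu)
    have h4 := h.cj y u (fun e => hne u hu (by rw [← hk', e, one_pow])) (hne u hu) (h3.cyc h.inj) hc
    obtain ⟨c, hc⟩ := isConj_iff.1 h4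
    rw [← orderOf_eq_card_of_forall_mem_powers hy, ← Subgroup.orderOf_coe, ← hu]
    exact ((MulAut.conj c).orderOf_eq y).symm.trans (congrArg orderOf hc)
  obtain ⟨u, hu⟩ := exists_prime_orderOf_dvd_card' r hd
  refine ⟨⟨u, hC u hu⟩, hd, fun h3 => ?_, ?_⟩
  · obtain ⟨R, hR⟩ := Sylow.exists_subgroup_card_pow_prime r h3
    have hRp : IsPGroup r R := IsPGroup.of_card hR
    have : Nontrivial R := Finite.one_lt_card_iff_nontrivial.1 (by
      rw [hR]; exact Nat.one_lt_pow two_ne_zero hr.one_lt)
    have := hRp.center_nontrivial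
    obtain ⟨k, hk⟩ := (hRp.to_subgroup (center R)).exists_card_eq
    have hk0 : r ∣ Nat.card (center R) := by
      rw [hk]
      refine dvd_pow_self r fun e => ?_
      rw [e, pow_zero] at hk
      exact Finite.one_lt_card.ne' hk
    obtain ⟨z, hz⟩ := exists_prime_orderOf_dvd_card' r hk0
    have h4 := hC ((z : R) : E) (by rw [Subgroup.orderOf_coe, Subgroup.orderOf_coe, hz])
    have h5 : R ≤ centralizer {((z : R) : E)} := fun x hx => mem_centralizer_singleton_iff.2
      (congrArg Subtype.val (mem_center_iff.1 z.2 ⟨x, hx⟩))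
    have h6 := Nat.le_of_dvd hr.pos (h4 ▸ hR ▸ card_dvd_of_le h5)
    nlinarith [hr.two_le]
  · rw [← hu]
    refine (hir u hu).le_finrank h.inj fun i hi1 hi2 => ?_
    have h3 : orderOf (u ^ i) = r := by
      rw [Nat.Coprime.orderOf_pow, hu]
      rw [hu] at hi2 ⊢
      exact (Nat.Prime.coprime_iff_not_dvd hr).2 fun e => absurd (Nat.le_of_dvd hi1 e) hi2.not_ge
    exact h.cj _ _ (hne u hu) (hne _ h3) ((hir u hu).cyc h.inj) ((hir _ h3).cyc h.inj)

theorem Hy.one (h : Hy ρ) (hn : finrank (ZMod p) V = 1) : Nat.card V ≤ 3 := by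
  have : Nontrivial V := Module.nontrivial_of_finrank_pos (R := ZMod p) (by omega)
  have hir : ∀ g : E, Ir ρ g := fun g U _ => by
    by_contra hne
    push Not at hne
    have h1 := Submodule.finrank_lt hne.2
    exact hne.1 (Submodule.finrank_eq_zero.1 (by omega))
  have hc := (hir 1).cyc h.inj
  have hcomm : ∀ a b : E, a * b = b * a := fun a b => by
    have := hc.isMulCommutative.is_comm.comm ⟨a, mem_centralizer_singleton_iff.2 (by simp)⟩
      ⟨b, mem_centralizer_singleton_iff.2 (by simp)⟩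
    exact congrArg Subtype.val this
  have h2 : Nat.card E ≤ 2 := by
    by_contra h3
    have := Fintype.ofFinite E
    rw [Nat.card_eq_fintype_card] at h3
    obtain ⟨a, b, c, hab, hac, hbc⟩ := Fintype.two_lt_card_iff.1 (not_le.1 h3)
    have key : ∀ x y : E, x ≠ 1 → y ≠ 1 → x = y := fun x y hx hy => by
      obtain ⟨c, hc⟩ := isConj_iff.1 (h.cj x y hx hy ((hir x).cyc h.inj) ((hir y).cyc h.inj))
      rw [← hc, hcomm c x, mul_inv_cancel_right]
    by_cases ha : a = 1
    · exact hbc (key b c (fun e => hab (ha.trans e.symm)) fun e => hac (ha.trans e.symm))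
    by_cases hb : b = 1
    · exact hac (key a c ha fun e => hbc (hb.trans e.symm))
    · exact hab (key a b ha hb)
  have := Nat.le_of_dvd Nat.card_pos h.dvd
  omega

theorem Hy.ss (h : Hy ρ) (g : E) : (ρ g).IsSemisimple := by
  have h0 : ((Nat.card E : ℕ) : ZMod p) ≠ 0 := fun e => h.cop ((ZMod.natCast_eq_zero_iff _ _).1 e)
  refine Module.End.isSemisimple_of_squarefree_aeval_eq_zero
    (p := X ^ Nat.card E - 1) (X_pow_sub_one_separable_iff.2 h0).squarefree ?_
  rw [map_sub, map_one, map_pow, aeval_X, ← map_pow, pow_card_eq_one', map_one, sub_self]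

theorem Hy.two (h : Hy ρ) (hn : finrank (ZMod p) V = 2) : False := by
  classical
  have : Nontrivial V := Module.nontrivial_of_finrank_pos (R := ZMod p) (by omega)
  have := Fintype.ofFinite E
  letI : MulAction E (Submodule (ZMod p) V) :=
    { smul := fun e U => U.map (ρ e)
      one_smul := fun U => by change U.map (ρ 1) = U; rw [map_one]; exact Submodule.map_id U
      mul_smul := fun a b U => by
        change U.map (ρ (a * b)) = (U.map (ρ b)).map (ρ a)
        rw [map_mul]; exact Submodule.map_comp _ _ U }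
  have hsm : ∀ (e : E) (U : Submodule (ZMod p) V), e • U = U.map (ρ e) := fun _ _ => rfl
  obtain ⟨v0, hv0⟩ := exists_ne (0 : V)
  let Ω := MulAction.orbit E (Submodule.span (ZMod p) {v0})
  have hΩ : ∀ U : Submodule (ZMod p) V, finrank (ZMod p) U = 1 → U ∈ Ω := fun U hU => by
    obtain ⟨v, hv, h1⟩ := finrank_eq_one_iff'.1 hU
    obtain ⟨e, he⟩ := h.tr v0 v hv0 fun e => hv (Subtype.ext e)
    refine ⟨e, ?_⟩
    change _ • _ = _
    rw [hsm, Submodule.map_span, Set.image_singleton, he]
    refine le_antisymm (Submodule.span_le.2 (by simp)) fun w hw => ?_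
    obtain ⟨c, hc⟩ := h1 ⟨w, hw⟩
    exact Submodule.mem_span_singleton.2 ⟨c, congrArg Subtype.val hc⟩
  have : Finite (Submodule (ZMod p) V) :=
    Finite.of_injective (fun U : Submodule (ZMod p) V => (U : Set V)) SetLike.coe_injective
  have := Fintype.ofFinite Ω
  have hb := MulAction.sum_card_fixedBy_eq_card_orbits_mul_card_group E Ω
  have h1 : Fintype.card (Quotient (MulAction.orbitRel E Ω)) = 1 := by
    have : Nonempty Ω := ⟨⟨_, MulAction.mem_orbit_self _⟩⟩
    rw [Fintype.card_eq_one_iff_nonempty_unique]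
    exact (MulAction.pretransitive_iff_unique_quotient_of_nonempty E Ω).1 inferInstance
  rw [h1, one_mul] at hb
  have hfx : ∀ (g : E) (U : Submodule (ZMod p) V) (hU : finrank (ZMod p) U = 1),
      (∀ v ∈ U, ρ g v ∈ U) → (⟨U, hΩ U hU⟩ : Ω) ∈ MulAction.fixedBy Ω g := fun g U hU hi => by
    refine Subtype.ext ?_
    change U.map (ρ g) = U
    refine Submodule.eq_of_le_of_finrank_le (by rintro _ ⟨v, hv, rfl⟩; exact hi v hv) ?_
    rw [hU, Nat.one_le_iff_ne_zero, Ne, Submodule.finrank_eq_zero]
    intro e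
    have h3 : g⁻¹ • g • U = ⊥ := by rw [hsm g, e, hsm, Submodule.map_bot]
    rw [inv_smul_smul] at h3
    rw [h3, finrank_bot] at hU
    exact zero_ne_one hU
  have h2 : ∀ g : E, ¬ Ir ρ g → 2 ≤ Fintype.card (MulAction.fixedBy Ω g) := fun g hg => by
    simp only [Ir, not_forall, not_or] at hg
    obtain ⟨U, hi, hU1, hU2⟩ := hg
    have hU : finrank (ZMod p) U = 1 := by
      have := Submodule.finrank_lt hU2
      have : finrank (ZMod p) U ≠ 0 := fun e => hU1 (Submodule.finrank_eq_zero.1 e)
      omega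
    obtain ⟨U', hi', hc⟩ := Module.End.isSemisimple_iff.1 (h.ss g) U hi
    have hU' : finrank (ZMod p) U' = 1 := by
      have := Submodule.finrank_add_eq_of_isCompl hc
      omega
    refine Fintype.one_lt_card_iff.2 ⟨⟨_, hfx g U hU hi⟩, ⟨_, hfx g U' hU' hi'⟩, fun e => hU1 ?_⟩
    have e' : U = U' := congrArg (fun x => x.1.1) e
    subst e'
    exact disjoint_self.1 hc.disjoint
  have h3 : 3 ≤ Fintype.card (MulAction.fixedBy Ω (1 : E)) := by
    let b := Module.finBasisOfFinrankEq (ZMod p) V hn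
    have hli := b.linearIndependent
    rw [show (b : Fin 2 → V) = ![b 0, b 1] by ext i; fin_cases i <;> rfl,
      LinearIndependent.pair_iff] at hli
    have n0 : b 0 ≠ 0 := b.ne_zero 0
    have n1 : b 1 ≠ 0 := b.ne_zero 1
    have n2 : b 0 + b 1 ≠ 0 := fun e => one_ne_zero (hli 1 1 (by simpa using e)).1
    have hsp : ∀ x y : V, Submodule.span (ZMod p) {x} = Submodule.span (ZMod p) {y} →
        ∃ c : ZMod p, c • y = x := fun x y e =>
      Submodule.mem_span_singleton.1 (e ▸ Submodule.mem_span_singleton_self x)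
    refine Fintype.two_lt_card_iff.2 ⟨⟨_, hfx 1 _ (finrank_span_singleton n0) (by simp)⟩,
      ⟨_, hfx 1 _ (finrank_span_singleton n1) (by simp)⟩,
      ⟨_, hfx 1 _ (finrank_span_singleton n2) (by simp)⟩, fun e => ?_, fun e => ?_, fun e => ?_⟩
    · obtain ⟨c, hc⟩ := hsp _ _ (congrArg (fun x => x.1.1) e)
      exact one_ne_zero (hli 1 (-c) (by rw [neg_smul, hc]; simp)).1
    · obtain ⟨c, hc⟩ := hsp _ _ (congrArg (fun x => x.1.1) e).symm
      exact one_ne_zero (hli (1 - c) 1 (by rw [sub_smul, hc]; simp)).2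
    · obtain ⟨c, hc⟩ := hsp _ _ (congrArg (fun x => x.1.1) e).symm
      exact one_ne_zero (hli 1 (1 - c) (by rw [sub_smul, hc]; simp)).1
  have hn1 : ¬ Ir ρ (1 : E) := fun hi => by
    rcases hi (Submodule.span (ZMod p) {v0}) (by simp) with e | e
    · exact hv0 (Submodule.span_singleton_eq_bot.1 e)
    · have := finrank_span_singleton (K := ZMod p) hv0
      rw [e, finrank_top] at this
      omega
  set K : Finset E := Finset.univ.filter fun g => Ir ρ g with hK
  have h4 : 2 * K.card ≤ Fintype.card E := by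
    rcases K.eq_empty_or_nonempty with e | ⟨g, hg⟩
    · simp [e]
    have hg' : Ir ρ g := (Finset.mem_filter.1 hg).2
    have g1 : g ≠ 1 := fun e => hn1 (e ▸ hg')
    have h5 : K.card ≤ (centralizer {g}).index := by
      rw [← H5.card_isConj_eq_index, Nat.card_eq_fintype_card, Fintype.card_subtype]
      refine Finset.card_le_card fun x hx => ?_
      have hx' : Ir ρ x := (Finset.mem_filter.1 hx).2
      simpa using h.cj g x g1 (fun e => hn1 (e ▸ hx')) (hg'.cyc h.inj) (hx'.cyc h.inj)
    have h6 : 2 ≤ Nat.card (centralizer {g}) := Finite.one_lt_card_iff_nontrivial.2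
      ⟨⟨g, mem_centralizer_singleton_iff.2 rfl⟩, 1, fun e => g1 (congrArg Subtype.val e)⟩
    have h7 := (centralizer {g}).card_mul_index
    rw [Nat.card_eq_fintype_card (α := E)] at h7
    nlinarith
  have h5 : ∑ g : E, ((if g ∈ K then 0 else 2) + if g = 1 then 1 else 0) ≤ Fintype.card E := by
    rw [← hb]
    refine Finset.sum_le_sum fun g _ => ?_
    by_cases e : g = 1
    · subst e
      rw [if_neg (by simpa [hK] using hn1), if_pos rfl]
      convert h3
    · rw [if_neg e, add_zero]
      split_ifs with e'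
      · exact Nat.zero_le _
      · convert h2 g (by simpa [hK] using e')
  rw [Finset.sum_add_distrib, Finset.sum_ite_eq', if_pos (Finset.mem_univ _), Finset.sum_ite,
    Finset.sum_const_zero, zero_add, Finset.sum_const, smul_eq_mul] at h5
  have h6 := Finset.card_filter_add_card_filter_not (s := Finset.univ) (fun g => g ∈ K)
  rw [Finset.filter_mem_eq_inter, Finset.univ_inter, Finset.card_univ] at h6
  omega

theorem Hy.three_four (h : Hy ρ) (hp3 : p = 3) (hn : finrank (ZMod p) V = 4) {u : E}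
    (hu : Nat.card (centralizer {u}) = 5) : False := by
  classical
  have : Nontrivial V := Module.nontrivial_of_finrank_pos (R := ZMod p) (by omega)
  have hV : Nat.card V = 81 := by rw [card_V (p := p), hn, hp3]; rfl
  have hd := h.dvd
  rw [hV] at hd
  have : Fact (Nat.Prime 2) := ⟨Nat.prime_two⟩
  obtain ⟨S⟩ : Nonempty (Sylow 2 E) := inferInstance
  have hS : ¬ 2 ∣ (S : Subgroup E).index := S.not_dvd_index
  have : Nontrivial S := (nontrivial_iff_ne_bot _).2
    (S.ne_bot_of_dvd_card ((by norm_num : 2 ∣ 81 - 1).trans hd))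
  have := S.isPGroup'.center_nontrivial
  obtain ⟨k, hk⟩ := (S.isPGroup'.to_subgroup (center S)).exists_card_eq
  have hk0 : 2 ∣ Nat.card (center S) := by
    rw [hk]
    refine dvd_pow_self 2 fun e => ?_
    rw [e, pow_zero] at hk
    exact Finite.one_lt_card.ne' hk
  obtain ⟨z0, hz⟩ := exists_prime_orderOf_dvd_card' 2 hk0
  set z : E := ((z0 : S) : E) with hz'
  have hzo : orderOf z = 2 := by rw [hz', Subgroup.orderOf_coe, Subgroup.orderOf_coe, hz]
  have hzz : ∀ v, ρ z (ρ z v) = v := fun v => by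
    rw [← Module.End.mul_apply, ← map_mul, ← pow_two, ← hzo, pow_orderOf_eq_one, map_one]; rfl
  have hzc : ∀ s ∈ (S : Subgroup E), ∀ v, ρ z (ρ s v) = ρ s (ρ z v) := fun s hs v => by
    have : s * z = z * s := congrArg Subtype.val (mem_center_iff.1 z0.2 ⟨s, hs⟩)
    rw [← Module.End.mul_apply, ← map_mul, ← this, map_mul, Module.End.mul_apply]
  have big : ∀ U : Submodule (ZMod p) V, (∀ s ∈ (S : Subgroup E), ∀ v ∈ U, ρ s v ∈ U) → U ≠ ⊥ →
      3 ≤ finrank (ZMod p) U := fun U hU hne => by
    obtain ⟨v, hvU, hv⟩ := (Submodule.ne_bot_iff U).1 hne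
    obtain ⟨T, hT, hTi⟩ := h.index hv
    rw [hV] at hTi
    have h1 : 16 ∣ T.relIndex S := by
      have h2 := relIndex_mul_index (inf_le_right : T ⊓ (S : Subgroup E) ≤ S)
      rw [inf_relIndex_right] at h2
      have h3 : 16 ∣ T.relIndex S * (S : Subgroup E).index := by
        rw [h2]
        exact ((by norm_num : 16 ∣ 81 - 1).trans hTi.symm.dvd).trans (index_dvd_of_le inf_le_left)
      exact (Nat.Coprime.pow_left 4
        ((Nat.Prime.coprime_iff_not_dvd Nat.prime_two).2 hS)).dvd_of_dvd_mul_right h3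
    have h2 : T.relIndex S ≤ Nat.card U := by
      let f : (S : Subgroup E) ⧸ T.subgroupOf S → U := fun q => ⟨ρ q.out v, hU _ q.out.2 v hvU⟩
      refine Nat.card_le_card_of_injective f fun a b e => ?_
      have e' : ρ a.out v = ρ b.out v := congrArg Subtype.val e
      rw [← a.out_eq, ← b.out_eq]
      refine QuotientGroup.eq.2 ((hT _).2 ?_)
      change ρ ((a.out : E)⁻¹ * b.out) v = v
      rw [map_mul, Module.End.mul_apply, ← e', ← Module.End.mul_apply, ← map_mul, inv_mul_cancel,
        map_one]; rfl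
    have h3 := (Nat.le_of_dvd (Nat.pos_of_ne_zero index_ne_zero_of_finite) h1).trans h2
    rw [card_sub] at h3
    by_contra h4
    have := Nat.pow_le_pow_right hp.out.pos (show finrank (ZMod p) U ≤ 2 by omega)
    have : p ^ 2 = 9 := by rw [hp3]; rfl
    omega
  have h2 : (2 : ZMod p) ≠ 0 := fun e => by
    have := (ZMod.natCast_eq_zero_iff 2 p).1 (by exact_mod_cast e)
    rw [hp3] at this
    omega
  have hA := big (LinearMap.ker (ρ z - 1)) (fun s hs v hv => by
    simp only [LinearMap.mem_ker, LinearMap.sub_apply, Module.End.one_apply, sub_eq_zero] at hv ⊢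
    rw [hzc s hs, hv]) fun e => by
      have h3 : ∀ v, ρ z v = -v := fun v => by
        have : v + ρ z v ∈ LinearMap.ker (ρ z - 1) := by simp [hzz, add_comm]
        rw [e, Submodule.mem_bot] at this
        exact eq_neg_of_add_eq_zero_right this
      have h4 : z ∈ centralizer {u} := mem_centralizer_singleton_iff.2 (h.inj (by
        ext v
        simp [h3]))
      have := orderOf_dvd_natCard _ h4
      rw [hzo, hu] at this
      omega
  have hB := big (LinearMap.ker (ρ z + 1)) (fun s hs v hv => by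
    simp only [LinearMap.mem_ker, LinearMap.add_apply, Module.End.one_apply] at hv ⊢
    rw [hzc s hs, ← map_add, hv, map_zero]) fun e => by
      have h3 : ρ z = ρ 1 := by
        ext v
        have : v - ρ z v ∈ LinearMap.ker (ρ z + 1) := by simp [hzz]
        rw [e, Submodule.mem_bot, sub_eq_zero] at this
        simpa using this.symm
      rw [h.inj h3, orderOf_one] at hzo
      omega
  have hdj : LinearMap.ker (ρ z - 1) ⊓ LinearMap.ker (ρ z + 1) = ⊥ := by
    rw [eq_bot_iff]
    rintro v ⟨h3, h4⟩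
    simp only [SetLike.mem_coe, LinearMap.mem_ker, LinearMap.sub_apply, LinearMap.add_apply,
      Module.End.one_apply, sub_eq_zero] at h3 h4
    rw [h3, ← two_smul (ZMod p)] at h4
    exact (smul_eq_zero.1 h4).resolve_left h2
  have h5 := Submodule.finrank_sup_add_finrank_inf_eq (LinearMap.ker (ρ z - 1))
    (LinearMap.ker (ρ z + 1))
  have h6 := Submodule.finrank_le (LinearMap.ker (ρ z - 1) ⊔ LinearMap.ker (ρ z + 1))
  rw [hdj, finrank_bot] at h5
  omega

theorem Hy.main (h : Hy ρ) (h2 : 2 ∣ Nat.card E) (hsq : ∃ a b, Nat.card E = a ^ 2 + b ^ 2) :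
    Nat.card V ≤ 3 := by
  have hp2 : p ≠ 2 := fun e => h.cop (e ▸ h2)
  rcases Nat.lt_or_ge (finrank (ZMod p) V) 3 with hn | hn
  · have : finrank (ZMod p) V = 0 ∨ finrank (ZMod p) V = 1 ∨ finrank (ZMod p) V = 2 := by omega
    rcases this with e | e | e
    · rw [card_V (p := p), e]; simp
    · exact h.one e
    · exact (h.two e).elim
  exfalso
  have : Nontrivial V := Module.nontrivial_of_finrank_pos (R := ZMod p) (by omega)
  have h7 : (p = 3 ∨ p = 5) → finrank (ZMod p) V ≠ 6 := fun hp' e => by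
    obtain ⟨-, h3, h4, -⟩ := h.zs (r := 7) (by norm_num)
      (by rw [e]; rcases hp' with rfl | rfl <;> norm_num) (by
        rw [e]
        intro i h1 h2
        rcases hp' with rfl | rfl <;> interval_cases i <;> norm_num)
    obtain ⟨a, b, hab⟩ := hsq
    rw [hab] at h3 h4
    have key : ∀ x y : ZMod 7, x ^ 2 + y ^ 2 = 0 → x = 0 ∧ y = 0 := by decide
    obtain ⟨ha, hb⟩ := key a b (by exact_mod_cast (ZMod.natCast_eq_zero_iff _ 7).2 h3)
    exact h4 (dvd_add (pow_dvd_pow_of_dvd ((ZMod.natCast_eq_zero_iff _ 7).1 ha) 2)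
      (pow_dvd_pow_of_dvd ((ZMod.natCast_eq_zero_iff _ 7).1 hb) 2))
  have h5 : ¬ (p = 3 ∧ finrank (ZMod p) V = 4) := fun ⟨e1, e2⟩ => by
    obtain ⟨⟨u, hu⟩, -⟩ := h.zs (r := 5) (by norm_num) (by rw [e2, e1]; norm_num) (by
      rw [e2, e1]
      intro i h1 h2
      interval_cases i <;> norm_num)
    exact h.three_four e1 e2 hu
  obtain ⟨r, hr, h1, h3, h4⟩ := S3430.result p (finrank (ZMod p) V) hp.out.two_le (by omega)
    (by omega) (by omega) (fun ⟨e1, e2⟩ => e2.elim (fun e => h5 ⟨e1, e⟩) (h7 (Or.inl e1)))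
    (fun ⟨e1, e2⟩ => h7 (Or.inr e1) e2)
  obtain ⟨-, -, h6, h8⟩ := h.zs hr h1 h3
  rcases h4 with h4 | h4
  · omega
  · exact h6 (h4.trans (card_V (p := p) (V := V) ▸ h.dvd))

end Cfsg.Agent.H17.K3
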