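import Cfsg.Agent.H86.OW2

/-! Character triples with exactly two irreducible characters. -/

set_option autoImplicit false
set_option linter.unusedSectionVars false

namespace Cfsg.Agent.H17.K3

open Cfsg Cfsg.Agent.H5 Cfsg.Agent.H89 Cfsg.Agent.H86.OW Subgroup ComplexConjugate

theorem sum_comp_surj {X E : Type*} [Group X] [Group E] [Fintype X] [Fintype E] (φ : X →* E)
    (hφ : Function.Surjective φ) (F : E → ℕ) :
    ∑ x, F (φ x) = Nat.card φ.ker * ∑ e, F e := by
  classical
  rw [← Finset.sum_fiberwise (s := Finset.univ) (g := φ), Finset.mul_sum]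
  refine Finset.sum_congr rfl fun e _ => ?_
  obtain ⟨x, rfl⟩ := hφ e
  rw [Finset.sum_congr rfl (g := fun _ => F (φ x)) fun y hy => by rw [(Finset.mem_filter.1 hy).2],
    Finset.sum_const, smul_eq_mul, ← Fintype.card_subtype, ← Nat.card_eq_fintype_card]
  congr 1
  exact Nat.card_congr (MonoidHom.fiberEquivKer φ x)

theorem cyc_conj {E : Type*} [Group E] {g e : E} (h : IsConj g e)
    (hc : IsCyclic (centralizer {g})) : IsCyclic (centralizer {e}) := by
  obtain ⟨c, rfl⟩ := isConj_iff.1 h
  let f : centralizer {g} →* centralizer {c * g * c⁻¹} :=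
    ((MulAut.conj c).toMonoidHom.comp (centralizer {g}).subtype).codRestrict _ fun x =>
      mem_centralizer_singleton_iff.2 (by
        have := mem_centralizer_singleton_iff.1 x.2
        simp only [MonoidHom.comp_apply, MulEquiv.coe_toMonoidHom, MulAut.conj_apply, coe_subtype]
        calc c * x * c⁻¹ * (c * g * c⁻¹) = c * (x * g) * c⁻¹ := by group
          _ = _ := by rw [this]; group)
  refine isCyclic_of_surjective f fun y => ⟨⟨c⁻¹ * y * c, mem_centralizer_singleton_iff.2 ?_⟩,
    Subtype.ext (by simp [f, mul_assoc])⟩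
  have := mem_centralizer_singleton_iff.1 y.2
  calc c⁻¹ * y * c * g = c⁻¹ * (y * (c * g * c⁻¹)) * c := by group
    _ = _ := by rw [this]; group

open Classical in
theorem sum_class {E : Type*} [Group E] [Fintype E] (g : E) :
    ∑ e with IsConj g e, Nat.card (centralizer {e}) = Nat.card E := by
  have h1 : ∀ e, IsConj g e → Nat.card (centralizer {e}) = Nat.card (centralizer {g}) := by
    intro e he
    have h2 : (centralizer {e}).index = (centralizer {g}).index := by
      rw [← card_isConj_eq_index, ← card_isConj_eq_index]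
      exact Nat.card_congr (Equiv.subtypeEquivRight fun x => ⟨he.trans, he.symm.trans⟩)
    refine Nat.eq_of_mul_eq_mul_right (Nat.pos_of_ne_zero
      (index_ne_zero_of_finite (H := centralizer {g}))) ?_
    rw [card_mul_index, ← h2, card_mul_index]
  rw [Finset.sum_congr rfl fun e he => h1 e (Finset.mem_filter.1 he).2, Finset.sum_const,
    smul_eq_mul, ← Fintype.card_subtype, ← Nat.card_eq_fintype_card, card_isConj_eq_index,
    mul_comm, card_mul_index]

variable {Γ : Type*} [Group Γ] [Finite Γ] {K X : Subgroup Γ} {θ : IrrCharacter K}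
  {E : Type*} [Group E] [Finite E] {φ : X →* E}

theorem ct (hK : K ≤ X) (hX : X ≤ stab K θ.1) (hφ : Function.Surjective φ)
    (hker : ∀ x : X, φ x = 1 ↔ (x : Γ) ∈ K) (h2 : nOv X θ.1 = 2) :
    2 ∣ Nat.card E ∧ (∃ a b, Nat.card E = a ^ 2 + b ^ 2) ∧ ∀ g h : E, g ≠ 1 → h ≠ 1 →
      IsCyclic (centralizer {g}) → IsCyclic (centralizer {h}) → IsConj g h := by
  classical
  have := Fintype.ofFinite X
  have := Fintype.ofFinite E
  have := Fintype.ofFinite K
  have hXN := hX.trans (stab_le_normalizer _ _)
  have hcm : ∀ y g : X, (y : Γ) * g * (y : Γ)⁻¹ * (g : Γ)⁻¹ ∈ K ↔ φ y * φ g = φ g * φ y :=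
    fun y g => by
      rw [← commutatorElement_eq_one_iff_mul_comm, ← map_commutatorElement, hker]; rfl
  have heq : ∀ a b : X, φ a = φ b → (a : Γ) * (b : Γ)⁻¹ ∈ K := fun a b e =>
    (hker (a * b⁻¹)).1 (by rw [map_mul, map_inv, e, mul_inv_cancel])
  let GE : E → Prop := fun e => ∃ g : X, φ g = e ∧ Gd X θ.1 g
  have hGE : ∀ g : X, Gd X θ.1 g ↔ GE (φ g) := fun g => ⟨fun h => ⟨g, rfl, h⟩, by
    rintro ⟨g', e, h⟩ y hy hc
    rw [← sup_zpowers_eq (heq g' g e)]
    exact h y hy ((hcm ⟨y, hy⟩ g').2 (e ▸ (hcm ⟨y, hy⟩ g).1 hc))⟩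
  have hkc : Nat.card φ.ker = Nat.card K := Nat.card_congr
    ⟨fun x => ⟨x.1.1, (hker _).1 x.2⟩, fun k => ⟨⟨k, hK k.2⟩, (hker _).2 k.2⟩, fun _ => rfl,
      fun _ => rfl⟩
  have hXc : Nat.card X = Nat.card K * Nat.card E := by
    have := sum_comp_surj φ hφ fun _ => 1
    rw [hkc] at this
    simpa only [Finset.sum_const, Finset.card_univ, smul_eq_mul, mul_one,
      ← Nat.card_eq_fintype_card] using this
  have hG1 : Gd X θ.1 1 := fun y hy _ =>
    (ext_zpowers (hX hy)).mono (le_sup_left.trans le_sup_left) (by simp)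
  have hcount : ∑ e with GE e, Nat.card (centralizer {e}) = 2 * Nat.card E := by
    have h1 := card_mul_nOv hK hX
    simp only [hcm, hGE] at h1
    rw [h2, Finset.sum_congr rfl fun g _ => sum_comp_surj φ hφ
      (fun f => if f * φ g = φ g * f ∧ GE (φ g) then 1 else 0), ← Finset.mul_sum,
      sum_comp_surj φ hφ (fun e => ∑ f, if f * e = e * f ∧ GE e then 1 else 0), hkc, hXc] at h1
    have h3 : 2 * Nat.card E = ∑ e : E, ∑ f, if f * e = e * f ∧ GE e then 1 else 0 := by
      refine Nat.eq_of_mul_eq_mul_left (Nat.mul_pos (Nat.card_pos (α := K)) (Nat.card_pos (α := K))) ?_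
      rw [mul_assoc _ _ (∑ _, _), ← h1]
      ring
    rw [h3, Finset.sum_filter]
    refine Finset.sum_congr rfl fun e _ => ?_
    split_ifs with he
    · simp only [he, and_true, Finset.sum_boole, Nat.cast_id]
      rw [← Fintype.card_subtype, ← Nat.card_eq_fintype_card]
      exact Nat.card_congr (Equiv.subtypeEquivRight fun x => mem_centralizer_singleton_iff)
    · simp [he]
  have hGE1 : GE 1 := ⟨1, map_one φ, hG1⟩
  have hc1 : Nat.card (centralizer {(1 : E)}) = Nat.card E := by
    rw [show centralizer {(1 : E)} = ⊤ from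
      top_le_iff.1 fun x _ => mem_centralizer_singleton_iff.2 (by simp), card_top]
  refine ⟨?_, ?_, fun g h hg hh cg ch => ?_⟩
  · by_contra hodd
    rw [← Finset.add_sum_erase _ _ (a := 1) (by simpa using hGE1), hc1] at hcount
    have h3 : ∑ e ∈ (Finset.univ.filter GE).erase 1, (Nat.card (centralizer {e}) : ZMod 2) = 0 := by
      refine Finset.sum_involution (fun e _ => e⁻¹) (fun e _ => ?_) (fun e he _ h => ?_)
        (fun e he => ?_) fun e _ => inv_inv e
      · rw [show centralizer {e⁻¹} = centralizer {e} from Subgroup.ext fun x => by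
          simp only [mem_centralizer_singleton_iff]
          exact Commute.inv_right_iff]
        exact CharTwo.add_self_eq_zero _
      · refine hodd ?_
        have h4 : orderOf e = 2 := orderOf_eq_prime (by
          rw [pow_two]; nth_rewrite 1 [← h]; exact inv_mul_cancel e) (Finset.mem_erase.1 he).1
        exact h4 ▸ orderOf_dvd_natCard e
      · simp only [Finset.mem_erase, Finset.mem_filter, Finset.mem_univ, true_and] at he ⊢
        obtain ⟨h4, g, rfl, h5⟩ := he
        refine ⟨inv_ne_one.2 h4, g⁻¹, map_inv φ g, fun y hy hc => ?_⟩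
        rw [Subgroup.coe_inv, zpowers_inv]
        refine h5 y hy ((hcm ⟨y, hy⟩ g).2 ?_)
        have := (hcm ⟨y, hy⟩ g⁻¹).1 hc
        rw [map_inv] at this
        exact Commute.inv_right_iff.1 this
    rw [← Nat.cast_sum, show ∑ e ∈ (Finset.univ.filter GE).erase 1, Nat.card (centralizer {e}) =
      Nat.card E from Nat.add_left_cancel (hcount.trans (two_mul _))] at h3
    exact hodd ((ZMod.natCast_eq_zero_iff _ 2).1 h3)
  · have h1 := sum_coset hK hX 1
    have h3 : ∀ χ ∈ Finset.univ.filter fun χ : IrrCharacter X => Ov χ.1 θ.1,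
        ∑ k, χ.1 (inclusion hK k * 1) * conj (χ.1 (inclusion hK k * 1)) =
        ((Nat.card K * mlt (inclusion hK) χ.1 θ.1 ^ 2 : ℕ) : ℂ) := fun χ hχ => by
      have h4 := classInner_irr_self θ.2
      rw [classInner, inv_mul_eq_one₀ natCard_ne_zero] at h4
      simp only [mul_one, res_eq_of_sInv hK hXN ((le_stab_iff hXN).1 hX)
        (Finset.mem_filter.1 hχ).2.2]
      push_cast
      rw [h4, Finset.sum_mul]
      exact Finset.sum_congr rfl fun k _ => by rw [map_mul, Complex.conj_natCast]; ring
    rw [Finset.sum_congr rfl h3] at h1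
    obtain ⟨a, b, hab, e⟩ := Finset.card_eq_two.1 (show (Finset.univ.filter
        fun χ : IrrCharacter X => Ov χ.1 θ.1).card = 2 by
      rw [← Fintype.card_subtype, ← Nat.card_eq_fintype_card]; exact h2)
    rw [e, Finset.sum_pair hab] at h1
    simp only [Subgroup.coe_one, mul_one, mul_inv_cancel, inv_one, one_mem, hG1, and_self, if_true,
      Finset.sum_const, Finset.card_univ, nsmul_eq_mul, ← Nat.card_eq_fintype_card, hXc] at h1
    refine ⟨mlt (inclusion hK) a.1 θ.1, mlt (inclusion hK) b.1 θ.1,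
      Nat.eq_of_mul_eq_mul_left (Nat.card_pos (α := K)) ?_⟩
    rw [mul_add]
    exact_mod_cast h1.symm
  · by_contra hne
    have hcy : ∀ e : E, IsCyclic (centralizer {e}) → GE e := fun e hc => by
      obtain ⟨g, rfl⟩ := hφ e
      obtain ⟨w, hw⟩ := IsCyclic.exists_generator (α := centralizer {φ g})
      obtain ⟨t, ht⟩ := hφ w
      have key : ∀ y : X, φ y ∈ centralizer {φ g} → zpowers (y : Γ) ≤ K ⊔ zpowers (t : Γ) := by
        intro y hy
        obtain ⟨k, hk⟩ := hw ⟨_, hy⟩
        have h4 := heq y (t ^ k) (by rw [map_zpow, ht]; exact (congrArg Subtype.val hk).symm)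
        rw [zpowers_le]
        simpa using mul_mem (le_sup_left (b := zpowers (t : Γ)) h4)
          (le_sup_right (a := K) (zpow_mem (mem_zpowers (t : Γ)) k))
      refine ⟨g, rfl, fun y hy hc => (ext_zpowers (hX t.2)).mono (le_sup_left.trans le_sup_left)
        (sup_le (sup_le le_sup_left (key g (mem_centralizer_singleton_iff.2 rfl)))
          (key ⟨y, hy⟩ (mem_centralizer_singleton_iff.2 ((hcm ⟨y, hy⟩ g).1 hc))))⟩
    have hd : Disjoint (Finset.univ.filter (IsConj g)) (Finset.univ.filter (IsConj h)) :=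
      Finset.disjoint_filter.2 fun x _ a b => hne (a.trans b.symm)
    have h3 : ∑ e ∈ insert 1 ((Finset.univ.filter (IsConj g)) ∪ (Finset.univ.filter (IsConj h))),
        Nat.card (centralizer {e}) ≤ 2 * Nat.card E := by
      rw [← hcount]
      refine Finset.sum_le_sum_of_subset fun e he => ?_
      simp only [Finset.mem_insert, Finset.mem_union, Finset.mem_filter, Finset.mem_univ,
        true_and] at he ⊢
      rcases he with rfl | he | he
      · exact hGE1
      · exact hcy e (cyc_conj he cg)
      · exact hcy e (cyc_conj he ch)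
    rw [Finset.sum_insert (by simp [hg, hh]), Finset.sum_union hd, hc1] at h3
    have e1 : ∀ g : E, ∑ e ∈ Finset.univ.filter (IsConj g), Nat.card (centralizer {e}) =
      Nat.card E := fun g => by convert sum_class g
    have := Nat.card_pos (α := E)
    rw [e1, e1] at h3
    omega

end Cfsg.Agent.H17.K3
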