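import Cfsg.Agent.H17.K3a
import Cfsg.Agent.H17.K3b
import Cfsg.Agent.H34.NormNil
import Cfsg.Agent.H34.Harada
import Cfsg.Agent.H32.BasicAlg
import Cfsg.Agent.H4.MaxClass

/-! Blocks with normal defect group and at most three characters of height zero. -/

set_option autoImplicit false
set_option linter.unusedSectionVars false
set_option linter.style.haveILetI false

open scoped ComplexConjugate

namespace Cfsg.Agent.H17.K3

open Cfsg Cfsg.Agent.H32 Cfsg.Agent.H87 Cfsg.Agent.H34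

variable {p : ℕ} [hp : Fact p.Prime]

theorem gt_add {W E : Type*} [AddCommGroup W] [Finite W] [Group E] [Finite E]
    [Module (ZMod p) W] (σ : E → W →+ W) (h1 : ∀ v, σ 1 v = v)
    (hm : ∀ a b v, σ (a * b) v = σ a (σ b v))
    (hσ : ∀ a b, (∀ v, σ a v = σ b v) → a = b) (cop : ¬ p ∣ Nat.card E)
    (tr : ∀ v w : W, v ≠ 0 → w ≠ 0 → ∃ e, σ e v = w) (h2 : 2 ∣ Nat.card E)
    (hsq : ∃ a b, Nat.card E = a ^ 2 + b ^ 2)
    (cj : ∀ g h : E, g ≠ 1 → h ≠ 1 → IsCyclic (Subgroup.centralizer {g}) →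
      IsCyclic (Subgroup.centralizer {h}) → IsConj g h) : Nat.card W ≤ 3 := by
  let ρ : E →* Module.End (ZMod p) W :=
    { toFun := fun e => (σ e).toZModLinearMap p
      map_one' := LinearMap.ext h1
      map_mul' := fun a b => LinearMap.ext (hm a b) }
  have h : Hy ρ := ⟨fun a b e => hσ a b fun v => LinearMap.congr_fun e v, cop, tr, cj⟩
  exact h.main h2 hsq

theorem gt_mul {W E : Type*} [Group W] [Finite W] [Group E] [Finite E]
    (hab : ∀ a b : W, a * b = b * a) (hW : IsPGroup p W) (σ : E →* MulAut W)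
    (hσ : Function.Injective σ) (cop : ¬ p ∣ Nat.card E)
    (tr : ∀ v w : W, v ≠ 1 → w ≠ 1 → ∃ e, σ e v = w) (h2 : 2 ∣ Nat.card E)
    (hsq : ∃ a b, Nat.card E = a ^ 2 + b ^ 2)
    (cj : ∀ g h : E, g ≠ 1 → h ≠ 1 → IsCyclic (Subgroup.centralizer {g}) →
      IsCyclic (Subgroup.centralizer {h}) → IsConj g h) : Nat.card W ≤ 3 := by
  rcases subsingleton_or_nontrivial W with hs | hs
  · rw [Nat.card_of_subsingleton (1 : W)]; omega
  letI : CommGroup W := { (inferInstance : Group W) with mul_comm := hab }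
  have hexp : ∀ w : W, w ^ p = 1 := fun w => by
    obtain ⟨k, hk⟩ := hW.exists_card_eq
    have h1 : p ∣ Nat.card W := by
      rw [hk]
      refine dvd_pow_self p fun e => ?_
      rw [e, pow_zero] at hk
      exact Finite.one_lt_card.ne' hk
    obtain ⟨v, hv⟩ := exists_prime_orderOf_dvd_card' p h1
    by_cases hw : w = 1
    · rw [hw, one_pow]
    obtain ⟨e, rfl⟩ := tr v w (fun e => hp.out.one_lt.ne (by rw [← hv, e, orderOf_one])) hw
    rw [← map_pow, ← hv, pow_orderOf_eq_one, map_one]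
  exact @gt_add p hp (Additive W) E _ _ _ _ (AddCommGroup.zmodModule fun x => hexp x.toMul)
    (fun e => MonoidHom.toAdditive (σ e).toMonoidHom) (fun v => by simp) (fun a b v => by simp)
    (fun a b h => hσ (MulEquiv.ext fun v => h (Additive.ofMul v))) cop
    (fun v w hv hw => tr v.toMul w.toMul hv hw) h2 hsq cj

variable {G : Type*} [Group G] [Finite G] {M : Ideal AlgInt} [hMm : M.IsMaximal]
  {B : Set (IrrCharacter G)}

theorem rank_le_one (hM : IsPModular p M) (hB : IsPBlock M B) (V : Subgroup G) [hV : V.Normal]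
    (hVp : IsPGroup p V) {χ₀ : IrrCharacter G} (h₀ : χ₀ ∈ B)
    (hu : ∀ χ ∈ B, (∀ v ∈ V, (χ : G → ℂ) v = (χ : G → ℂ) 1) → χ = χ₀) : blockRank p B ≤ 1 := by
  classical
  have := Fintype.ofFinite G
  have := Fintype.ofFinite V
  let h : IrrCharacter G → G → ℂ := fun χ x => ∑ v : V, pRegularPart p (χ : G → ℂ) (v * x)
  have h1 : ∀ χ, IsClassFunction G (h χ) := fun χ g y => by
    refine (Fintype.sum_equiv (MulAut.conjNormal (H := V) y).toEquiv _ _ fun v => ?_).symm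
    rw [← H86.isClassFunction_reg (irr_isClassFunction χ) _ y]
    congr 1
    simp [mul_assoc]
  have h2 : ∀ χ ∈ B, ∀ η : IrrCharacter G, η ≠ χ₀ → classInner (h χ) η = 0 := by
    intro χ hχ η hη
    have h3 : ∀ y, ∑ v : V, (η : G → ℂ) (v * y) =
        (∑ v : V, (η : G → ℂ) v) / (η : G → ℂ) 1 * (η : G → ℂ) y := fun y => by
      have := H5.sum_mul_irr_mul η.2 (f := extendByZero V fun _ => 1) (fun g x => by
        by_cases hg : g ∈ V
        · rw [H6.extendByZero_of_mem _ _ hg, H6.extendByZero_of_mem _ _ (hV.conj_mem g hg x)]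
        · rw [H6.extendByZero_of_notMem _ _ hg, H6.extendByZero_of_notMem]
          exact fun h => hg (by simpa [mul_assoc] using hV.conj_mem _ h x⁻¹)) y
      rw [H6.sum_extendByZero_mul, H6.sum_extendByZero_mul] at this
      simpa using this
    have h4 : classInner (h χ) η = conj ((∑ v : V, (η : G → ℂ) v) / (η : G → ℂ) 1) *
        classInner (pRegularPart p (χ : G → ℂ)) η := by
      rw [classInner, classInner, mul_left_comm]
      congr 1
      rw [Finset.mul_sum]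
      simp only [h, Finset.sum_mul]
      rw [Finset.sum_comm, Finset.sum_congr rfl fun (v : V) _ => Fintype.sum_equiv
        (Equiv.mulLeft (v : G)) _ (fun y => pRegularPart p (χ : G → ℂ) y *
          conj ((η : G → ℂ) ((v⁻¹ : V) * y))) fun x => by simp, Finset.sum_comm]
      refine Finset.sum_congr rfl fun y _ => ?_
      rw [← Finset.mul_sum, ← map_sum, Fintype.sum_equiv (Equiv.inv V)
        (fun v : V => (η : G → ℂ) ((v⁻¹ : V) * y)) (fun v : V => (η : G → ℂ) (v * y)) fun v => rfl,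
        h3, map_mul]
      ring
    rw [h4]
    by_cases hηB : η ∈ B
    · have h5 : ¬ Over (NEmb.ofNormal V).ι (η : G → ℂ) (fun _ => 1) := fun h => hη (hu η hηB
        fun v hv => (over_one_iff (NEmb.ofNormal V)).1 h ⟨v, hv⟩)
      rw [Over, not_not, classInner, mul_eq_zero, inv_eq_zero,
        or_iff_right H5.natCard_ne_zero] at h5
      simp only [map_one, mul_one] at h5
      rw [show ∑ v : V, (η : G → ℂ) v = 0 from h5]
      simp
    · rw [H86.classInner_reg_eq_zero hM hB hχ hηB, mul_zero]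
  have h3 : ∀ χ ∈ B, ∀ x, h χ x = classInner (h χ) χ₀ * (χ₀ : G → ℂ) x := fun χ hχ x => by
    rw [H5.classFunction_apply_eq_sum (h1 χ) x, Finset.sum_eq_single χ₀
      (fun η _ hη => by rw [h2 χ hχ η hη, zero_mul]) (by simp)]
  let m : G → ℕ := fun x => ∑ v : V, if p ∣ orderOf (v * x) then 0 else 1
  have h4 : ∀ χ : IrrCharacter G, ∀ x, ¬ p ∣ orderOf x → h χ x = m x * (χ : G → ℂ) x := by
    intro χ x hx
    simp only [h, m, Nat.cast_sum, Finset.sum_mul]
    refine Finset.sum_congr rfl fun v _ => ?_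
    split_ifs with hv
    · rw [H86.reg_of_singular _ hv]; simp
    · rw [H86.reg_of_regular _ hv]
      have e : (v : G) * x = x * (x⁻¹ * v * x⁻¹⁻¹) := by group
      obtain ⟨w, -, hw⟩ := exists_conj_eq_of_regular V hVp (hV.conj_mem _ v.2 x⁻¹) hx (e ▸ hv)
      rw [e, ← hw, irr_isClassFunction χ]
      simp
  have h5 : ∀ x, ¬ p ∣ orderOf x → (m x : ℂ) ≠ 0 := fun x hx => by
    have := Finset.single_le_sum (f := fun v : V => if p ∣ orderOf (v * x) then 0 else 1)
      (fun _ _ => Nat.zero_le _) (Finset.mem_univ 1)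
    simp only [Subgroup.coe_one, one_mul, hx, if_false] at this
    exact Nat.cast_ne_zero.2 (by change 1 ≤ m x at this; omega)
  have r1 : ¬ p ∣ orderOf (1 : G) := by rw [orderOf_one, Nat.dvd_one]; exact hp.out.ne_one
  have h6 : classInner (h χ₀) χ₀ ≠ 0 := by
    have := h3 χ₀ h₀ 1
    rw [h4 _ _ r1] at this
    rw [← mul_right_cancel₀ (H5.degree_ne_zero χ₀.2) this]
    exact h5 1 r1
  have h7 : Submodule.span ℂ ((fun χ : IrrCharacter G => pRegularPart p (χ : G → ℂ)) '' B) ≤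
      Submodule.span ℂ {pRegularPart p (χ₀ : G → ℂ)} := by
    rw [Submodule.span_le]
    rintro _ ⟨χ, hχ, rfl⟩
    refine Submodule.mem_span_singleton.2
      ⟨classInner (h χ) χ₀ / classInner (h χ₀) χ₀, funext fun x => ?_⟩
    by_cases hx : p ∣ orderOf x
    · simp [H86.reg_of_singular _ hx]
    beta_reduce
    rw [Pi.smul_apply, H86.reg_of_regular _ hx, H86.reg_of_regular _ hx, smul_eq_mul]
    have e1 := h3 χ hχ x
    have e2 := h3 χ₀ h₀ x
    rw [h4 _ _ hx] at e1 e2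
    refine mul_left_cancel₀ (h5 x hx) ?_
    rw [e1, mul_left_comm, e2]
    field_simp
  refine (Submodule.finrank_mono h7).trans ?_
  simpa using finrank_span_le_card (R := ℂ) {pRegularPart p (χ₀ : G → ℂ)}

theorem trans_of_dual {P : Type*} [Group P] [Finite P] (hab : ∀ a b : P, a * b = b * a)
    (r : P → P → Prop) (hr : ∀ v, r v v)
    (h : ∀ ζ ζ' : IrrCharacter P, ζ ≠ H33.oneIrr P → ζ' ≠ H33.oneIrr P → ∃ e : P ≃* P,
      (∀ u, (ζ' : P → ℂ) u = (ζ : P → ℂ) (e u)) ∧ ∀ v u, r v (e u) ↔ r v u) {v w : P}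
    (hv : v ≠ 1) (hw : w ≠ 1) : r v w := by
  classical
  have := Fintype.ofFinite P
  let f : P → ℂ := fun u => if r v u then 1 else 0
  have hf : IsClassFunction P f := fun g x => by rw [hab x, mul_inv_cancel_right]
  obtain ⟨c, hc⟩ : ∃ c, ∀ ζ : IrrCharacter P, ζ ≠ H33.oneIrr P → classInner f ζ = c := by
    by_cases h0 : ∃ ζ : IrrCharacter P, ζ ≠ H33.oneIrr P
    · obtain ⟨ζ, hζ⟩ := h0
      refine ⟨classInner f ζ, fun ζ' hζ' => ?_⟩
      obtain ⟨e, h1, h2⟩ := h ζ ζ' hζ hζ'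
      rw [← H5.classInner_comp_equiv e f ζ]
      exact congrArg₂ classInner (funext fun u => by simp only [f, h2]) (funext h1)
    · exact ⟨0, fun ζ hζ => (h0 ⟨ζ, hζ⟩).elim⟩
  have key : ∀ u, u ≠ 1 → f u = classInner f (H33.oneIrr P) - c := fun u hu => by
    have h1 := H5.sum_degree_mul_irr u
    simp only [if_neg hu, fun ζ : IrrCharacter P => H5.degree_eq_one_of_comm hab ζ.2,
      one_mul] at h1
    rw [← Finset.add_sum_erase _ _ (Finset.mem_univ (H33.oneIrr P)), H33.oneIrr_apply] at h1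
    rw [H5.classFunction_apply_eq_sum hf u,
      ← Finset.add_sum_erase _ _ (Finset.mem_univ (H33.oneIrr P)), H33.oneIrr_apply,
      Finset.sum_congr rfl fun ζ hζ => by rw [hc ζ (Finset.mem_erase.1 hζ).1], ← Finset.mul_sum,
      eq_neg_of_add_eq_zero_right h1]
    ring
  have := (key w hw).trans (key v hv).symm
  by_contra hne
  simp [f, hne, hr v] at this

theorem card_corr_le {N : Type*} [Group N] [Fintype N] [Fintype G] {E : NEmb N G} {T : Subgroup G}
    [Fintype T] {b : Set (IrrCharacter N)} {B' : Set (IrrCharacter T)} (hM : IsPModular p M)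
    (hS : E.Stab T b) (hb : IsPBlock M b) (h1 : Covers (E.restrict T hS.le).ι B' b)
    (h2 : IndBlk M T.subtype B' B) : Nat.card B' ≤ Nat.card B := by
  choose f hf1 hf2 using fun ψ : B' => hS.exists_mem_indSet hM hb h2.1 h1 ψ.2
  rw [← hS.eq_indSet hM hb h1 h2] at hf1
  refine Nat.card_le_card_of_injective (fun ψ => (⟨f ψ, hf1 ψ⟩ : B)) fun ψ ψ' e => ?_
  have e' : f ψ = f ψ' := congrArg Subtype.val e
  have hs := h1.subset_overSet hM h2.1 (IsPBlock.closed hb)
  have ho : ∀ ψ : B', Over T.subtype (f ψ : G → ℂ) (ψ.1 : T → ℂ) := fun ψ => by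
    have := H6.classInner_indFun_right T (ψ.1 : T → ℂ) (irr_isClassFunction (f ψ))
    rw [← hf2, H5.classInner_irr_self (f ψ).2] at this
    exact this.symm.trans_ne one_ne_zero
  obtain ⟨θ', h3, h4⟩ := hs ψ.2
  have h0 := Over.trans (irr_isCharacter (f ψ)) (ho ψ) h4
  rw [NEmb.subtype_comp_restrict] at h0
  obtain ⟨α, -, -, h5⟩ := hS.exists_corr (χ := f ψ) ⟨θ', h3, h0⟩
  exact Subtype.ext ((h5 _ (hs ψ.2) (ho ψ)).trans (h5 _ (hs ψ'.2) (by rw [e']; exact ho ψ')).symm)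

theorem dich {N : Type*} [Group N] [Fintype N] (E : NEmb N G) {D : Subgroup N}
    {θ : IrrCharacter N} (hM : IsPModular p M) (hcan : Canon p D θ)
    (hθe : hcan.irr hM (H33.oneIrr D) = θ) (hθinv : ∀ t, E.act t θ = θ)
    (hab : ∀ a b : D, a * b = b * a) (hm : ∀ t (u : D), E.cj t u ∈ D)
    (hin : ∀ (ψ : IrrCharacter G) ζ, Over E.ι (ψ : G → ℂ) (hcan.irr hM ζ : N → ℂ) → ψ ∈ B)
    (hsub : ∀ ψ ∈ B, ∃ ζ, Over E.ι (ψ : G → ℂ) (hcan.irr hM ζ : N → ℂ)) (hk : Nat.card B ≤ 3)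
    [Nontrivial D] :
    (∃ χ₀ ∈ B, ∀ χ ∈ B, (∀ u : D, (χ : G → ℂ) (E.ι u) = (χ : G → ℂ) 1) → χ = χ₀) ∨
      (Nat.card {χ : IrrCharacter G // Over E.ι (χ : G → ℂ) (θ : N → ℂ)} = 2 ∧
        ∀ v w : D, v ≠ 1 → w ≠ 1 → ∃ t, E.cj t v = w) := by
  have := Fintype.ofFinite G
  choose ψ hψ using fun ζ => exists_over E.inj (hcan.irr hM ζ)
  obtain ⟨S, hSd⟩ : ∃ S : Set (IrrCharacter G),
      S = {χ : IrrCharacter G | Over E.ι (χ : G → ℂ) (θ : N → ℂ)} := ⟨_, rfl⟩
  have hov : ∀ χ, χ ∈ S ↔ Over E.ι (χ : G → ℂ) (θ : N → ℂ) := fun χ => by rw [hSd]; rfl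
  have hSB : S ⊆ B := fun χ hχ => hin χ (H33.oneIrr _) (by rw [hθe]; exact (hov χ).1 hχ)
  have hψS : ∀ ζ, ζ ≠ H33.oneIrr _ → ψ ζ ∉ S := fun ζ hζ h => by
    obtain ⟨g, hg⟩ := Over.exists_act_eq ((hov _).1 h) (hψ ζ)
    exact hζ (hcan.irr_injective hM (by rw [← hg, hθinv, hθe]))
  obtain ⟨ζ₀, hζ₀⟩ : ∃ ζ : IrrCharacter D, ζ ≠ H33.oneIrr _ := by
    by_contra! h
    obtain ⟨a, ha⟩ := exists_ne (1 : D)
    exact ha (H5.eq_one_of_forall_irr fun χ hχ => by
      rw [show χ = _ from congrArg Subtype.val (h ⟨χ, hχ⟩)]; rfl)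
  have hBc : B.ncard ≤ 3 := by rwa [← Nat.card_coe_set_eq]
  have hS1 : (insert (ψ ζ₀) S).ncard ≤ B.ncard :=
    Set.ncard_le_ncard (Set.insert_subset (hin _ _ (hψ ζ₀)) hSB)
  rw [Set.ncard_insert_of_notMem (hψS ζ₀ hζ₀)] at hS1
  have hS0 : ψ (H33.oneIrr _) ∈ S := (hov _).2 (by rw [← hθe]; exact hψ (H33.oneIrr _))
  by_cases hS2 : S.ncard ≤ 1
  · refine Or.inl ⟨_, hSB hS0, fun χ hχ hv => ?_⟩
    refine (Set.ncard_le_one (Set.toFinite S)).1 hS2 _ ((hov χ).2 ?_) _ hS0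
    obtain ⟨ζ, h4⟩ := hsub χ hχ
    have := Fintype.ofFinite D
    have h5 := Over.trans (κ := D.subtype) (θ := ζ) (irr_isCharacter χ) h4 (by
      unfold Over
      rw [show (fun n => (hcan.irr hM ζ : N → ℂ) (D.subtype n)) =
        (θ : N → ℂ) 1 • (ζ : _ → ℂ) from funext fun n => (hcan.irr_coe hM ζ n).trans
          (mul_comm _ _), H5.classInner_smul_left, H5.classInner_irr_self ζ.2, mul_one]
      exact H5.degree_ne_zero θ.2)
    unfold Over at h5
    rw [show (fun n => (χ : G → ℂ) ((E.ι.comp D.subtype) n)) =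
      (χ : G → ℂ) 1 • (H33.oneIrr D : D → ℂ) from funext fun n => by
        rw [Pi.smul_apply, H33.oneIrr_apply, smul_eq_mul, mul_one]; exact hv n,
      H5.classInner_smul_left] at h5
    have h6 := H5.eq_of_classInner_irr_ne_zero (H33.oneIrr D).2 ζ.2 (right_ne_zero_of_mul h5)
    rwa [← hθe, show H33.oneIrr D = ζ from Subtype.ext h6]
  have hψe : ∀ ζ, ζ ≠ H33.oneIrr _ → ψ ζ = ψ ζ₀ := fun ζ hζ => by
    by_contra hne
    have h3 : (insert (ψ ζ) (insert (ψ ζ₀) S)).ncard ≤ B.ncard := Set.ncard_le_ncard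
      (Set.insert_subset (hin _ _ (hψ ζ)) (Set.insert_subset (hin _ _ (hψ ζ₀)) hSB))
    rw [Set.ncard_insert_of_notMem (by simp [hne, hψS ζ hζ]),
      Set.ncard_insert_of_notMem (hψS ζ₀ hζ₀)] at h3
    omega
  refine Or.inr ⟨?_, fun v w hv hw => ?_⟩
  · have : Nat.card S = 2 := by rw [Nat.card_coe_set_eq]; omega
    rw [hSd] at this
    exact this
  refine trans_of_dual hab (fun v w => ∃ t, E.cj t v = w) (fun v => ⟨1, E.cj_one v⟩)
    (fun ζ ζ' hζ hζ' => ?_) hv hw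
  obtain ⟨t, ht⟩ := Over.exists_act_eq (hψ ζ)
    (by rw [(hψe ζ hζ).trans (hψe ζ' hζ').symm]; exact hψ ζ')
  let e : D ≃* D :=
    { toFun := fun u => ⟨_, hm t u⟩
      invFun := fun u => ⟨_, hm t⁻¹ u⟩
      left_inv := fun u => Subtype.ext (by
        change E.cj t⁻¹ (E.cj t u) = u
        rw [← E.cj_mul, inv_mul_cancel, E.cj_one])
      right_inv := fun u => Subtype.ext (by
        change E.cj t (E.cj t⁻¹ u) = u
        rw [← E.cj_mul, mul_inv_cancel, E.cj_one])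
      map_mul' := fun a c => Subtype.ext (map_mul (E.cj t) _ _) }
  refine ⟨e, fun u => mul_right_cancel₀ (H5.degree_ne_zero θ.2) ?_, fun v u => ⟨?_, ?_⟩⟩
  · rw [← hcan.irr_coe hM, ← hcan.irr_coe hM, ← ht, E.act_apply]; rfl
  · rintro ⟨s, hs⟩
    refine ⟨t⁻¹ * s, ?_⟩
    rw [E.cj_mul, hs]
    exact congrArg Subtype.val (e.left_inv u)
  · rintro ⟨s, hs⟩
    exact ⟨t * s, by rw [E.cj_mul, hs]; rfl⟩

theorem fin_case {P L T : Subgroup G} [hPn : P.Normal] [hLn : L.Normal] (hPp : IsPGroup p P)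
    (hab : P ≤ Ce P) (hLC : L = Ce P) (hLT : L ≤ T) (hd : ¬ p ∣ L.relIndex T)
    {θ : IrrCharacter L} (hX : T ≤ H89.stab L θ.1) (h2 : H86.OW.nOv T θ.1 = 2)
    (htr : ∀ v w : P, v ≠ 1 → w ≠ 1 → ∃ t ∈ T, t * v * t⁻¹ = w) : Nat.card P ≤ 3 := by
  have hn : (L.subgroupOf T).Normal := hLn.subgroupOf T
  let σ0 : T →* MulAut P := MulAut.conjNormal.comp T.subtype
  have hσ0 : ∀ t : T, σ0 t = 1 ↔ (t : G) ∈ L := fun t => by
    rw [hLC, mem_Ce]
    exact ⟨fun h q hq => (mul_inv_eq_iff_eq_mul.1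
      (congrArg (fun α : MulAut P => (α ⟨q, hq⟩ : G)) h)).symm,
      fun h => MulEquiv.ext fun q => Subtype.ext (mul_inv_eq_iff_eq_mul.2 (h q q.2).symm)⟩
  obtain ⟨c1, c2, c3⟩ := ct (φ := QuotientGroup.mk' (L.subgroupOf T)) hLT hX
    (QuotientGroup.mk'_surjective _) (fun x => QuotientGroup.eq_one_iff x) h2
  refine gt_mul (fun a c => Subtype.ext (mem_Ce.1 (hab c.2) _ a.2)) hPp
    (QuotientGroup.lift (L.subgroupOf T) σ0 fun t ht => (hσ0 t).2 ht)
    ((injective_iff_map_eq_one _).2 fun q hq => ?_) hd (fun v w hv hw => ?_) c1 c2 c3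
  · obtain ⟨t, rfl⟩ := QuotientGroup.mk_surjective q
    exact (QuotientGroup.eq_one_iff t).2 ((hσ0 t).1 hq)
  · obtain ⟨t, ht, e⟩ := htr v w hv hw
    exact ⟨((⟨t, ht⟩ : T) : T ⧸ L.subgroupOf T), Subtype.ext e⟩

theorem card_le_of_abelian (hM : IsPModular p M) (hB : IsPBlock M B) {P : Subgroup G}
    (hPn : P.Normal) (hP : IsDefectGroup p M B P) (hab : P ≤ Ce P) (hk : Nat.card B ≤ 3) :
    Nat.card P ≤ 3 := by
  classical
  have := Fintype.ofFinite G
  obtain ⟨L, hL⟩ : ∃ L, L = P ⊔ Ce P := ⟨_, rfl⟩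
  have hLC : L = Ce P := hL.trans (sup_eq_right.2 hab)
  have hLn : L.Normal := hL ▸ Subgroup.sup_normal _ _
  have hPL : P ≤ L := hLC ▸ hab
  have := Fintype.ofFinite L
  have hPp := IsDefectGroup.isPGroup hP
  set E := NEmb.ofNormal L with hE
  have hr : E.ι.range = L := L.range_subtype
  have hr1 : P ≤ E.ι.range := by rw [hr]; exact hPL
  have hr2 : Ce P ≤ E.ι.range := by rw [hr]; exact hLC.ge
  obtain ⟨b, hb, hcov⟩ := exists_covered (M := M) E.ι (IsPBlock.nonempty hB)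
  have hind := hcov.indBlk_of_Ce_le hM hB hb hPn hPp hr2
  have hbP : IsDefectGroup p M b (P.subgroupOf L) := hind.isDefectGroup_comap hM E.inj hP
    hr1 (by rw [No, Subgroup.normalizer_eq_top]; exact le_top)
  obtain ⟨T, hS⟩ : ∃ T, E.Stab T b := ⟨_, NEmb.stab_stabOf hb⟩
  have := Fintype.ofFinite T
  have hLT : L ≤ T := fun x hx => hS.le ⟨x, hx⟩
  have hd := hS.defect_eq_of_Ce_le hM hb hB hcov hPn hPp hr1 hr2
  let eP : P.subgroupOf L ≃* P := Subgroup.subgroupOfEquivOfLe hPL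
  rw [← factorization_card_defectGroup hM hB hP, ← factorization_card_defectGroup hM hb hbP,
    Nat.card_congr eP.toEquiv, hr] at hd
  have hd0 : ¬ p ∣ L.relIndex T := fun h => by
    have := hp.out.factorization_pos_of_dvd Subgroup.index_ne_zero_of_finite h
    change 0 < (L.relIndex T).factorization p at this
    omega
  obtain ⟨B', h1, h2⟩ := hS.exists_indBlk hM hb hB hcov
  obtain ⟨θ, hθ, hcan, hθ1, -⟩ := exists_canon hM (D := P.subgroupOf L)
    (by subst hL; exact subgroupOf_sup_Ce_eq_top P) hb hbP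
  have hk' := (card_corr_le hM hS hb h1 h2).trans hk
  have hdf := hS.blockDefect_eq hM hb h1 h2
  have hinv := hS.inv_restrict
  have hrg : (E.restrict T hS.le).ι.range = L.subgroupOf T := by rw [E.range_restrict, hr]
  have hι : ∀ n, (((E.restrict T hS.le).ι n : T) : G) = n := fun _ => rfl
  have hov : ∀ ψ : IrrCharacter T, H86.OW.Ov ψ.1 θ.1 ↔
      Over (E.restrict T hS.le).ι (ψ : T → ℂ) (θ : L → ℂ) :=
    fun ψ => ⟨fun h => (H89.mlt_ne_zero_iff _ ψ θ).1 h.2,
      fun h => ⟨hLT, (H89.mlt_ne_zero_iff _ ψ θ).2 h⟩⟩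
  generalize E.restrict T hS.le = E' at h1 hinv hrg hι hov
  have hcj : ∀ (t : T) (u : L), ((E'.cj t u : L) : G) = t * u * (t : G)⁻¹ := fun t u => by
    rw [← hι, E'.ι_cj, ← hι u]; rfl
  have hbe : ∀ η, η ∈ b ↔ ∃ ζ, hcan.irr hM ζ = η := fun η => by
    rw [IsPBlock.eq_blockOf hb hθ, hcan.blockOf_eq hM]; rfl
  have huniq : ∀ η ∈ b, (∀ u ∈ P.subgroupOf L, (η : L → ℂ) u = (η : L → ℂ) 1) →
      η = hcan.irr hM (H33.oneIrr _) := fun η hη h => by
    obtain ⟨ζ, rfl⟩ := (hbe η).1 hη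
    refine congrArg _ (Subtype.ext (H5.eq_one_of_forall_eq_degree ζ.2 fun u => ?_))
    have := h u u.2
    rw [hcan.irr_coe, hcan.irr_one] at this
    exact mul_right_cancel₀ (H5.degree_ne_zero θ.2) this
  have hm : ∀ (t : T) (u : P.subgroupOf L), E'.cj t u ∈ P.subgroupOf L := fun t u => by
    rw [Subgroup.mem_subgroupOf, hcj]
    exact hPn.conj_mem _ u.2 t
  have hθinv : ∀ t : T, E'.act t θ = θ := fun t => by
    rw [huniq _ (hinv t θ hθ) fun u hu => ?_, ← huniq θ hθ hθ1]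
    rw [E'.act_degree, E'.act_apply]
    exact hθ1 _ (hm t ⟨u, hu⟩)
  have hC : Ce (P.subgroupOf T) ≤ E'.ι.range := by
    rw [hrg]
    exact Ce_subgroupOf_le (hPL.trans hLT) hLC.ge
  rcases subsingleton_or_nontrivial (P.subgroupOf L) with hs | hs
  · rw [← Nat.card_congr eP.toEquiv, Nat.card_of_subsingleton (1 : P.subgroupOf L)]; omega
  rcases dich (B := B') E' hM hcan (huniq θ hθ hθ1).symm hθinv
    (fun a b => Subtype.ext (Subtype.ext (mem_Ce.1 (hab b.2) _ a.2))) hm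
    (fun ψ ζ hψ => by
      have h3 : Covers E'.ι (blockOf M (ψ : T → ℂ)) b :=
        ⟨ψ, H34.mem_blockOf_self ψ, _, (hbe _).2 ⟨ζ, rfl⟩, hψ⟩
      rw [← (h3.indBlk_of_Ce_le hM (H34.isPBlock_blockOf ψ) hb (hPn.subgroupOf T)
        hPp.comap_subtype hC).unique (h1.indBlk_of_Ce_le hM h2.1 hb (hPn.subgroupOf T)
        hPp.comap_subtype hC)]
      exact H34.mem_blockOf_self ψ)
    (fun ψ hψ => by
      obtain ⟨θ', h3, h4⟩ := h1.subset_overSet hM h2.1 (IsPBlock.closed hb) hψ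
      obtain ⟨ζ, rfl⟩ := (hbe _).1 h3
      exact ⟨ζ, h4⟩) hk' with ⟨χ₀, h3, h4⟩ | ⟨h3, h4⟩
  · have hrk := rank_le_one hM h2.1 (P.subgroupOf T) (hV := hPn.subgroupOf T) hPp.comap_subtype
      h3 fun χ hχ hv => h4 χ hχ fun u => hv _ (by
        rw [Subgroup.mem_subgroupOf, hι]; exact u.2)
    have h5 := card_eq_of_rank_one_of_le_four hM h2.1 (le_antisymm hrk
      (H86.one_le_blockRank hp.out (IsPBlock.nonempty h2.1))) (by omega)
    rw [← hdf, ← H34.card_defectGroup hM hB hP] at h5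
    omega
  · refine fin_case hPp hab hLC hLT hd0 (θ := θ) (fun t ht =>
      ⟨by rw [Subgroup.normalizer_eq_top]; trivial, fun n n' e => ?_⟩)
      ((Nat.card_congr (Equiv.subtypeEquivRight hov)).trans h3) fun v w hv hw => ?_
    · rw [show n' = E'.cj ⟨t, ht⟩ n from Subtype.ext (e.trans (hcj ⟨t, ht⟩ n).symm),
        ← E'.act_apply, hθinv]
    · obtain ⟨t, ht⟩ := h4 (eP.symm v) (eP.symm w) (by simpa using hv) (by simpa using hw)
      exact ⟨t, t.2, (hcj t _).symm.trans (congrArg Subtype.val ht)⟩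

theorem card_le_of_normal (hM : IsPModular p M) (hB : IsPBlock M B) {D : Subgroup G}
    (hDn : D.Normal) (hD : IsDefectGroup p M B D)
    (hk : Nat.card {χ : IrrCharacter G // χ ∈ B ∧ blockHeight p B (χ : G → ℂ) = 0} ≤ 3) :
    Nat.card D ≤ 3 := by
  let π := QuotientGroup.mk' ⁅D, D⁆
  have hπ : Function.Surjective π := QuotientGroup.mk'_surjective _
  have hk' : π.ker = ⁅D, D⁆ := QuotientGroup.ker_mk' _
  have hDp := IsDefectGroup.isPGroup hD
  obtain ⟨b, hb, hbB, -⟩ := exists_block_defectGroup_map hM hπ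
    (hDp.to_le (hk'.le.trans (Subgroup.commutator_le_left D D))) hB
  obtain ⟨h1, h2, h3⟩ := height_infl_eq_zero hM hB hD hπ hk' hb hbB
  have h4 := card_le_of_abelian hM hb (hDn.map π hπ) h1 h2 (le_trans
    (Nat.card_le_card_of_injective (fun χ : b => (⟨infl hπ χ, hbB χ.2, h3 χ χ.2⟩ :
      {χ : IrrCharacter G // χ ∈ B ∧ blockHeight p B (χ : G → ℂ) = 0})) fun a c e =>
        Subtype.ext (infl_injective hπ (congrArg Subtype.val e))) hk)
  let f : D →* D.map π := π.subgroupMap D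
  have hker : f.ker = commutator D := by
    ext x
    rw [MonoidHom.mem_ker, Subtype.ext_iff, ← Subgroup.mem_map_iff_mem D.subtype_injective,
      Subgroup.map_subtype_commutator]
    exact QuotientGroup.eq_one_iff (x : G)
  have h5 : (commutator D).index = Nat.card (D.map π) := by
    rw [← hker, Subgroup.index_ker, MonoidHom.range_eq_top.2 (π.subgroupMap_surjective D),
      Subgroup.card_top]
  by_cases hc : IsCyclic D
  · have := hc.isMulCommutative
    rw [commutator_eq_bot, Subgroup.index_bot] at h5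
    omega
  · have := H4.sq_le_index_commutator hDp hc
    nlinarith [hp.out.two_le]

end Cfsg.Agent.H17.K3
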